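import Mathlib
import Cfsg.Agent.BLK.SymAlt

/-!
# The defect groups of the alternating groups are Sylow subgroups on their support
-/

set_option autoImplicit false

open Finset Equiv Subgroup Cfsg CL.Blk CL.Sym
open scoped CL.MSS

namespace CL.SP

namespace AltSupp

theorem mem_range {Ω A : Type*} [Fintype A] [DecidableEq A] (e : Ω ↪ A) {g : Perm A}
    (h : ∀ a ∈ g.support, a ∈ Set.range e) : ∃ s : Perm Ω, Perm.viaEmbeddingHom e s = g := by
  have h0 : ∀ a, a ∉ Set.range e → g a = a := fun a ha => by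
    by_contra h'
    exact ha (h a (Perm.mem_support.2 h'))
  have h1 : ∀ a, g a ∈ Set.range e ↔ a ∈ Set.range e := fun a => by
    by_cases h' : g a = a
    · rw [h']
    · exact iff_of_true (h _ (Perm.apply_mem_support.2 (Perm.mem_support.2 h')))
        (h _ (Perm.mem_support.2 h'))
  refine ⟨(ofInjective e e.2).symm.permCongr (g.subtypePerm h1), Equiv.ext fun a => ?_⟩
  rw [Perm.viaEmbeddingHom_apply]
  by_cases ha : a ∈ Set.range e
  · obtain ⟨b, rfl⟩ := ha
    rw [Perm.viaEmbedding_apply, permCongr_apply, symm_symm]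
    exact apply_ofInjective_symm e.2 _
  · rw [Perm.viaEmbedding_apply_of_notMem _ _ _ ha, h0 a ha]

end AltSupp

/-- Copy the proof of `exists_equiv_alt` up to `h2`:
`x •ᶜ (Q ⊓ A Ω).map (viaEmbeddingHom e) = E.map subtype` (`exists_cover`, `Ω = Fin (p * wt p lam)`).
Put `T = univ.image (x ∘ e)`. A `p`-subgroup `R` supported in `T` is `x •ᶜ R'.map (viaEmbeddingHom e)`
with `R' = comap ..` a `p`-subgroup of `A Ω` (a permutation supported in the range of `e` is in the
range of `viaEmbeddingHom e`; `sign_viaEmbedding`); a conjugate of `R'` lies in `Q ⊓ A Ω`. -/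
theorem exists_support_alt {A : Type*} [Fintype A] [DecidableEq A] {p : ℕ} {M : Ideal AlgInt}
    (hM : IsPModular p M) {b : Set (IrrCharacter (alternatingGroup A))} (hb : IsPBlock M b)
    {E : Subgroup (alternatingGroup A)} (hE : IsDefectGroup p M b E) :
    ∃ T : Finset A, (∀ g ∈ E, (g : Perm A).support ⊆ T) ∧
      ∀ R : Subgroup (alternatingGroup A), IsPGroup p R → (∀ r ∈ R, (r : Perm A).support ⊆ T) →
        Nat.card R ≤ Nat.card E := by
  have := Fact.mk hM.1
  obtain ⟨lam, hl, hcov⟩ := exists_cover hM le_rfl hb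
  have hΩ : Fintype.card (Fin (p * wt p lam)) = p * wt p lam := Fintype.card_fin _
  let Q : Sylow p (Perm (Fin (p * wt p lam))) := default
  have hB := isPBlock_blk hM le_rfl hl
  obtain ⟨e⟩ := exists_emb hM.1.pos hl hΩ
  obtain ⟨D, hD, h⟩ := SDef.exists_inf_eq hM.1 (natCast_F hM) (isSB_top_eB hM hB) (isSB_sb hM hb)
    le_top (normalizer_eq_top _).ge hcov ((isDefectGroup_iff_sDef hM hb).1 hE)
  obtain ⟨x, rfl⟩ := (isDefectGroup_blk hM le_rfl hl hΩ e Q).1.exists_cj_eq hM hB
    ((isDefectGroup_iff_sDef_top hM hB).2 hD)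
  refine ⟨univ.image fun i => x (e i), fun g hg a ha => ?_, fun R hR hs => ?_⟩
  · obtain ⟨_, ⟨s, -, rfl⟩, e1⟩ := (h.ge ⟨g, hg, rfl⟩).1
    have e2 : x * Perm.viaEmbeddingHom e s * x⁻¹ = g := e1
    by_cases h' : x⁻¹ a ∈ Set.range e
    · obtain ⟨i, hi⟩ := h'
      exact mem_image.2 ⟨i, mem_univ _, by rw [hi]; simp⟩
    · refine absurd ?_ (Perm.mem_support.1 ha)
      rw [← e2, Perm.mul_apply, Perm.mul_apply, Perm.viaEmbeddingHom_apply,
        Perm.viaEmbedding_apply_of_notMem _ _ _ h']
      simp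
  · let φ : Perm (Fin (p * wt p lam)) →* Perm A :=
      (MulAut.conj x).toMonoidHom.comp (Perm.viaEmbeddingHom e)
    have inj : Function.Injective φ :=
      (MulAut.conj x).injective.comp (Perm.viaEmbeddingHom_injective e)
    have sg : ∀ s, Perm.sign (φ s) = Perm.sign s := fun s => by
      have : φ s = x * Perm.viaEmbeddingHom e s * x⁻¹ := rfl
      rw [this, Perm.sign_mul, Perm.sign_mul, Perm.sign_inv, mul_right_comm, Int.units_mul_self,
        one_mul, sign_viaEmbedding]
    have le : R.map (alternatingGroup A).subtype ≤ φ.range := by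
      rintro _ ⟨r, hr, rfl⟩
      obtain ⟨s, e1⟩ := AltSupp.mem_range e (g := x⁻¹ * (r : Perm A) * x) fun a ha => by
        have h1 : x a ∈ (r : Perm A).support := Perm.mem_support.2 fun h' =>
          Perm.mem_support.1 ha (by rw [Perm.mul_apply, Perm.mul_apply, h']; simp)
        obtain ⟨i, -, hi⟩ := mem_image.1 (hs r hr h1)
        exact ⟨i, x.injective hi⟩
      refine ⟨s, ?_⟩
      show x * Perm.viaEmbeddingHom e s * x⁻¹ = r
      rw [e1]
      group
    have c1 : Nat.card ((R.map (alternatingGroup A).subtype).comap φ) = Nat.card R := by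
      rw [← card_map_of_injective inj, map_comap_eq_self le, card_map_of_injective (subtype_injective _)]
    obtain ⟨Q', hQ'⟩ := ((hR.map (alternatingGroup A).subtype).comap_of_injective φ inj).exists_le_sylow
    obtain ⟨f⟩ := exists_equiv_alt hM le_rfl hl hb hcov hE hΩ Q'
    rw [← c1, Nat.card_congr f.toEquiv]
    refine card_le_of_le (le_inf hQ' ?_)
    rintro s ⟨r, -, e1⟩
    exact (sg s).symm.trans (e1 ▸ r.2)

end CL.SP
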