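import Mathlib
import Cfsg.Agent.BLK.SymChar
import Cfsg.Prelude.Def_Blocks

/-!
# Heights in the covers of the alternating groups: the predicates
-/

set_option autoImplicit false

open Equiv Subgroup Cfsg CL.Sym

namespace CL.SP

/-- The valuation bound: if `ψ g ≠ 0` and the cycles of `π g` of length divisible by `p` cover
`p * w` points, then `ψ` has defect at least `w`. -/
def VB (p : ℕ) {G : Type*} [Group G] {n : ℕ} (π : G →* Perm (Fin n)) (ψ : G → ℂ) : Prop :=
  ∀ g, ψ g ≠ 0 → ∀ w : ℕ, p * w ≤ ((parts (π g)).filter (p ∣ ·)).sum →
    (charDegree ψ).factorization p + w ≤ n.factorial.factorization p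

/-- The defect bound: `a` is the valuation of the degree, `d` that of the group order. -/
def DB (p a d : ℕ) (D : Type*) [Group D] : Prop :=
  a + (Nat.card (center D)).factorization p ≤ d ∧
    (¬ IsMulCommutative D → a + (Nat.card (center D)).factorization p < d)

/-- The defect groups for which the general theory decides. -/
def Small (p : ℕ) (D : Type*) [Group D] : Prop :=
  Nat.card D ∣ p ^ 2 ∨ IsCyclic D ∨ (¬ IsMulCommutative D ∧ Nat.card (center D) = p)

/-- Either bound. -/
def Good (p a d : ℕ) (D : Type*) [Group D] : Prop := DB p a d D ∨ Small p D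

end CL.SP
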