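import Mathlib

/-!
# Neutral free fermions: the combinatorial data of the spin characters of the symmetric groups

`Fk` is the Fock space with basis `bv S` (`S` a finite set of parts).  `phi a` are the neutral
fermions, `Bo k` (`k` odd) the bosons, `X S ν` the value of the Morris recursion.
-/

set_option autoImplicit false

open Finset

namespace CL.SP

/-- The Fock space. -/
abbrev Fk := Finset ℕ →₀ ℚ

/-- The basis vector of a finite set of parts. -/
noncomputable abbrev bv (S : Finset ℕ) : Fk := Finsupp.single S 1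

/-- The sign of moving `a` past the larger elements of `S`. -/
def sg (a : ℕ) (S : Finset ℕ) : ℚ := (-1) ^ #{s ∈ S | a < s}

/-- The fermion `φ_a` on a basis vector: creation for `a > 0`, parity for `a = 0`, twice
the annihilation for `a < 0`. -/
noncomputable def phiB (a : ℤ) (S : Finset ℕ) : Fk :=
  if 0 < a then (if a.natAbs ∈ S then 0 else sg a.natAbs S • bv (insert a.natAbs S))
  else if a = 0 then (-1 : ℚ) ^ #S • bv S
  else if a.natAbs ∈ S then (2 * (-1) ^ a.natAbs * sg a.natAbs S) • bv (S.erase a.natAbs) else 0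

/-- The fermion `φ_a`. -/
noncomputable def phi (a : ℤ) : Module.End ℚ Fk := Finsupp.linearCombination ℚ (phiB a)

theorem phi_bv (a : ℤ) (S : Finset ℕ) : phi a (bv S) = phiB a S := by
  simp [phi]

/-- `φ_{l₁} ⋯ φ_{l_m}` applied to the vacuum. -/
noncomputable def ket : List ℤ → Fk
  | [] => bv ∅
  | a :: l => phi a (ket l)

/-- The symmetric bilinear form with `⟨bv S, bv S⟩ = 2 ^ #S`. -/
noncomputable def fm : Fk →ₗ[ℚ] Fk →ₗ[ℚ] ℚ :=
  Finsupp.linearCombination ℚ fun S => (2 : ℚ) ^ #S • Finsupp.lapply S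

theorem fm_bv (S : Finset ℕ) (w : Fk) : fm (bv S) w = 2 ^ #S * w S := by
  simp [fm]

/-- The truncated boson. -/
noncomputable def Bq (k : ℤ) (N : ℕ) : Module.End ℚ Fk :=
  (1 / 4 : ℚ) • ∑ i ∈ Icc (-(N : ℤ)) N, (-1 : ℚ) ^ i.natAbs • (phi (k - i) * phi i)

/-- The boson `B_k = (1/4) ∑_i (-1)^i φ_{k-i} φ_i` (the sum is finite on each vector). -/
noncomputable def Bo (k : ℤ) : Module.End ℚ Fk :=
  Finsupp.linearCombination ℚ fun S => Bq k (S.sum id + k.natAbs) (bv S)

theorem Bo_bv (k : ℤ) (S : Finset ℕ) : Bo k (bv S) = Bq k (S.sum id + k.natAbs) (bv S) := by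
  simp [Bo]

/-- Lowering by the parts of a list. -/
noncomputable def low : List ℕ → Module.End ℚ Fk
  | [] => 1
  | k :: ν => low ν * Bo (-(k : ℤ))

/-- The vacuum coefficient of `v` lowered by the parts of `ν`. -/
noncomputable def XV (v : Fk) (ν : Multiset ℕ) : ℚ := low ν.toList v ∅

/-- The Morris number `X_S(ν)`. -/
noncomputable def X (S : Finset ℕ) (ν : Multiset ℕ) : ℚ := XV (bv S) ν

/-- The parts of `S` in decreasing order. -/
noncomputable def srt (S : Finset ℕ) : List ℤ := (S.sort (· ≥ ·)).map fun a : ℕ => (a : ℤ)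

/-- The strict partitions of `n`. -/
def strict (n : ℕ) : Finset (Finset ℕ) := {S ∈ (Icc 1 n).powerset | S.sum id = n}

/-- `T` arises from `S` by removing a bar of length `k`. -/
def Bar (k : ℕ) (S T : Finset ℕ) : Prop :=
  (∃ a ∈ S, k < a ∧ a - k ∉ S ∧ T = insert (a - k) (S.erase a)) ∨ (k ∈ S ∧ T = S.erase k) ∨
    ∃ a ∈ S, ∃ b ∈ S, a ≠ b ∧ a + b = k ∧ T = (S.erase a).erase b

/-- The number of bars of `S` of length divisible by `m`. -/
def Nm (m : ℕ) (S : Finset ℕ) : ℤ :=
  ∑ a ∈ S, ((a / m : ℕ) + #{b ∈ S | b < a ∧ m ∣ a + b} - #{b ∈ S | b < a ∧ m ∣ a - b} : ℤ)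

/-- Schur's degree formula. -/
def gS (S : Finset ℕ) : ℚ :=
  ((S.sum id).factorial : ℚ) / (∏ a ∈ S, (a.factorial : ℚ)) *
    ∏ a ∈ S, ∏ b ∈ S with b < a, ((a : ℚ) - b) / (a + b)

/-- Lowering the part `a` of `S` by one. -/
def dn (S : Finset ℕ) (a : ℕ) : Finset ℕ := (insert (a - 1) (S.erase a)).erase 0

/-- The order of the centralizer of a permutation with cycle lengths `ν`. -/
def zc (ν : Multiset ℕ) : ℕ := ν.prod * ∏ k ∈ ν.toFinset, (ν.count k).factorial

end CL.SP
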