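import Mathlib
import Cfsg.Agent.BLK.SP.FDefs
import Cfsg.Agent.Eqns.CL_SP_ket

/-!
# The neutral fermions: relations, adjoints, kets

All operator identities are checked on the basis `bv S` (`Finsupp.lhom_ext'`/`Finsupp.induction_linear`,
`phi_bv`, unfold `phiB`, split on the signs of `a, b` and on membership in `S`).
Sign rules: for `b ∉ S`, `sg a (insert b S) = if a < b then -sg a S else sg a S`; for `b ∈ S`,
`sg a (S.erase b) = if a < b then -sg a S else sg a S`; `sg a S * sg a S = 1`.
-/

set_option autoImplicit false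

open Finset

namespace CL.SP

namespace Phi

theorem sg_insert (a : ℕ) {b : ℕ} {S : Finset ℕ} (h : b ∉ S) :
    sg a (insert b S) = if a < b then -sg a S else sg a S := by
  unfold sg
  rw [filter_insert]
  split_ifs with c
  · rw [card_insert_of_notMem (fun q => h (mem_filter.1 q).1), pow_succ, mul_neg_one]
  · rfl

theorem sg_erase (a : ℕ) {b : ℕ} {S : Finset ℕ} (h : b ∈ S) :
    sg a (S.erase b) = if a < b then -sg a S else sg a S := by
  have := sg_insert a (notMem_erase b S)
  rw [insert_erase h] at this
  split_ifs at this ⊢ with c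
  · rw [this, neg_neg]
  · exact this.symm

theorem sg_sq (a : ℕ) (S : Finset ℕ) : sg a S * sg a S = 1 := by
  unfold sg
  rw [← mul_pow, neg_one_mul, neg_neg, one_pow]

theorem phi_single (a : ℤ) (S T : Finset ℕ) (c : ℚ) : phi a (Finsupp.single S c) T = c * phiB a S T := by
  simp [phi]

theorem phi_pos {n : ℕ} (hn : 0 < n) (v : Fk) (T : Finset ℕ) :
    phi n v T = if n ∈ T then sg n T * v (T.erase n) else 0 := by
  induction v using Finsupp.induction_linear with
  | zero => simp
  | add v w hv hw =>
    rw [map_add, Finsupp.add_apply, hv, hw, Finsupp.add_apply]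
    split_ifs
    · ring
    · simp
  | single S c =>
    rw [phi_single, phiB, if_pos (Int.natCast_pos.2 hn), Int.natAbs_natCast]
    by_cases e : n ∈ T ∧ S = T.erase n
    · obtain ⟨h, rfl⟩ := e
      rw [if_neg (notMem_erase _ _), if_pos h, insert_erase h, sg_erase n h, if_neg (lt_irrefl n)]
      simp [mul_comm]
    · have r : (if n ∈ T then sg n T * Finsupp.single S c (T.erase n) else 0) = 0 := by
        split_ifs with h
        · rw [Finsupp.single_eq_of_ne fun q => e ⟨h, q.symm⟩, mul_zero]
        · rfl
      rw [r]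
      split_ifs with h
      · simp
      · rw [Finsupp.smul_apply, Finsupp.single_eq_of_ne, smul_zero, mul_zero]
        rintro rfl
        exact e ⟨mem_insert_self _ _, (erase_insert h).symm⟩

theorem phi_neg {n : ℕ} (hn : 0 < n) (v : Fk) (T : Finset ℕ) :
    phi (-(n : ℤ)) v T = if n ∈ T then 0 else 2 * (-1) ^ n * sg n T * v (insert n T) := by
  induction v using Finsupp.induction_linear with
  | zero => simp
  | add v w hv hw =>
    rw [map_add, Finsupp.add_apply, hv, hw, Finsupp.add_apply]
    split_ifs
    · simp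
    · ring
  | single S c =>
    rw [phi_single, phiB, if_neg (by omega), if_neg (by omega), Int.natAbs_neg, Int.natAbs_natCast]
    by_cases e : n ∉ T ∧ S = insert n T
    · obtain ⟨h, rfl⟩ := e
      rw [if_pos (mem_insert_self _ _), if_neg h, erase_insert h, sg_insert n h, if_neg (lt_irrefl n)]
      simp [mul_comm]
    · have r : (if n ∈ T then 0 else 2 * (-1) ^ n * sg n T * Finsupp.single S c (insert n T)) = 0 := by
        split_ifs with h
        · rfl
        · rw [Finsupp.single_eq_of_ne fun q => e ⟨h, q.symm⟩, mul_zero]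
      rw [r]
      split_ifs with h
      · rw [Finsupp.smul_apply, Finsupp.single_eq_of_ne, smul_zero, mul_zero]
        rintro rfl
        exact e ⟨notMem_erase _ _, (insert_erase h).symm⟩
      · simp

theorem phi_zero (v : Fk) (T : Finset ℕ) : phi 0 v T = (-1) ^ #T * v T := by
  induction v using Finsupp.induction_linear with
  | zero => simp
  | add v w hv hw => rw [map_add, Finsupp.add_apply, hv, hw, Finsupp.add_apply, mul_add]
  | single S c =>
    rw [phi_single, phiB, if_neg (lt_irrefl _), if_pos rfl]
    by_cases e : T = S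
    · subst e; simp [mul_comm]
    · simp [Finsupp.single_eq_of_ne e]

theorem tri (a : ℤ) : (∃ n : ℕ, 0 < n ∧ a = n) ∨ a = 0 ∨ ∃ n : ℕ, 0 < n ∧ a = -n := by
  rcases lt_trichotomy a 0 with h | h | h
  · exact .inr (.inr ⟨a.natAbs, by omega, by omega⟩)
  · exact .inr (.inl h)
  · exact .inl ⟨a.natAbs, by omega, by omega⟩

theorem pp {m n : ℕ} (hm : 0 < m) (hn : 0 < n) (v : Fk) (T : Finset ℕ) :
    phi m (phi n v) T + phi n (phi m v) T = 0 := by
  simp only [phi_pos hm, phi_pos hn, mem_erase]
  by_cases e : m = n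
  · subst e; simp
  by_cases a : m ∈ T <;> by_cases b : n ∈ T <;> simp only [a, b, if_true, if_false, and_true, and_false, ne_eq, e,
    Ne.symm e, not_false_eq_true, mul_zero, add_zero]
  rw [sg_erase n a, sg_erase m b, erase_right_comm]
  rcases lt_or_gt_of_ne e with h | h
  · rw [if_neg h.not_gt, if_pos h]; ring
  · rw [if_pos h, if_neg h.not_gt]; ring

theorem nn {m n : ℕ} (hm : 0 < m) (hn : 0 < n) (v : Fk) (T : Finset ℕ) :
    phi (-(m : ℤ)) (phi (-(n : ℤ)) v) T + phi (-(n : ℤ)) (phi (-(m : ℤ)) v) T = 0 := by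
  simp only [phi_neg hm, phi_neg hn, mem_insert]
  by_cases e : m = n
  · subst e; simp
  by_cases a : m ∈ T <;> by_cases b : n ∈ T <;> simp only [a, b, if_true, if_false, or_true, or_false, e,
    Ne.symm e, mul_zero, add_zero]
  rw [sg_insert n a, sg_insert m b, insert_comm]
  rcases lt_or_gt_of_ne e with h | h
  · rw [if_neg h.not_gt, if_pos h]; ring
  · rw [if_pos h, if_neg h.not_gt]; ring

theorem pn {m n : ℕ} (hm : 0 < m) (hn : 0 < n) (v : Fk) (T : Finset ℕ) :
    phi m (phi (-(n : ℤ)) v) T + phi (-(n : ℤ)) (phi m v) T = if m = n then 2 * (-1) ^ m * v T else 0 := by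
  simp only [phi_pos hm, phi_neg hn, mem_insert, mem_erase]
  by_cases e : m = n
  · subst e
    by_cases a : m ∈ T
    · simp only [a, if_true, ne_eq, not_true_eq_false, false_and, if_false, add_zero]
      rw [sg_erase m a, if_neg (lt_irrefl _), insert_erase a]
      linear_combination (2 * (-1) ^ m * v T) * sg_sq m T
    · simp only [a, if_true, if_false, true_or, zero_add]
      rw [sg_insert m a, if_neg (lt_irrefl _), erase_insert a]
      linear_combination (2 * (-1) ^ m * v T) * sg_sq m T
  by_cases a : m ∈ T <;> by_cases b : n ∈ T <;> simp only [a, b, if_true, if_false, or_true, or_false, e,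
    Ne.symm e, mul_zero, add_zero, and_true, and_false, ne_eq, not_false_eq_true]
  rw [sg_erase n a, sg_insert m b, erase_insert_of_ne (Ne.symm e)]
  rcases lt_or_gt_of_ne e with h | h
  · rw [if_neg h.not_gt, if_pos h]; ring
  · rw [if_pos h, if_neg h.not_gt]; ring

theorem p0 {m : ℕ} (hm : 0 < m) (v : Fk) (T : Finset ℕ) : phi m (phi 0 v) T + phi 0 (phi m v) T = 0 := by
  simp only [phi_pos hm, phi_zero]
  split_ifs with a
  · rw [← card_erase_add_one a]; ring
  · simp

theorem n0 {m : ℕ} (hm : 0 < m) (v : Fk) (T : Finset ℕ) :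
    phi (-(m : ℤ)) (phi 0 v) T + phi 0 (phi (-(m : ℤ)) v) T = 0 := by
  simp only [phi_neg hm, phi_zero]
  split_ifs with a
  · simp
  · rw [card_insert_of_notMem a]; ring

theorem phi_max {a : ℕ} {S : Finset ℕ} (ha : 0 < a) (h : ∀ x ∈ S, x < a) : phi a (bv S) = bv (insert a S) := by
  rw [phi_bv, phiB, if_pos (Int.natCast_pos.2 ha), Int.natAbs_natCast, if_neg fun q => lt_irrefl _ (h a q), sg,
    filter_false_of_mem fun x hx => (h x hx).not_gt, card_empty, pow_zero, one_smul]

end Phi

open Phi

/-- The anticommutation relations `{φ_a, φ_b} = 2 (-1)^a δ_{a+b,0}`. -/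
theorem phi_anti (a b : ℤ) : phi a * phi b + phi b * phi a =
    if a + b = 0 then (2 * (-1 : ℚ) ^ a.natAbs) • (1 : Module.End ℚ Fk) else 0 := by
  refine LinearMap.ext fun v => Finsupp.ext fun T => ?_
  have r : (if a + b = 0 then (2 * (-1 : ℚ) ^ a.natAbs) • (1 : Module.End ℚ Fk) else 0) v T =
      if a + b = 0 then 2 * (-1 : ℚ) ^ a.natAbs * v T else 0 := by
    split_ifs <;> simp
  rw [r, LinearMap.add_apply, Finsupp.add_apply, Module.End.mul_apply, Module.End.mul_apply]
  rcases tri a with ⟨m, hm, rfl⟩ | rfl | ⟨m, hm, rfl⟩ <;> rcases tri b with ⟨n, hn, rfl⟩ | rfl | ⟨n, hn, rfl⟩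
  · rw [pp hm hn, if_neg (by omega)]
  · rw [p0 hm, if_neg (by omega)]
  · rw [pn hm hn, Int.natAbs_natCast]
    exact if_congr (by omega) rfl rfl
  · rw [add_comm, p0 hn, if_neg (by omega)]
  · rw [phi_zero, phi_zero, if_pos (add_zero _), ← mul_assoc, ← mul_pow]
    simp [two_mul]
  · rw [add_comm, n0 hn, if_neg (by omega)]
  · rw [add_comm, pn hn hm, Int.natAbs_neg, Int.natAbs_natCast]
    by_cases e : n = m
    · rw [if_pos e, if_pos (by omega), e]
    · rw [if_neg e, if_neg (by omega)]
  · rw [n0 hm, if_neg (by omega)]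
  · rw [nn hm hn, if_neg (by omega)]

theorem phi_neg_bv {a : ℤ} (ha : a < 0) {S : Finset ℕ} (h : a.natAbs ∉ S) : phi a (bv S) = 0 := by
  rw [phi_bv, phiB, if_neg ha.not_gt, if_neg ha.ne, if_neg h]

theorem phi_zero_vac : phi 0 (bv ∅) = bv ∅ := by
  rw [phi_bv, phiB, if_neg (lt_irrefl _), if_pos rfl, card_empty, pow_zero, one_smul]

theorem fm_comm (v w : Fk) : fm v w = fm w v := by
  induction v using Finsupp.induction_linear with
  | zero => simp
  | add v v' hv hv' => rw [map_add, LinearMap.add_apply, hv, hv', map_add]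
  | single S c =>
    induction w using Finsupp.induction_linear with
    | zero => simp
    | add w w' hw hw' => rw [map_add, map_add, LinearMap.add_apply, hw, hw']
    | single T d =>
      by_cases e : S = T
      · subst e; simp [fm]; ring
      · simp [fm, Finsupp.single_eq_of_ne e, Finsupp.single_eq_of_ne (Ne.symm e)]

/-- `φ_a^* = (-1)^a φ_{-a}`. Check on `v = bv S`, `w = bv T`. -/
theorem fm_phi (a : ℤ) (v w : Fk) : fm (phi a v) w = (-1 : ℚ) ^ a.natAbs * fm v (phi (-a) w) := by
  induction v using Finsupp.induction_linear with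
  | zero => simp
  | add v v' hv hv' => rw [map_add, map_add, LinearMap.add_apply, hv, hv', map_add, LinearMap.add_apply, mul_add]
  | single S c =>
    have e : Finsupp.single S c = c • bv S := by simp
    have q : (-1 : ℚ) ^ a.natAbs * (-1) ^ a.natAbs = 1 := by rw [← mul_pow]; simp
    rw [e, map_smul, map_smul, map_smul, LinearMap.smul_apply, LinearMap.smul_apply, smul_eq_mul, smul_eq_mul,
      mul_left_comm, fm_bv, phi_bv, phiB]
    congr 1
    rcases tri a with ⟨m, hm, rfl⟩ | rfl | ⟨m, hm, rfl⟩
    · rw [if_pos (Int.natCast_pos.2 hm), phi_neg hm]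
      rw [Int.natAbs_natCast] at q ⊢
      split_ifs with h
      · simp
      · rw [map_smul, LinearMap.smul_apply, fm_bv, card_insert_of_notMem h, smul_eq_mul]
        linear_combination (-(2 * 2 ^ #S * sg m S * w (insert m S))) * q
    · rw [if_neg (lt_irrefl _), if_pos rfl, neg_zero, phi_zero, map_smul, LinearMap.smul_apply, fm_bv, smul_eq_mul]
      simp only [Int.natAbs_zero, pow_zero]
      ring
    · rw [if_neg (by omega), if_neg (by omega), neg_neg, phi_pos hm, Int.natAbs_neg, Int.natAbs_natCast]
      split_ifs with h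
      · rw [map_smul, LinearMap.smul_apply, fm_bv, ← card_erase_add_one h, smul_eq_mul]
        ring
      · simp

/-- Induct on `S` removing the maximum (`Finset.induction_on_max`, `Finset.sort_insert`): no element
is larger than the inserted one, so the sign is `1`. -/
theorem ket_srt {S : Finset ℕ} (h0 : 0 ∉ S) : ket (srt S) = bv S := by
  induction S using Finset.induction_on_max with
  | empty => simp [srt, ket]
  | insert a S h ih =>
    have ha : 0 < a := Nat.pos_of_ne_zero fun e => h0 (e ▸ mem_insert_self _ _)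
    have := ih fun q => h0 (mem_insert_of_mem q)
    rw [srt] at this ⊢
    rw [sort_insert _ (fun b hb => (h b hb).le) fun q => lt_irrefl _ (h a q), List.map_cons, ket, this, phi_max ha h]

/-- Induct on `l` for all `S`. `a > 0`: `(phi a v) S = ± v (S.erase a)` or `0`, and `#S` is one more;
`a < 0`: `(phi a v) S = ± 2 * v (insert |a| S)` or `0`; `a = 0`: a sign. -/
theorem ket_dvd (l : List ℤ) (S : Finset ℕ) :
    ∃ z : ℤ, 2 ^ #S * ket l S = 2 ^ (l.countP fun a => decide (0 < a)) * (z : ℚ) := by
  have sz : ∀ a T, ∃ z : ℤ, sg a T = z := fun a T => ⟨(-1) ^ #{s ∈ T | a < s}, by simp [sg]⟩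
  induction l generalizing S with
  | nil =>
    by_cases e : S = ∅
    · exact ⟨1, by simp [ket, e]⟩
    · exact ⟨0, by simp [ket, Finsupp.single_eq_of_ne e]⟩
  | cons a l ih =>
    rw [ket, List.countP_cons]
    rcases tri a with ⟨m, hm, rfl⟩ | rfl | ⟨m, hm, rfl⟩
    · rw [phi_pos hm, if_pos (c := decide (0 < (m : ℤ)) = true) (by simpa using hm)]
      split_ifs with h
      · obtain ⟨z, hz⟩ := ih (S.erase m)
        obtain ⟨y, hy⟩ := sz m S
        refine ⟨y * z, ?_⟩
        rw [← card_erase_add_one h, hy]
        push_cast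
        linear_combination (2 * (y : ℚ)) * hz
      · exact ⟨0, by simp⟩
    · obtain ⟨z, hz⟩ := ih S
      refine ⟨(-1) ^ #S * z, ?_⟩
      rw [phi_zero, if_neg (by simp), add_zero]
      push_cast
      linear_combination (-1) ^ #S * hz
    · rw [phi_neg hm, if_neg (c := decide (0 < -(m : ℤ)) = true) (by simp), add_zero]
      split_ifs with h
      · exact ⟨0, by simp⟩
      · obtain ⟨z, hz⟩ := ih (insert m S)
        obtain ⟨y, hy⟩ := sz m S
        refine ⟨(-1) ^ m * y * z, ?_⟩
        rw [card_insert_of_notMem h] at hz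
        rw [hy]
        push_cast
        linear_combination ((-1) ^ m * (y : ℚ)) * hz

/-- Every basis vector is a product of `φ_a` applied to a vector killed by all `φ_a`, `a < 0`
(namely `bv ∅` or `bv {0}`): an operator commuting with all `φ_a` and acting as `c` on such vectors
is `c`. Induct on `S` removing the maximum; `S = ∅` and `S = {0}` are the base cases. -/
theorem eq_smul_of_comm {T : Module.End ℚ Fk} {c : ℚ} (h : ∀ a, T * phi a = phi a * T)
    (h0 : ∀ v, (∀ a < 0, phi a v = 0) → T v = c • v) : T = c • (1 : Module.End ℚ Fk) := by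
  have k : ∀ S, T (bv S) = c • bv S := fun S => by
    induction S using Finset.induction_on_max with
    | empty => exact h0 _ fun a ha => phi_neg_bv ha (notMem_empty _)
    | insert a S hS ih =>
      rcases Nat.eq_zero_or_pos a with rfl | ha
      · refine h0 _ fun b hb => phi_neg_bv hb fun q => ?_
        rcases mem_insert.1 q with q | q
        · omega
        · exact Nat.not_lt_zero _ (hS _ q)
      · rw [← phi_max ha hS, ← Module.End.mul_apply, h, Module.End.mul_apply, ih, map_smul]
  refine Finsupp.lhom_ext fun S d => ?_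
  have e : Finsupp.single S d = d • bv S := by simp
  rw [e, map_smul, map_smul, k]
  rfl

end CL.SP
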