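import Mathlib
import Cfsg.Agent.BLK.SP.Phi
import Cfsg.Agent.Eqns.CL_SP_ket

/-!
# The bosons: finiteness and the commutator with the fermions
-/

set_option autoImplicit false

open Finset

namespace CL.SP

/-- For `v = bv S` take `N0 = S.sum id + |k|`: a term `φ_{k-i} φ_i (bv S)` with `|i| > N0` vanishes
(`i < 0`: `-i ∉ S`; `i > 0`: `k - i < 0`, `i - k ∉ S`, `i - k ≠ i`). General `v`: `Finsupp.induction_linear`
with the maximum of the two bounds. -/
theorem Bo_eq_sum {k : ℤ} (hk : k ≠ 0) (v : Fk) : ∃ N : ℕ, ∀ I : Finset ℤ, Icc (-(N : ℤ)) N ⊆ I →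
    Bo k v = (1 / 4 : ℚ) • ∑ i ∈ I, (-1 : ℚ) ^ i.natAbs • phi (k - i) (phi i v) := by
  induction v using Finsupp.induction_linear with
  | zero => exact ⟨0, fun I _ => by simp⟩
  | add v w hv hw =>
    obtain ⟨N, hN⟩ := hv
    obtain ⟨M, hM⟩ := hw
    refine ⟨max N M, fun I hI => ?_⟩
    rw [map_add, hN I ((Icc_subset_Icc (by omega) (by omega)).trans hI),
      hM I ((Icc_subset_Icc (by omega) (by omega)).trans hI), ← smul_add, ← sum_add_distrib]
    simp only [map_add, smul_add]
  | single S c =>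
    refine ⟨S.sum id + k.natAbs, fun I hI => ?_⟩
    have e : (Finsupp.single S c : Fk) = c • bv S := by simp
    have hS : ∀ n : ℕ, S.sum id < n → n ∉ S := fun n h1 h2 => by
      have := single_le_sum (f := id) (fun _ _ => Nat.zero_le _) h2
      simp only [id] at this h1
      omega
    have e2 : Bo k (bv S) =
        (1 / 4 : ℚ) • ∑ i ∈ I, (-1 : ℚ) ^ i.natAbs • phi (k - i) (phi i (bv S)) := by
      rw [Bo_bv, Bq, LinearMap.smul_apply, LinearMap.sum_apply]
      congr 1
      refine sum_subset hI fun i _ hi => ?_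
      rw [mem_Icc] at hi
      rw [LinearMap.smul_apply, Module.End.mul_apply]
      by_cases h0 : i < 0
      · rw [phi_neg_bv h0 (hS _ (by omega)), map_zero, smul_zero]
      · have h1 := LinearMap.congr_fun (phi_anti (k - i) i) (bv S)
        rw [if_neg (by omega), LinearMap.add_apply, Module.End.mul_apply, Module.End.mul_apply,
          phi_neg_bv (a := k - i) (by omega) (hS _ (by omega)), map_zero, add_zero] at h1
        rw [h1, LinearMap.zero_apply, smul_zero]
    rw [e, map_smul, e2, smul_comm, smul_sum (r := c)]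
    simp only [map_smul, smul_comm c]

/-- Use `Bo_eq_sum` for `v` and `phi a v` with one `I` containing `-a` and `k + a`.
`[φ_{k-i} φ_i, φ_a] = φ_{k-i} {φ_i, φ_a} - {φ_{k-i}, φ_a} φ_i`; the terms `i = -a` and `i = k + a`
give `(1/2) φ_{a+k}` each (`k` odd: `(-1)^{|k+a|} * (-1)^{|a|} = -1`). -/
theorem Bo_comm {k : ℤ} (hk : Odd k) (a : ℤ) : Bo k * phi a - phi a * Bo k = phi (a + k) := by
  have hk0 : k ≠ 0 := by rintro rfl; simp at hk
  refine LinearMap.ext fun v => ?_
  obtain ⟨N, hN⟩ := Bo_eq_sum hk0 v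
  obtain ⟨M, hM⟩ := Bo_eq_sum hk0 (phi a v)
  let K : ℕ := N + M + k.natAbs + a.natAbs
  have h1 := hN (Icc (-(K : ℤ)) K) (Icc_subset_Icc (by omega) (by omega))
  have h2 := hM (Icc (-(K : ℤ)) K) (Icc_subset_Icc (by omega) (by omega))
  rw [LinearMap.sub_apply, Module.End.mul_apply, Module.End.mul_apply, h1, h2, map_smul, map_sum,
    ← smul_sub, ← sum_sub_distrib]
  have hs : ∀ n : ℕ, (-1 : ℚ) ^ n * (-1) ^ n = 1 := fun n => by rw [← mul_pow]; simp
  have hp : (-1 : ℚ) ^ (k + a).natAbs * (-1) ^ a.natAbs = -1 := by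
    rw [← pow_add]
    refine Odd.neg_one_pow ?_
    rw [Int.odd_iff] at hk
    rw [Nat.odd_iff]; omega
  have e : ∀ i : ℤ, (-1 : ℚ) ^ i.natAbs • phi (k - i) (phi i (phi a v)) -
      phi a ((-1 : ℚ) ^ i.natAbs • phi (k - i) (phi i v)) =
      (if i = -a then (2 : ℚ) • phi (a + k) v else 0) +
        if i = k + a then (2 : ℚ) • phi (a + k) v else 0 := fun i => by
    have a1 := LinearMap.congr_fun (phi_anti i a) v
    have a2 := LinearMap.congr_fun (phi_anti (k - i) a) (phi i v)
    simp only [LinearMap.add_apply, Module.End.mul_apply] at a1 a2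
    have a3 : (-1 : ℚ) ^ i.natAbs • phi (k - i) (phi i (phi a v)) -
        phi a ((-1 : ℚ) ^ i.natAbs • phi (k - i) (phi i v)) =
        (-1 : ℚ) ^ i.natAbs • phi (k - i) (phi i (phi a v) + phi a (phi i v)) -
        (-1 : ℚ) ^ i.natAbs • (phi (k - i) (phi a (phi i v)) + phi a (phi (k - i) (phi i v))) := by
      simp only [map_add, map_smul, smul_add]; abel
    rw [a3, a1, a2, sub_eq_add_neg]
    congr 1
    · by_cases h : i = -a
      · subst h
        rw [if_pos (by omega), if_pos rfl, LinearMap.smul_apply, Module.End.one_apply, map_smul,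
          smul_smul, mul_left_comm, hs, mul_one, sub_neg_eq_add, add_comm k]
      · rw [if_neg (by omega), if_neg h, LinearMap.zero_apply, map_zero, smul_zero]
    · by_cases h : i = k + a
      · subst h
        rw [if_pos (by omega), if_pos rfl, LinearMap.smul_apply, Module.End.one_apply, smul_smul,
          mul_left_comm, show (k - (k + a)).natAbs = a.natAbs by omega, hp, add_comm k, ← neg_smul]
        norm_num
      · rw [if_neg (by omega), if_neg h, LinearMap.zero_apply, smul_zero, neg_zero]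
  simp only [e, sum_add_distrib, sum_ite_eq']
  rw [if_pos (mem_Icc.2 ⟨by omega, by omega⟩), if_pos (mem_Icc.2 ⟨by omega, by omega⟩), ← add_smul,
    smul_smul]
  norm_num

/-- `i < 0`: `φ_i v = 0`; `i ≥ 0`: `k - i < 0`, anticommute (`phi_anti`, `k ≠ 0`). -/
theorem Bo_neg_vac {k : ℤ} (hk : k < 0) {v : Fk} (hv : ∀ a < 0, phi a v = 0) : Bo k v = 0 := by
  obtain ⟨N, hN⟩ := Bo_eq_sum hk.ne v
  rw [hN _ subset_rfl, sum_eq_zero, smul_zero]
  intro i _
  by_cases h0 : i < 0
  · rw [hv i h0, map_zero, smul_zero]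
  · have h1 := LinearMap.congr_fun (phi_anti (k - i) i) v
    rw [if_neg (by omega), LinearMap.add_apply, Module.End.mul_apply, Module.End.mul_apply,
      hv (k - i) (by omega), map_zero, add_zero] at h1
    rw [h1, LinearMap.zero_apply, smul_zero]

/-- The Morris recursion on kets. Induct on `m` (`List.ofFn_succ`, `Fin.sum_univ_succ`) with
`Bo_comm`; base `Bo_neg_vac` and `phi_neg_bv`. -/
theorem Bo_ket {k : ℕ} (hk : Odd k) {m : ℕ} (l : Fin m → ℤ) :
    Bo (-(k : ℤ)) (ket (List.ofFn l)) =
      ∑ j, ket (List.ofFn (Function.update l j (l j - k))) := by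
  have hk' : Odd (-(k : ℤ)) := (Int.odd_coe_nat k |>.2 hk).neg
  induction m with
  | zero =>
    rw [List.ofFn_zero, Fin.sum_univ_zero]
    refine Bo_neg_vac ?_ fun a ha => phi_neg_bv ha (notMem_empty _)
    have := hk.pos
    omega
  | succ m ih =>
    have h1 := LinearMap.congr_fun (Bo_comm hk' (l 0)) (ket (List.ofFn fun i : Fin m => l i.succ))
    rw [LinearMap.sub_apply, Module.End.mul_apply, Module.End.mul_apply, sub_eq_iff_eq_add,
      ih, map_sum] at h1
    rw [List.ofFn_succ, ket, h1, Fin.sum_univ_succ]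
    congr 1
    · rw [List.ofFn_succ, ket, Function.update_self, sub_eq_add_neg]
      simp only [Function.update_of_ne (Fin.succ_ne_zero _)]
    · refine sum_congr rfl fun j _ => ?_
      rw [List.ofFn_succ, ket, Function.update_of_ne (Fin.succ_ne_zero _).symm]
      congr 3
      funext i
      exact (Function.update_comp_eq_of_injective' l (Fin.succ_injective m) j _ ▸ rfl)

end CL.SP
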