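import Mathlib
import Cfsg.Agent.BLK.SP.BosA

/-!
# The bosons: adjoints and supports
-/

set_option autoImplicit false

open Finset

namespace CL.SP

namespace BosB

/-- the support of `φ_a (bv S)` -/
def St (a : ℤ) (S T : Finset ℕ) : Prop :=
  (0 < a ∧ a.natAbs ∉ S ∧ T = insert a.natAbs S) ∨ (a = 0 ∧ T = S) ∨
    (a < 0 ∧ a.natAbs ∈ S ∧ T = S.erase a.natAbs)

theorem st (a : ℤ) (S : Finset ℕ) :
    phi a (bv S) = 0 ∨ ∃ (c : ℚ) (T : Finset ℕ), St a S T ∧ phi a (bv S) = c • bv T := by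
  rw [phi_bv, phiB]
  split_ifs with h1 h2 h3 h4
  · exact Or.inl rfl
  · exact Or.inr ⟨_, _, Or.inl ⟨h1, h2, rfl⟩, rfl⟩
  · exact Or.inr ⟨_, _, Or.inr (Or.inl ⟨h3, rfl⟩), rfl⟩
  · exact Or.inr ⟨_, _, Or.inr (Or.inr ⟨by omega, h4, rfl⟩), rfl⟩
  · exact Or.inl rfl

theorem st2 {a b : ℤ} {S T : Finset ℕ} (h : phi a (phi b (bv S)) T ≠ 0) : ∃ U, St b S U ∧ St a U T := by
  rcases st b S with e | ⟨c, U, hU, e⟩
  · simp [e] at h
  rw [e, map_smul] at h
  rcases st a U with e' | ⟨c', V, hV, e'⟩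
  · simp [e'] at h
  rw [e'] at h
  obtain rfl : V = T := by_contra fun n => h (by simp [Finsupp.single_eq_of_ne' n])
  exact ⟨U, hU, hV⟩

end BosB

/-- `B_k^* = B_{-k}`. Take `I` big for `(k, v)` and `I' = I.image (· - k)` big for `(-k, w)`
(`Bo_eq_sum`); `fm_phi` twice: `(φ_{k-i} φ_i)^* = (-1)^{|k-i|+|i|} φ_{-i} φ_{i-k} = -φ_{-k-j} φ_j` with
`j = i - k`, and `(-1)^{|i|} = -(-1)^{|j|}`. -/
theorem fm_Bo {k : ℤ} (hk : Odd k) (v w : Fk) : fm (Bo k v) w = fm v (Bo (-k) w) := by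
  have h0 : k ≠ 0 := by rintro rfl; simp at hk
  obtain ⟨N, hN⟩ := Bo_eq_sum h0 v
  obtain ⟨N', hN'⟩ := Bo_eq_sum (neg_ne_zero.2 h0) w
  rw [hN (Icc (-(N + N' + |k|)) (N + N' + |k|)) (Icc_subset_Icc (by have := abs_nonneg k; omega)
      (by have := abs_nonneg k; omega)),
    hN' ((Icc (-(N + N' + |k|)) (N + N' + |k|)).image (· - k)) fun j hj => mem_image.2 ⟨j + k, by
      rw [mem_Icc] at hj ⊢
      have := le_abs_self k
      have := neg_abs_le k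
      omega, by simp⟩,
    sum_image fun a _ b _ e => sub_left_inj.1 e]
  simp only [map_smul, map_sum, LinearMap.smul_apply, LinearMap.sum_apply, smul_eq_mul]
  congr 1
  refine sum_congr rfl fun i _ => ?_
  rw [fm_phi, fm_phi, neg_sub, show -k - (i - k) = -i by ring, ← Int.natAbs_neg (k - i), neg_sub,
    mul_left_comm, ← mul_assoc ((-1 : ℚ) ^ i.natAbs), ← mul_pow]
  simp

/-- Some term `φ_{-k-i} φ_i (bv S)` of `Bo_bv` has a nonzero coefficient at `T`. `i > 0`: insert `i`,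
erase `a = k + i`; `i = 0` or `i = -k`: erase `k`; `-k < i < 0`: erase `-i` and `k + i`; `i < -k`:
erase `a = -i`, insert `a - k`. -/
theorem Bo_supp {k : ℕ} (hk : 0 < k) {S T : Finset ℕ} (h : Bo (-(k : ℤ)) (bv S) T ≠ 0) :
    Bar k S T ∧ (0 ∈ T ↔ 0 ∈ S) := by
  rw [Bo_bv, Bq] at h
  simp only [LinearMap.smul_apply, LinearMap.sum_apply, Module.End.mul_apply, Finsupp.smul_apply,
    Finsupp.finsetSum_apply, smul_eq_mul] at h
  obtain ⟨i, -, hi⟩ := exists_ne_zero_of_sum_ne_zero (right_ne_zero_of_mul h)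
  obtain ⟨U, h1, h2⟩ := BosB.st2 (right_ne_zero_of_mul hi)
  rcases h1 with ⟨a, b, rfl⟩ | ⟨rfl, rfl⟩ | ⟨a, b, rfl⟩ <;>
    rcases h2 with ⟨a', b', rfl⟩ | ⟨a', rfl⟩ | ⟨a', b', rfl⟩
  any_goals omega
  · have e : (-(k : ℤ) - i).natAbs = k + i.natAbs := by omega
    have n : i.natAbs ≠ k + i.natAbs := by omega
    rw [e] at b' ⊢
    refine ⟨Or.inl ⟨_, (mem_insert.1 b').resolve_left n.symm, by omega, by simpa using b, ?_⟩, ?_⟩
    · rw [erase_insert_of_ne n, Nat.add_sub_cancel_left]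
    · have : 0 ≠ i.natAbs := by omega
      have : 0 ≠ k + i.natAbs := by omega
      simp [*]
  · have e : (-(k : ℤ) - 0).natAbs = k := by omega
    rw [e] at b' ⊢
    exact ⟨Or.inr (Or.inl ⟨b', rfl⟩), by simp [hk.ne]⟩
  · have e : (-(k : ℤ) - i).natAbs = i.natAbs - k := by omega
    rw [e] at b' ⊢
    refine ⟨Or.inl ⟨_, b, by omega, fun c => b' (mem_erase.2 ⟨by omega, c⟩), rfl⟩, ?_⟩
    have : 0 ≠ i.natAbs := by omega
    have : 0 ≠ i.natAbs - k := by omega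
    simp [*]
  · have e : i.natAbs = k := by omega
    rw [e] at b ⊢
    exact ⟨Or.inr (Or.inl ⟨b, rfl⟩), by simp [hk.ne]⟩
  · refine ⟨Or.inr (Or.inr ⟨_, b, _, (mem_erase.1 b').2, (mem_erase.1 b').1.symm, by omega, rfl⟩), ?_⟩
    have : 0 ≠ i.natAbs := by omega
    have : 0 ≠ (-(k : ℤ) - i).natAbs := by omega
    simp only [mem_erase]
    tauto

/-- A bar removal lowers the size by `k`. -/
theorem Bar.sum_eq {k : ℕ} {S T : Finset ℕ} (h : Bar k S T) : S.sum id = T.sum id + k := by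
  rcases h with ⟨a, ha, h1, h2, rfl⟩ | ⟨ha, rfl⟩ | ⟨a, ha, b, hb, n, rfl, rfl⟩
  · rw [sum_insert fun c => h2 (mem_of_mem_erase c), ← add_sum_erase S id ha, id, id]; omega
  · rw [← add_sum_erase S id ha, id, add_comm]
  · rw [← add_sum_erase S id ha, ← add_sum_erase (S.erase a) id (mem_erase.2 ⟨n.symm, hb⟩), id, id,
      ← add_assoc, add_comm]

end CL.SP
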