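import Mathlib
import Cfsg.Agent.BLK.SP.BosA
import Cfsg.Agent.Eqns.CL_SP_low

/-!
# The Heisenberg relations
-/

set_option autoImplicit false
set_option maxHeartbeats 400000

open Finset

namespace CL.SP

namespace Heis

theorem comm_phi {k l : ℤ} (hk : Odd k) (hl : Odd l) (a : ℤ) :
    (Bo k * Bo l - Bo l * Bo k) * phi a = phi a * (Bo k * Bo l - Bo l * Bo k) := by
  have h1 : Bo k * phi a = phi a * Bo k + phi (a + k) := by rw [← Bo_comm hk a]; abel
  have h2 : Bo l * phi a = phi a * Bo l + phi (a + l) := by rw [← Bo_comm hl a]; abel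
  have h3 : Bo k * phi (a + l) = phi (a + l) * Bo k + phi (a + l + k) := by
    rw [← Bo_comm hk (a + l)]; abel
  have h4 : Bo l * phi (a + k) = phi (a + k) * Bo l + phi (a + l + k) := by
    rw [add_right_comm a l k, ← Bo_comm hl (a + k)]; abel
  rw [sub_mul, mul_assoc, mul_assoc, h1, h2, mul_add, mul_add, h3, h4, ← mul_assoc, ← mul_assoc, h1, h2]
  simp only [mul_sub, add_mul, mul_assoc]
  abel

theorem tele {M : Type*} [AddCommGroup M] (g : ℤ → M) (k n : ℕ) (b : ℤ) :
    ∑ i ∈ range n, (g (b + i) - g (b + i - k)) =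
      ∑ j ∈ range k, (g (b + n - (j + 1)) - g (b - (j + 1))) := by
  have h1 : ∀ i : ℕ, g (b + i) - g (b + i - k) =
      ∑ j ∈ range k, (g (b + (i + 1 : ℕ) - (j + 1)) - g (b + i - (j + 1))) := by
    intro i
    have := sum_range_sub' (fun j : ℕ => g (b + i - j)) k
    simp only [Nat.cast_zero, sub_zero] at this
    rw [← this]
    refine sum_congr rfl fun j _ => ?_
    congr 2 <;> (push_cast; ring)
  rw [sum_congr rfl fun i _ => h1 i, sum_comm]
  refine sum_congr rfl fun j _ => ?_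
  have := sum_range_sub (fun i : ℕ => g (b + i - (j + 1))) n
  simpa using this

theorem sgn_sub {k : ℕ} (hk : Odd k) (i : ℤ) :
    (-1 : ℚ) ^ (i - k).natAbs = -(-1 : ℚ) ^ i.natAbs := by
  rcases Int.even_or_odd i with h | h
  · rw [(Int.natAbs_even.2 h).neg_one_pow,
      (Int.natAbs_odd.2 (h.sub_odd ((Int.odd_coe_nat k).2 hk))).neg_one_pow]
  · rw [(Int.natAbs_odd.2 h).neg_one_pow,
      (Int.natAbs_even.2 (h.sub_odd ((Int.odd_coe_nat k).2 hk))).neg_one_pow, neg_neg]

theorem low_perm {l₁ l₂ : List ℕ}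
    (hc : ∀ {k l : ℕ}, Odd k → Odd l → Bo (-(k : ℤ)) * Bo (-(l : ℤ)) = Bo (-(l : ℤ)) * Bo (-(k : ℤ)))
    (h : l₁.Perm l₂) (ho : ∀ j ∈ l₁, Odd j) : low l₁ = low l₂ := by
  induction h with
  | nil => rfl
  | cons x _ ih => rw [low, low, ih fun j hj => ho j (List.mem_cons_of_mem _ hj)]
  | swap x y l =>
    rw [low, low, low, low, mul_assoc, mul_assoc, hc (ho x (by simp)) (ho y (by simp))]
  | trans h1 _ ih1 ih2 => rw [ih1 ho, ih2 fun j hj => ho j (h1.mem_iff.2 hj)]

end Heis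

/-- Use `eq_smul_of_comm`. The commutator `T` commutes with every `φ_a` (`Bo_comm` four times: both
orders give `φ_{a+l-k}`). On `v` killed by the `φ_a`, `a < 0`: `Bo (-k) v = 0`, and
`Bo l v = (1/4) ∑_{i=0}^{l} (-1)^i φ_{l-i} φ_i v` (other terms vanish), so
`T v = (1/4) ∑_{i=0}^{l} (-1)^i (φ_{l-i-k} φ_i + φ_{l-i} φ_{i-k}) v`. The second terms vanish for
`i < k` and, with `i = i' + k` (`k` odd), cancel the first terms `i' ≤ l - k`. In the remaining first
terms `l - i - k < 0`: anticommute, `(-1)^i φ_{l-i-k} φ_i v = 2 v` if `k = l` (`i = 1..k`), else `0`. -/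
theorem Bo_heis {k l : ℕ} (hk : Odd k) (hl : Odd l) :
    Bo (-(k : ℤ)) * Bo l - Bo l * Bo (-(k : ℤ)) =
      if k = l then ((k : ℚ) / 2) • (1 : Module.End ℚ Fk) else 0 := by
  have hk' : Odd (-(k : ℤ)) := ((Int.odd_coe_nat k).2 hk).neg
  have hl' : Odd (l : ℤ) := (Int.odd_coe_nat l).2 hl
  have k0 : 0 < k := hk.pos
  have l0 : 0 < l := hl.pos
  have e : (if k = l then ((k : ℚ) / 2) • (1 : Module.End ℚ Fk) else 0) =
      (if k = l then (k : ℚ) / 2 else 0) • (1 : Module.End ℚ Fk) := by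
    split_ifs <;> simp
  rw [e]
  refine eq_smul_of_comm (Heis.comm_phi hk' hl') fun v hv => ?_
  have h0 : Bo (-(k : ℤ)) v = 0 := Bo_neg_vac (by omega) hv
  have hA : ∀ (a : ℤ) (w : Fk), Bo (-(k : ℤ)) (phi a w) = phi a (Bo (-(k : ℤ)) w) + phi (a - k) w := by
    intro a w
    have := LinearMap.congr_fun (Bo_comm hk' a) w
    rw [LinearMap.sub_apply, Module.End.mul_apply, Module.End.mul_apply, ← sub_eq_add_neg] at this
    rw [← this]; abel
  obtain ⟨N, hN⟩ := Bo_eq_sum (k := l) (by omega) v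
  let b : ℤ := -((N + k + l : ℕ) : ℤ)
  let n : ℕ := 2 * (N + k + l) + 1
  have hI := hN ((range n).image fun i : ℕ => b + i) fun x hx => by
    rw [mem_Icc] at hx
    refine mem_image.2 ⟨(x - b).toNat, mem_range.2 ?_, ?_⟩ <;> omega
  rw [sum_image fun x _ y _ h => by simpa using h] at hI
  let g : ℤ → Fk := fun j => (-1 : ℚ) ^ j.natAbs • phi (l - k - j) (phi j v)
  have hg : ∀ i : ℤ, Bo (-(k : ℤ)) ((-1 : ℚ) ^ i.natAbs • phi (l - i) (phi i v)) = g i - g (i - k) := by
    intro i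
    simp only [g]
    rw [map_smul, hA, hA, h0, map_zero, zero_add, Heis.sgn_sub hk, neg_smul, sub_neg_eq_add, smul_add,
      add_comm, show (l : ℤ) - i - k = l - k - i by ring, show (l : ℤ) - k - (i - k) = l - i by ring]
  have g0 : ∀ j < 0, g j = 0 := fun j hj => by simp only [g]; rw [hv j hj, map_zero, smul_zero]
  have g1 : ∀ j, (l : ℤ) - k - j < 0 → g j = (if k = l then (2 : ℚ) else 0) • v := by
    intro j hj
    have := LinearMap.congr_fun (phi_anti j (l - k - j)) v
    rw [LinearMap.add_apply, Module.End.mul_apply, Module.End.mul_apply, hv _ hj, map_zero, zero_add] at this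
    simp only [g]
    rw [this]
    by_cases h : k = l
    · rw [if_pos (by omega), if_pos h, LinearMap.smul_apply, Module.End.one_apply, smul_smul]
      congr 1
      rw [mul_left_comm, ← mul_pow]; simp
    · rw [if_neg (by omega), if_neg h]; simp
  rw [LinearMap.sub_apply, Module.End.mul_apply, Module.End.mul_apply, h0, map_zero, sub_zero, hI, map_smul,
    map_sum, sum_congr rfl fun i _ => hg _, Heis.tele,
    sum_congr rfl fun j hj => by
      rw [g0 (b - (j + 1)) (by omega), sub_zero, g1 _ (by have := mem_range.1 hj; omega)],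
    sum_const, card_range, ← Nat.cast_smul_eq_nsmul ℚ, smul_smul, smul_smul]
  congr 1
  split_ifs <;> ring

/-- As `Bo_heis`, with `c = 0` and `Bo_neg_vac`. -/
theorem Bo_neg_comm {k l : ℕ} (hk : Odd k) (hl : Odd l) :
    Bo (-(k : ℤ)) * Bo (-(l : ℤ)) = Bo (-(l : ℤ)) * Bo (-(k : ℤ)) := by
  have hk' : Odd (-(k : ℤ)) := ((Int.odd_coe_nat k).2 hk).neg
  have hl' : Odd (-(l : ℤ)) := ((Int.odd_coe_nat l).2 hl).neg
  have k0 : 0 < k := hk.pos
  have l0 : 0 < l := hl.pos
  have := eq_smul_of_comm (c := 0) (Heis.comm_phi hk' hl') fun v hv => by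
    rw [LinearMap.sub_apply, Module.End.mul_apply, Module.End.mul_apply, Bo_neg_vac (by omega) hv,
      Bo_neg_vac (by omega) hv, map_zero, map_zero, sub_zero, zero_smul]
  rwa [zero_smul, sub_eq_zero] at this

theorem XV_zero (v : Fk) : XV v 0 = v ∅ := by
  simp [XV, low]

/-- `low` is invariant under permutations of lists of odd numbers (`List.Perm` induction,
`Bo_neg_comm`), and `(k ::ₘ ν).toList ~ k :: ν.toList`. -/
theorem XV_cons {k : ℕ} {ν : Multiset ℕ} (hk : Odd k) (hν : ∀ j ∈ ν, Odd j) (v : Fk) :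
    XV v (k ::ₘ ν) = XV (Bo (-(k : ℤ)) v) ν := by
  have hp : (k ::ₘ ν).toList.Perm (k :: ν.toList) := by
    rw [← Multiset.coe_eq_coe, Multiset.coe_toList, ← Multiset.cons_coe, Multiset.coe_toList]
  rw [XV, XV, Heis.low_perm Bo_neg_comm hp fun j hj => by
    rcases Multiset.mem_cons.1 (Multiset.mem_toList.1 hj) with rfl | h
    exacts [hk, hν j h], low, Module.End.mul_apply]

theorem XV_add (v w : Fk) (ν : Multiset ℕ) : XV (v + w) ν = XV v ν + XV w ν := by
  simp [XV]

theorem XV_smul (c : ℚ) (v : Fk) (ν : Multiset ℕ) : XV (c • v) ν = c * XV v ν := by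
  simp [XV]

theorem XV_sum {ι : Type*} (s : Finset ι) (v : ι → Fk) (ν : Multiset ℕ) :
    XV (∑ i ∈ s, v i) ν = ∑ i ∈ s, XV (v i) ν := by
  simp only [XV, map_sum, Finsupp.finsetSum_apply]

theorem XV_eq_sum (v : Fk) (ν : Multiset ℕ) : XV v ν = ∑ T ∈ v.support, v T * X T ν := by
  conv_lhs => rw [← Finsupp.sum_single v, Finsupp.sum, XV_sum]
  refine sum_congr rfl fun T _ => ?_
  rw [X, ← XV_smul, Finsupp.smul_single, smul_eq_mul, mul_one]

end CL.SP
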