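import Mathlib
import Cfsg.Agent.BLK.SP.Heis
import Cfsg.Agent.BLK.SP.BosB

/-!
# Column orthogonality of the Morris numbers
-/

set_option autoImplicit false

open Finset

namespace CL.SP

/-- Induct on `ν` for all `S`: `ν = 0`: `X S 0 = (bv S) ∅`; `X S (k ::ₘ ν) ≠ 0` gives `T` in the support
of `Bo (-k) (bv S)` with `X T ν ≠ 0` (`XV_cons`, `XV_eq_sum`); `Bo_supp`, `Bar.sum_eq`. -/
theorem mem_strict_of_X {S : Finset ℕ} {ν : Multiset ℕ} (hν : ∀ j ∈ ν, Odd j) (h : X S ν ≠ 0) :
    S ∈ strict ν.sum := by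
  have key : S.sum id = ν.sum ∧ 0 ∉ S := by
    induction ν using Multiset.induction_on generalizing S with
    | empty =>
      rw [X, XV_zero] at h
      obtain rfl : S = ∅ := by_contra fun n => h (Finsupp.single_eq_of_ne (Ne.symm n))
      simp
    | cons k ν ih =>
      have hk := hν k (Multiset.mem_cons_self _ _)
      have h' : ∀ j ∈ ν, Odd j := fun j hj => hν j (Multiset.mem_cons_of_mem hj)
      rw [X, XV_cons hk h', XV_eq_sum] at h
      obtain ⟨T, -, hT⟩ := exists_ne_zero_of_sum_ne_zero h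
      obtain ⟨b, z⟩ := Bo_supp hk.pos (left_ne_zero_of_mul hT)
      obtain ⟨e, n⟩ := ih h' (right_ne_zero_of_mul hT)
      exact ⟨by rw [b.sum_eq, e, Multiset.sum_cons, add_comm], fun c => n (z.2 c)⟩
  refine mem_filter.2 ⟨mem_powerset.2 fun a ha => mem_Icc.2 ⟨Nat.pos_of_ne_zero fun e => key.2 (e ▸ ha), ?_⟩, key.1⟩
  exact key.1 ▸ single_le_sum (f := id) (fun _ _ => Nat.zero_le _) ha

namespace Orth

/-- raising the vacuum by the parts of a list -/
noncomputable def y : List ℕ → Fk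
  | [] => bv ∅
  | k :: L => Bo k (y L)

theorem vac {k : ℕ} (hk : Odd k) : Bo (-(k : ℤ)) (bv ∅) = 0 :=
  Bo_neg_vac (by have := hk.pos; omega) fun _ ha => phi_neg_bv ha (by simp)

theorem fm_y {L : List ℕ} (hL : ∀ j ∈ L, Odd j) (v : Fk) : fm (y L) v = XV v L := by
  induction L generalizing v with
  | nil => simp [y, fm_bv, XV_zero]
  | cons k L ih =>
    have hk := hL k (by simp)
    have h' : ∀ j ∈ L, Odd j := fun j hj => hL j (by simp [hj])
    rw [y, fm_Bo (by exact_mod_cast hk), ih h', ← Multiset.cons_coe, XV_cons hk (by simpa using h')]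

theorem y_apply {L : List ℕ} (hL : ∀ j ∈ L, Odd j) (S : Finset ℕ) : y L S = (2 : ℚ)⁻¹ ^ #S * X S L := by
  rw [X, ← fm_y hL, fm_comm, fm_bv, ← mul_assoc, ← mul_pow]
  simp

/-- raising the vacuum by the parts of a multiset -/
noncomputable def Y (ν : Multiset ℕ) : Fk := y ν.toList

theorem Y_apply {ν : Multiset ℕ} (hν : ∀ j ∈ ν, Odd j) (S : Finset ℕ) : Y ν S = (2 : ℚ)⁻¹ ^ #S * X S ν := by
  rw [Y, y_apply (by simpa using hν), Multiset.coe_toList]

theorem Y_cons {k : ℕ} {ν : Multiset ℕ} (hk : Odd k) (hν : ∀ j ∈ ν, Odd j) : Y (k ::ₘ ν) = Bo k (Y ν) := by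
  ext S
  rw [Y_apply (by simpa using ⟨hk, hν⟩), Y, ← y, y_apply (by simpa using ⟨hk, hν⟩), ← Multiset.cons_coe,
    Multiset.coe_toList]

theorem low_Y {k : ℕ} (hk : Odd k) {ν : Multiset ℕ} (hν : ∀ j ∈ ν, Odd j) :
    Bo (-(k : ℤ)) (Y ν) = ((k : ℚ) / 2 * ν.count k) • Y (ν.erase k) := by
  induction ν using Multiset.induction_on with
  | empty => simp [Y, y, vac hk]
  | cons l ν ih =>
    have hl := hν l (Multiset.mem_cons_self _ _)
    have h' : ∀ j ∈ ν, Odd j := fun j hj => hν j (Multiset.mem_cons_of_mem hj)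
    have he : ∀ j ∈ ν.erase k, Odd j := fun j hj => h' j (Multiset.mem_of_mem_erase hj)
    have c := LinearMap.congr_fun (Bo_heis hk hl) (Y ν)
    rw [LinearMap.sub_apply, Module.End.mul_apply, Module.End.mul_apply, ih h', map_smul, ← Y_cons hl he,
      sub_eq_iff_eq_add] at c
    rw [Y_cons hl h', c]
    split_ifs with e
    · subst e
      rw [Multiset.erase_cons_head, Multiset.count_cons_self, LinearMap.smul_apply, Module.End.one_apply]
      by_cases m : k ∈ ν
      · rw [Multiset.cons_erase m, ← add_smul]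
        congr 1
        push_cast
        ring
      · simp [Multiset.count_eq_zero.2 m]
    · rw [Multiset.erase_cons_tail _ (Ne.symm e), Multiset.count_cons_of_ne e, LinearMap.zero_apply, zero_add]

theorem zc_cons (k : ℕ) (ν : Multiset ℕ) : zc (k ::ₘ ν) = k * (ν.count k + 1) * zc ν := by
  have e : ∏ j ∈ insert k ν.toFinset, (ν.count j).factorial = ∏ j ∈ ν.toFinset, (ν.count j).factorial :=
    prod_insert_of_eq_one_if_notMem fun m => by rw [Multiset.count_eq_zero.2 (by simpa using m)]; rfl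
  rw [zc, zc, Multiset.prod_cons, Multiset.toFinset_cons, ← e, ← mul_prod_erase _ _ (mem_insert_self k _),
    ← mul_prod_erase _ _ (mem_insert_self k _), Multiset.count_cons_self, Nat.factorial_succ,
    prod_congr rfl fun j hj => by rw [Multiset.count_cons_of_ne (ne_of_mem_erase hj)]]
  ring

theorem XV_Y {ν ν' : Multiset ℕ} (hν : ∀ j ∈ ν, Odd j) (hν' : ∀ j ∈ ν', Odd j) :
    XV (Y ν') ν = if ν = ν' then (zc ν : ℚ) / 2 ^ Multiset.card ν else 0 := by
  induction ν using Multiset.induction_on generalizing ν' with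
  | empty =>
    rw [XV_zero, Y_apply hν', X]
    rcases ν'.empty_or_exists_mem with rfl | ⟨k, m⟩
    · simp [XV_zero, zc]
    · obtain ⟨ν, rfl⟩ := Multiset.exists_cons_of_mem m
      rw [XV_cons (hν' k m) fun j hj => hν' j (Multiset.mem_cons_of_mem hj), vac (hν' k m), XV_eq_sum,
        if_neg Multiset.zero_ne_cons]
      simp
  | cons k ν ih =>
    have hk := hν k (Multiset.mem_cons_self _ _)
    have h' : ∀ j ∈ ν, Odd j := fun j hj => hν j (Multiset.mem_cons_of_mem hj)
    rw [XV_cons hk h', low_Y hk hν', XV_smul, ih h' fun j hj => hν' j (Multiset.mem_of_mem_erase hj)]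
    by_cases m : k ∈ ν'
    · obtain ⟨ν', rfl⟩ := Multiset.exists_cons_of_mem m
      simp only [Multiset.erase_cons_head, Multiset.cons_inj_right]
      split_ifs with e
      · subst e
        rw [zc_cons, Multiset.count_cons_self, Multiset.card_cons]
        push_cast
        field_simp
        ring
      · exact mul_zero _
    · rw [Multiset.count_eq_zero.2 m, if_neg (c := k ::ₘ ν = ν') fun e => m (e ▸ Multiset.mem_cons_self _ _)]
      simp

end Orth

/-- For a list `L` of odd numbers put `y [] = bv ∅`, `y (k :: L) = Bo k (y L)`. Then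
`fm (y L) v = XV v ↑L` (induction, `fm_Bo`, `XV_cons`, `fm_bv`), so `2 ^ #S * y L S = X S ↑L`
(`fm_comm`, `fm_bv`) and the left side is `fm (y L) (y L')` (support of `y L` in `strict n` by
`mem_strict_of_X`; `fm v w = ∑ S ∈ v.support, 2 ^ #S * v S * w S`).
By `Bo_heis` and `Bo_neg_vac`, `Bo (-k) (y L') = (k / 2 * L'.count k) • y (L'.erase k)` (induct on `L'`).
Hence `fm (y (k :: L)) (y L') = k / 2 * L'.count k * fm (y L) (y (L'.erase k))`; induct on `L`
for all `L'` (no size hypothesis is needed for this form; `L = []`: `fm (bv ∅) (y (k :: L')) =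
fm (Bo (-k) (bv ∅)) _ = 0`), with `zc (k ::ₘ ν) = k * (ν.count k + 1) * zc ν`. -/
theorem orth_col {n : ℕ} {ν ν' : Multiset ℕ} (hν : ∀ j ∈ ν, Odd j) (hν' : ∀ j ∈ ν', Odd j)
    (h : ν.sum = n) : ∑ S ∈ strict n, (2 : ℚ)⁻¹ ^ #S * X S ν * X S ν' =
      if ν = ν' then (zc ν : ℚ) / 2 ^ Multiset.card ν else 0 := by
  have e := Orth.XV_Y hν' hν
  rw [XV_eq_sum, sum_subset (s₂ := strict n) (fun S hS => h ▸ mem_strict_of_X hν (by
      rw [Finsupp.mem_support_iff, Orth.Y_apply hν] at hS
      exact right_ne_zero_of_mul hS))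
    fun S _ hS => by rw [Finsupp.notMem_support_iff.1 hS, zero_mul]] at e
  simp only [Orth.Y_apply hν] at e
  rw [e]
  by_cases c : ν = ν'
  · rw [c]
  · rw [if_neg c, if_neg (Ne.symm c)]

end CL.SP
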