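import Mathlib
import Cfsg.Agent.BLK.SP.Orth
import Cfsg.Agent.BLK.SymChar

/-!
# Bessel's inequality for the Morris numbers
-/

set_option autoImplicit false

open Finset Equiv CL.Sym

namespace CL.SP

theorem Bessel.zc_pos {ν : Multiset ℕ} (h : ∀ j ∈ ν, Odd j) : 0 < zc ν :=
  Nat.mul_pos (Multiset.prod_pos fun j hj => (h j hj).pos) (prod_pos fun _ _ => Nat.factorial_pos _)

theorem Bessel.zc_add {m : Multiset ℕ} (h : 1 ∉ m) (k : ℕ) : zc (m + Multiset.replicate k 1) =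
    k.factorial * m.prod * ∏ n ∈ m.toFinset, (m.count n).factorial := by
  have e : ∏ n ∈ (m + Multiset.replicate k 1).toFinset, ((m + Multiset.replicate k 1).count n).factorial =
      ∏ n ∈ insert 1 m.toFinset, ((m + Multiset.replicate k 1).count n).factorial := by
    refine prod_subset (fun n hn => ?_) fun n _ hn => ?_
    · rw [Multiset.mem_toFinset, Multiset.mem_add] at hn
      rcases hn with hn | hn
      · exact mem_insert_of_mem (Multiset.mem_toFinset.2 hn)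
      · rw [Multiset.eq_of_mem_replicate hn]; exact mem_insert_self _ _
    · rw [Multiset.count_eq_zero_of_notMem (mt Multiset.mem_toFinset.2 hn)]; rfl
  rw [zc, e, prod_insert (mt Multiset.mem_toFinset.1 h), Multiset.prod_add, Multiset.prod_replicate, one_pow,
    mul_one, Multiset.count_add, Multiset.count_eq_zero_of_notMem h, Multiset.count_replicate_self, zero_add,
    prod_congr rfl (g := fun n => (m.count n).factorial) fun n hn => by
      rw [Multiset.count_add, Multiset.count_eq_zero_of_notMem (s := Multiset.replicate k 1) fun c =>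
        h (Multiset.eq_of_mem_replicate c ▸ Multiset.mem_toFinset.1 hn), add_zero]]
  ring

/-- Put `c ν = zc ν / 2 ^ card ν > 0` (all parts are positive), `s = ∑ ν ∈ P, X S ν ^ 2 / c ν` and
`u T = (if T = S then 2 ^ #S else 0) - ∑ ν ∈ P, X S ν / c ν * X T ν`. By `orth_col`,
`0 ≤ ∑ T ∈ strict n, 2⁻¹ ^ #T * u T ^ 2 = 2 ^ #S - 2 * s + s`. -/
theorem bessel {n : ℕ} {S : Finset ℕ} (hS : S ∈ strict n) (P : Finset (Multiset ℕ))
    (hP : ∀ ν ∈ P, (∀ j ∈ ν, Odd j) ∧ ν.sum = n) :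
    ∑ ν ∈ P, 2 ^ Multiset.card ν / (zc ν : ℚ) * X S ν ^ 2 ≤ 2 ^ #S := by
  classical
  set c : Multiset ℕ → ℚ := fun ν => (zc ν : ℚ) / 2 ^ Multiset.card ν with hc
  have c0 : ∀ ν ∈ P, c ν ≠ 0 := fun ν hν =>
    div_ne_zero (Nat.cast_ne_zero.2 (Bessel.zc_pos (hP ν hν).1).ne') (by positivity)
  set s := ∑ ν ∈ P, X S ν / c ν * X S ν with hs
  have e0 : ∑ ν ∈ P, 2 ^ Multiset.card ν / (zc ν : ℚ) * X S ν ^ 2 = s :=
    sum_congr rfl fun ν _ => by rw [hc]; simp only [div_div_eq_mul_div]; ring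
  have e1 : ∑ T ∈ strict n, (2 : ℚ)⁻¹ ^ #T * (∑ ν ∈ P, X S ν / c ν * X T ν) ^ 2 = s := by
    have : ∀ T : Finset ℕ, (2 : ℚ)⁻¹ ^ #T * (∑ ν ∈ P, X S ν / c ν * X T ν) ^ 2 = ∑ ν ∈ P, ∑ μ ∈ P,
        X S ν / c ν * (X S μ / c μ) * ((2 : ℚ)⁻¹ ^ #T * X T ν * X T μ) := fun T => by
      rw [sq, sum_mul_sum, mul_sum]
      refine sum_congr rfl fun ν _ => ?_
      rw [mul_sum]
      exact sum_congr rfl fun μ _ => by ring
    simp only [this]
    rw [sum_comm]
    refine sum_congr rfl fun ν hν => ?_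
    rw [sum_comm, sum_eq_single_of_mem ν hν fun μ hμ ne => by
      rw [← mul_sum, orth_col (hP ν hν).1 (hP μ hμ).1 (hP ν hν).2, if_neg ne.symm, mul_zero]]
    rw [← mul_sum, orth_col (hP ν hν).1 (hP ν hν).1 (hP ν hν).2, if_pos rfl]
    change _ * c ν = _
    rw [mul_assoc, div_mul_cancel₀ _ (c0 ν hν)]
  have h0 : 0 ≤ ∑ T ∈ strict n, (2 : ℚ)⁻¹ ^ #T *
      ((if T = S then 2 ^ #S else 0) - ∑ ν ∈ P, X S ν / c ν * X T ν) ^ 2 :=
    sum_nonneg fun T _ => by positivity
  have e2 : ∀ T : Finset ℕ, (2 : ℚ)⁻¹ ^ #T * ((if T = S then 2 ^ #S else 0) - ∑ ν ∈ P, X S ν / c ν * X T ν) ^ 2 =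
      (if T = S then 2 ^ #S - 2 * s else 0) + (2 : ℚ)⁻¹ ^ #T * (∑ ν ∈ P, X S ν / c ν * X T ν) ^ 2 := fun T => by
    split_ifs with h
    · subst h
      rw [← hs, inv_pow]
      field_simp
      ring
    · ring
  simp only [e2] at h0
  rw [sum_add_distrib, e1, sum_ite_eq', if_pos hS] at h0
  rw [e0]
  linarith

/-- The size of a conjugacy class: `isConj_iff_parts`, `Equiv.Perm.card_isConj_mul_eq`,
`Perm.parts_partition` (`parts σ = cycleType + replicate (card - #support) 1`, all entries of the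
cycle type are `≥ 2`). -/
theorem card_parts_mul {A : Type*} [Fintype A] [DecidableEq A] (τ : Perm A) :
    #{σ : Perm A | parts σ = parts τ} * zc (parts τ) = (Fintype.card A).factorial := by
  classical
  rw [← Perm.card_isConj_mul_eq τ, parts, Perm.parts_partition,
    Bessel.zc_add (fun h => absurd (Perm.two_le_of_mem_cycleType h) (by norm_num)), Perm.sum_cycleType,
    Nat.card_eq_fintype_card, Fintype.card_subtype]
  congr 2
  ext σ
  simp only [mem_filter, mem_univ, true_and, Set.mem_ofPred_eq, isConj_iff_parts]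
  exact eq_comm

theorem Bessel.aux {n : ℕ} {S : Finset ℕ} (hS : S ∈ strict n) (s : Finset (Perm (Fin n)))
    (hs : ∀ σ, σ ∈ s ↔ ∀ j ∈ parts σ, Odd j) :
    ∑ σ ∈ s, (2 : ℚ) ^ Multiset.card (parts σ) * X S (parts σ) ^ 2 ≤ n.factorial * 2 ^ #S := by
  have hP : ∀ ν ∈ s.image parts, (∀ j ∈ ν, Odd j) ∧ ν.sum = n := fun ν hν => by
    obtain ⟨σ, hσ, rfl⟩ := mem_image.1 hν
    exact ⟨(hs σ).1 hσ, by rw [parts_sum, Fintype.card_fin]⟩
  rw [sum_comp (fun ν => (2 : ℚ) ^ Multiset.card ν * X S ν ^ 2) parts]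
  refine le_trans (le_of_eq ?_) (mul_le_mul_of_nonneg_left (bessel hS _ hP) (Nat.cast_nonneg _))
  rw [mul_sum]
  refine sum_congr rfl fun ν hν => ?_
  have z0 : (zc ν : ℚ) ≠ 0 := Nat.cast_ne_zero.2 (Bessel.zc_pos (hP ν hν).1).ne'
  obtain ⟨τ, hτ, rfl⟩ := mem_image.1 hν
  have e := card_parts_mul τ
  rw [Fintype.card_fin] at e
  have e1 : s.filter (fun a => parts a = parts τ) = univ.filter fun σ : Perm (Fin n) => parts σ = parts τ := by
    ext σ
    simp only [hs, mem_filter, mem_univ, true_and, and_iff_right_iff_imp]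
    intro h
    rw [h]
    exact (hs τ).1 hτ
  rw [e1, ← e, nsmul_eq_mul, Nat.cast_mul]
  field_simp

open scoped Classical in
/-- Group the sum by `parts σ` (`Finset.sum_fiberwise_of_maps_to`/`sum_comp`), `card_parts_mul`,
`bessel` with `P` the image, `parts_sum`. -/
theorem bessel_perm {n : ℕ} {S : Finset ℕ} (hS : S ∈ strict n) :
    ∑ σ : Perm (Fin n) with (∀ j ∈ parts σ, Odd j),
      (2 : ℚ) ^ Multiset.card (parts σ) * X S (parts σ) ^ 2 ≤ n.factorial * 2 ^ #S := by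
  exact Bessel.aux hS _ fun σ => by simp only [mem_filter, mem_univ, true_and]

end CL.SP
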