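import Mathlib
import Cfsg.Agent.BLK.SymChar
import Cfsg.Agent.BLK.SP.FDefs

/-!
# The double cover of the symmetric group inside the Clifford algebra
-/

set_option autoImplicit false

open Finset Equiv Matrix

namespace CL.SP

/-- Matrices acting on the Clifford algebra on `n` generators. -/
abbrev Mt (n : ℕ) := Matrix (Finset (Fin n)) (Finset (Fin n)) ℂ

variable {n : ℕ}

/-- Left multiplication by the generator `i`. -/
def cM (i : Fin n) : Mt n := Matrix.of fun S T =>
  if T = symmDiff S {i} then (-1) ^ #{j ∈ S | j < i} else 0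

/-- Right multiplication by the generator `i`. -/
def dM (i : Fin n) : Mt n := Matrix.of fun S T =>
  if T = symmDiff S {i} then (-1) ^ #{j ∈ S | i < j} else 0

/-- The parity operator. -/
def gM (n : ℕ) : Mt n := Matrix.diagonal fun S => (-1) ^ #S

/-- The sign of a permutation as a complex number. -/
def sgn (σ : Perm (Fin n)) : ℂ := ((Perm.sign σ : ℤ) : ℂ)

theorem sgn_mul (σ τ : Perm (Fin n)) : sgn (σ * τ) = sgn σ * sgn τ := by simp [sgn]

theorem sgn_one : sgn (1 : Perm (Fin n)) = 1 := by simp [sgn]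

theorem sgn_inv (σ : Perm (Fin n)) : sgn σ⁻¹ = sgn σ := by simp [sgn]

theorem sgn_mul_self (σ : Perm (Fin n)) : sgn σ * sgn σ = 1 := by
  nth_rw 1 [← sgn_inv]
  rw [← sgn_mul, inv_mul_cancel, sgn_one]

/-- The defining relations of the double cover. -/
structure IsPin (σ : Perm (Fin n)) (U : Mt n) : Prop where
  c : ∀ i, U * cM i = sgn σ • (cM (σ i) * U)
  d : ∀ i, U * dM i = dM i * U
  g : U * gM n = sgn σ • (gM n * U)
  o : Uᵀ * U = 1

theorem IsPin.mul {σ τ : Perm (Fin n)} {U V : Mt n} (h : IsPin σ U) (h' : IsPin τ V) :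
    IsPin (σ * τ) (U * V) where
  c i := by
    rw [Matrix.mul_assoc, h'.c, Matrix.mul_smul, ← Matrix.mul_assoc, h.c, Matrix.smul_mul,
      smul_smul, sgn_mul, mul_comm (sgn τ), Matrix.mul_assoc, Perm.mul_apply]
  d i := by rw [Matrix.mul_assoc, h'.d, ← Matrix.mul_assoc, h.d, Matrix.mul_assoc]
  g := by
    rw [Matrix.mul_assoc, h'.g, Matrix.mul_smul, ← Matrix.mul_assoc, h.g, Matrix.smul_mul,
      smul_smul, sgn_mul, mul_comm (sgn τ), Matrix.mul_assoc]
  o := by
    rw [transpose_mul, Matrix.mul_assoc, ← Matrix.mul_assoc Uᵀ, h.o, Matrix.one_mul, h'.o]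

theorem IsPin.inv {σ : Perm (Fin n)} {U V : Mt n} (h : IsPin σ U) (h1 : U * V = 1)
    (h2 : V * U = 1) : IsPin σ⁻¹ V := by
  have key : ∀ {A B : Mt n} {s : ℂ}, s * s = 1 → U * A = s • (B * U) → V * B = s • (A * V) := by
    intro A B s hs e
    have e1 : V * (U * A) * V = V * (s • (B * U)) * V := by rw [e]
    rw [← Matrix.mul_assoc, h2, Matrix.one_mul, Matrix.mul_smul, Matrix.smul_mul, Matrix.mul_assoc,
      Matrix.mul_assoc, h1, Matrix.mul_one] at e1
    rw [e1, smul_smul, hs, one_smul]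
  refine ⟨fun i => ?_, fun i => ?_, ?_, ?_⟩
  · have := key (sgn_mul_self σ) (h.c (σ⁻¹ i))
    rwa [show σ (σ⁻¹ i) = i by simp, ← sgn_inv] at this
  · have := key (A := dM i) (B := dM i) (s := 1) (mul_one _) (by rw [one_smul]; exact h.d i)
    rwa [one_smul] at this
  · rw [sgn_inv]
    exact key (sgn_mul_self σ) h.g
  · have e : V = Uᵀ := by rw [← Matrix.one_mul V, ← h.o, Matrix.mul_assoc, h1, Matrix.mul_one]
    rw [e, transpose_transpose, ← e, h1]

/-- The double cover of the symmetric group, as a subgroup of `S_n × GL`. -/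
def PinSub (n : ℕ) : Subgroup (Perm (Fin n) × (Mt n)ˣ) where
  carrier := {x | IsPin x.1 x.2.1}
  mul_mem' ha hb := IsPin.mul ha hb
  one_mem' := ⟨fun i => by simp [sgn_one], fun i => by simp, by simp [sgn_one], by simp⟩
  inv_mem' {x} hx := IsPin.inv hx x.2.mul_inv x.2.inv_mul

/-- The double cover of the symmetric group. -/
abbrev Pin (n : ℕ) : Type := PinSub n

/-- The projection onto the symmetric group. -/
def pr (n : ℕ) : Pin n →* Perm (Fin n) := (MonoidHom.fst _ _).comp (PinSub n).subtype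

/-- The representation on the Clifford algebra. -/
def rho (n : ℕ) : Pin n →* Mt n :=
  (Units.coeHom _).comp ((MonoidHom.snd _ _).comp (PinSub n).subtype)

theorem isPin (g : Pin n) : IsPin (pr n g) (rho n g) := g.2

theorem pin_ext {g h : Pin n} (h1 : pr n g = pr n h) (h2 : rho n g = rho n h) : g = h :=
  Subtype.ext (Prod.ext h1 (Units.ext h2))

theorem exists_pin {σ : Perm (Fin n)} {U : Mt n} (h : IsPin σ U) :
    ∃ g : Pin n, pr n g = σ ∧ rho n g = U :=
  ⟨⟨(σ, ⟨U, Uᵀ, mul_eq_one_comm.1 h.o, h.o⟩), h⟩, rfl, rfl⟩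

/-- The central involution. -/
def zz (n : ℕ) : Pin n :=
  ⟨(1, -1), ⟨fun i => by simp [sgn_one], fun i => by simp, by simp [sgn_one], by simp⟩⟩

theorem pr_zz : pr n (zz n) = 1 := rfl

theorem rho_zz : rho n (zz n) = -1 := rfl

/-- The character of the Clifford module. -/
noncomputable def Th (g : Pin n) : ℂ := (rho n g).trace

/-- The double cover of the alternating group. -/
abbrev Spin (n : ℕ) : Subgroup (Pin n) := (alternatingGroup (Fin n)).comap (pr n)

/-- The unnormalised spin character attached to a strict partition. -/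
noncomputable def Es (S : Finset ℕ) (g : Pin n) : ℂ := Th g * (X S (CL.Sym.parts (pr n g)) : ℂ)

end CL.SP
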