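import Mathlib
import Cfsg.Agent.BLK.SP.PDefs

/-!
# The Clifford relations

Entries of products: `(cM i * N) S T = (-1) ^ #{j ∈ S | j < i} * N (S ∆ {i}) T` (one term of
`Matrix.mul_apply`), likewise for `dM`. For `j ≠ i`,
`(-1) ^ #{k ∈ S ∆ {j} | P k} = (if P j then -1 else 1) * (-1) ^ #{k ∈ S | P k}`.
-/

set_option autoImplicit false

open Finset Equiv Matrix

namespace CL.SP

variable {n : ℕ}

namespace Clif

/-- the sign of one element -/
def s (P : Prop) [Decidable P] : ℂ := if P then -1 else 1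

/-- the sign of a set -/
def e (P : Fin n → Prop) [DecidablePred P] (S : Finset (Fin n)) : ℂ := (-1) ^ #{j ∈ S | P j}

/-- a signed flip -/
def M (i : Fin n) (P : Fin n → Prop) [DecidablePred P] : Mt n := Matrix.of fun S T =>
  if T = symmDiff S {i} then e P S else 0

theorem s_sq (P : Prop) [Decidable P] : s P * s P = 1 := by
  unfold s; split_ifs <;> simp

variable (P Q : Fin n → Prop) [DecidablePred P] [DecidablePred Q]

theorem e_eq (S : Finset (Fin n)) : e P S = ∏ j ∈ S, s (P j) := by
  simp [e, s, prod_ite]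

theorem e_sq (S : Finset (Fin n)) : e P S * e P S = 1 := by
  rw [e, ← mul_pow]; simp

theorem sd_not {S : Finset (Fin n)} {j : Fin n} (h : j ∉ S) : symmDiff S {j} = insert j S := by
  ext x
  simp only [mem_symmDiff, mem_singleton, mem_insert]
  constructor
  · rintro (⟨h1, -⟩ | ⟨h1, -⟩)
    exacts [Or.inr h1, Or.inl h1]
  · rintro (rfl | h1)
    exacts [Or.inr ⟨rfl, h⟩, Or.inl ⟨h1, fun q => h (q ▸ h1)⟩]

theorem sd_sd (S : Finset (Fin n)) (j : Fin n) : symmDiff (symmDiff S {j}) {j} = S :=
  symmDiff_symmDiff_cancel_right _ _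

theorem e_sd (S : Finset (Fin n)) (j : Fin n) : e P (symmDiff S {j}) = s (P j) * e P S := by
  have k : ∀ S : Finset (Fin n), j ∉ S → e P (symmDiff S {j}) = s (P j) * e P S := fun S h => by
    rw [sd_not h, e_eq, e_eq, prod_insert h]
  by_cases h : j ∈ S
  · have := k (symmDiff S {j}) (by simp [mem_symmDiff, h])
    rw [sd_sd] at this
    rw [this, ← mul_assoc, s_sq, one_mul]
  · exact k S h

theorem M_mul (i : Fin n) (N : Mt n) (S T : Finset (Fin n)) :
    (M i P * N) S T = e P S * N (symmDiff S {i}) T := by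
  simp [M, Matrix.mul_apply]

theorem eq_sd {S T : Finset (Fin n)} {i : Fin n} : T = symmDiff S {i} ↔ S = symmDiff T {i} :=
  ⟨fun h => by rw [h, sd_sd], fun h => by rw [h, sd_sd]⟩

theorem mul_M (i : Fin n) (N : Mt n) (S T : Finset (Fin n)) :
    (N * M i P) S T = N S (symmDiff T {i}) * e P (symmDiff T {i}) := by
  simp only [M, Matrix.mul_apply, of_apply, @eq_sd n _ T, mul_ite, mul_zero, sum_ite_eq', mem_univ,
    if_true]

theorem MM (i j : Fin n) (S T : Finset (Fin n)) : (M i P * M j Q) S T =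
    if T = symmDiff (symmDiff S {i}) {j} then s (Q i) * (e P S * e Q S) else 0 := by
  rw [M_mul]
  simp only [M, of_apply, e_sd]
  split_ifs
  · ring
  · simp

theorem M_comm (i j : Fin n) : M i P * M j Q = (s (Q i) * s (P j)) • (M j Q * M i P) := by
  ext S T
  rw [Matrix.smul_apply, MM, MM, symmDiff_right_comm]
  split_ifs
  · have := s_sq (P j)
    rw [smul_eq_mul]
    linear_combination (-(s (Q i) * e P S * e Q S)) * this
  · simp

theorem M_sq {i : Fin n} (h : ¬ P i) : M i P * M i P = 1 := by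
  ext S T
  rw [MM, sd_sd, e_sq, one_apply]
  simp [s, h, eq_comm]

theorem gM_eq : gM n = Matrix.diagonal (e fun _ => True) := by
  unfold gM
  congr 1
  funext S
  simp [e]

theorem g_M (i : Fin n) : gM n * M i P = -(M i P * gM n) := by
  ext S T
  rw [gM_eq, Matrix.neg_apply, diagonal_mul, mul_diagonal]
  simp only [M, of_apply]
  split_ifs with h
  · rw [h, e_sd]; simp [s, mul_comm]
  · simp

theorem c_eq (i : Fin n) : cM i = M i (· < i) := rfl

theorem d_eq (i : Fin n) : dM i = M i (i < ·) := rfl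

theorem cdg (i : Fin n) : cM i * dM i * gM n = Matrix.diagonal fun S => s (i ∈ S) := by
  ext S T
  rw [gM_eq, mul_diagonal, c_eq, d_eq, MM, sd_sd, diagonal_apply]
  by_cases h : S = T
  · subst h
    rw [if_pos rfl, if_pos rfl, e_eq, e_eq, e_eq, mul_assoc, ← prod_mul_distrib, ← prod_mul_distrib,
      prod_congr rfl (g := fun j => if j = i then (-1 : ℂ) else 1), prod_ite_eq']
    · simp [s]
    · intro j _
      rcases lt_trichotomy j i with h | h | h
      · simp [s, h, h.ne, h.asymm]
      · simp [s, h]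
      · simp [s, h, h.ne', h.le]
  · simp [h, Ne.symm h]

end Clif

open Clif

theorem cM_sq (i : Fin n) : cM i * cM i = 1 := by
  exact M_sq _ (lt_irrefl i)

theorem cM_anti {i j : Fin n} (h : i ≠ j) : cM i * cM j = -(cM j * cM i) := by
  rw [c_eq, c_eq, M_comm]
  rcases lt_or_gt_of_ne h with h | h <;> simp [s, h, h.le]

theorem dM_sq (i : Fin n) : dM i * dM i = 1 := by
  exact M_sq _ (lt_irrefl i)

theorem dM_anti {i j : Fin n} (h : i ≠ j) : dM i * dM j = -(dM j * dM i) := by
  rw [d_eq, d_eq, M_comm]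
  rcases lt_or_gt_of_ne h with h | h <;> simp [s, h, h.le]

theorem cM_dM (i j : Fin n) : cM i * dM j = dM j * cM i := by
  rw [c_eq, d_eq, M_comm, s_sq, one_smul]

theorem gM_sq : gM n * gM n = 1 := by
  rw [gM_eq, diagonal_mul_diagonal, ← diagonal_one]
  congr 1
  funext S
  exact e_sq _ S

theorem gM_cM (i : Fin n) : gM n * cM i = -(cM i * gM n) := by
  exact g_M _ i

theorem gM_dM (i : Fin n) : gM n * dM i = -(dM i * gM n) := by
  exact g_M _ i

theorem cM_transpose (i : Fin n) : (cM i)ᵀ = cM i := by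
  ext S T
  simp only [c_eq, transpose_apply, M, of_apply]
  by_cases h : T = symmDiff S {i}
  · rw [if_pos h, if_pos (eq_sd.1 h), h, e_sd]
    simp [s]
  · rw [if_neg h, if_neg fun q => h (eq_sd.1 q)]

/-- `cM i * dM i * gM n` is the diagonal matrix with entries `(-1) ^ [i ∈ S]` (the three exponents add
up to `2 #S - [i ∈ S]`), so `U S T = 0` unless `i ∈ S ↔ i ∈ T` for all `i`: `U` is diagonal.
Commuting with `cM i` gives `U S S = U (S ∆ {i}) (S ∆ {i})`; induct on `S`. -/
theorem scalar_of_comm {U : Mt n} (hc : ∀ i, U * cM i = cM i * U) (hd : ∀ i, U * dM i = dM i * U)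
    (hg : U * gM n = gM n * U) : ∃ a : ℂ, U = a • (1 : Mt n) := by
  have h0 : ∀ S T, S ≠ T → U S T = 0 := by
    intro S T ne
    by_contra h
    refine ne (Finset.ext fun i => ?_)
    have k : U * (cM i * dM i * gM n) = cM i * dM i * gM n * U := by
      rw [← Matrix.mul_assoc, ← Matrix.mul_assoc, hc, Matrix.mul_assoc (cM i), hd, ← Matrix.mul_assoc,
        Matrix.mul_assoc _ U, hg, ← Matrix.mul_assoc]
    have k2 := congrFun (congrFun k S) T
    rw [cdg, mul_diagonal, diagonal_mul, mul_comm] at k2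
    have k3 := mul_right_cancel₀ h k2
    by_cases a : i ∈ S <;> by_cases b : i ∈ T <;> simp [s, a, b] at k3 ⊢ <;> norm_num at k3
  have h1 : ∀ S i, U (symmDiff S {i}) (symmDiff S {i}) = U S S := by
    intro S i
    have k := congrFun (congrFun (hc i) S) (symmDiff S {i})
    rw [c_eq, mul_M, M_mul, sd_sd, mul_comm] at k
    exact (mul_left_cancel₀ (left_ne_zero_of_mul_eq_one (e_sq _ S)) k).symm
  have h2 : ∀ S, U S S = U ∅ ∅ := by
    intro S
    induction S using Finset.induction_on with
    | empty => rfl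
    | insert a S ha ih => rw [← sd_not ha, h1, ih]
  refine ⟨U ∅ ∅, ?_⟩
  ext S T
  by_cases h : S = T
  · subst h
    simp [h2 S]
  · simp [h0 S T h, h]

end CL.SP
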