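import Mathlib
import Cfsg.Agent.BLK.SP.Heis
import Cfsg.Agent.BLK.SymChar

/-!
# The Morris numbers as sums over invariant colourings
-/

set_option autoImplicit false

open Finset Equiv CL.Sym

namespace CL.SP

namespace Col

open MvPolynomial in
/-- the functional `x ^ μ ↦ ⟨vac | ket (l - μ)⟩` -/
noncomputable def K {m : ℕ} (l : Fin m → ℤ) : MvPolynomial (Fin m) ℚ →ₗ[ℚ] ℚ :=
  (basisMonomials (Fin m) ℚ).constr ℚ fun μ => ket (List.ofFn fun j => l j - μ j) ∅

theorem K_mon {m : ℕ} (l : Fin m → ℤ) (μ : Fin m →₀ ℕ) :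
    K l (MvPolynomial.monomial μ 1) = ket (List.ofFn fun j => l j - μ j) ∅ := by
  have := (MvPolynomial.basisMonomials (Fin m) ℚ).constr_basis ℚ
    (fun μ : Fin m →₀ ℕ => ket (List.ofFn fun j => l j - μ j) ∅) μ
  rwa [MvPolynomial.coe_basisMonomials] at this

theorem K_mul {m : ℕ} (l : Fin m → ℤ) (j : Fin m) (k : ℕ) (P : MvPolynomial (Fin m) ℚ) :
    K l (MvPolynomial.X j ^ k * P) = K (Function.update l j (l j - k)) P := by
  have : K l ∘ₗ LinearMap.mulLeft ℚ (MvPolynomial.X j ^ k) = K (Function.update l j (l j - k)) := by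
    refine (MvPolynomial.basisMonomials (Fin m) ℚ).ext fun μ => ?_
    simp only [MvPolynomial.coe_basisMonomials, LinearMap.comp_apply, LinearMap.mulLeft_apply]
    rw [MvPolynomial.X_pow_eq_monomial, MvPolynomial.monomial_mul, one_mul, K_mon, K_mon]
    congr 3
    funext i
    by_cases h : i = j
    · subst h
      simp
      ring
    · simp [h]
  exact LinearMap.congr_fun this P

theorem XV_K {m : ℕ} (ν : Multiset ℕ) (hν : ∀ k ∈ ν, Odd k) (l : Fin m → ℤ) :
    XV (ket (List.ofFn l)) ν =
      K l (ν.map fun r => ∑ i, (MvPolynomial.X i : MvPolynomial (Fin m) ℚ) ^ r).prod := by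
  induction ν using Multiset.induction_on generalizing l with
  | empty =>
    rw [XV_zero, Multiset.map_zero, Multiset.prod_zero,
      show (1 : MvPolynomial (Fin m) ℚ) = MvPolynomial.monomial 0 1 from rfl, K_mon]
    simp
  | cons k ν ih =>
    have hk := hν k (Multiset.mem_cons_self _ _)
    have h' : ∀ j ∈ ν, Odd j := fun j hj => hν j (Multiset.mem_cons_of_mem hj)
    rw [XV_cons hk h', Bo_ket hk, XV_sum, Multiset.map_cons, Multiset.prod_cons, sum_mul, map_sum]
    exact sum_congr rfl fun j _ => by rw [ih h', K_mul]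

theorem prod_X {A : Type*} [Fintype A] {m : ℕ} (f : A → Fin m) :
    ∏ a, (MvPolynomial.X (f a) : MvPolynomial (Fin m) ℚ) =
      MvPolynomial.monomial (Finsupp.equivFunOnFinite.symm (cont f)) 1 := by
  rw [← prod_fiberwise univ f, MvPolynomial.monomial_eq, map_one, one_mul, Finsupp.prod_fintype _ _ (by simp)]
  refine prod_congr rfl fun j _ => ?_
  rw [prod_congr rfl (g := fun _ => MvPolynomial.X j) fun a ha => by rw [(mem_filter.1 ha).2], prod_const]
  simp [cont]

theorem cnt {m : ℕ} (g : Fin m → ℤ) (p : ℤ → Bool) : (List.ofFn g).countP p = #{j | p (g j)} := by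
  induction m with
  | zero => simp
  | succ m ih =>
    rw [List.ofFn_succ, List.countP_cons, ih, card_filter, card_filter, Fin.sum_univ_succ, add_comm]

end Col

open Col

/-- For `l : Fin m → ℤ` let `K l : MvPolynomial (Fin m) ℚ →ₗ[ℚ] ℚ` send `monomial μ 1` to
`ket (List.ofFn fun j => l j - μ j) ∅` (`(MvPolynomial.basisMonomials _ _).constr`). Then
`K l (X j ^ k * P) = K (update l j (l j - k)) P` (check on monomials), so by induction on a multiset
`ν` of odd numbers, for all `l`: `XV (ket (ofFn l)) ν = K l (ν.map fun r => ∑ i, X i ^ r).prod`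
(`XV_zero`, `XV_cons`, `Bo_ket`, `XV_sum`). Finish with `sum_fix_eq_parts σ X` and
`∏ a, X (f a) = monomial (cont f) 1`. -/
theorem X_col {A : Type*} [Fintype A] [DecidableEq A] {m : ℕ} (l : Fin m → ℤ) (σ : Perm A)
    (hσ : ∀ k ∈ parts σ, Odd k) : XV (ket (List.ofFn l)) (parts σ) =
      ∑ f : A → Fin m with f ∘ σ = f, ket (List.ofFn fun j => l j - cont f j) ∅ := by
  rw [XV_K _ hσ, ← sum_fix_eq_parts σ, map_sum]
  exact sum_congr rfl fun f _ => by rw [prod_X, K_mon]; simp

/-- `ket_dvd` with `S = ∅`: the entries at colours `j` not taken by `f` are `l j > 0`, and there are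
`m - #(univ.image f)` of them. -/
theorem col_dvd {A : Type*} [Fintype A] {m : ℕ} {l : Fin m → ℤ} (hl : ∀ j, 0 < l j)
    (f : A → Fin m) : ∃ z : ℤ, ket (List.ofFn fun j => l j - cont f j) ∅ =
      2 ^ (m - #(univ.image f)) * (z : ℚ) := by
  obtain ⟨z, hz⟩ := ket_dvd (List.ofFn fun j => l j - cont f j) ∅
  rw [card_empty, pow_zero, one_mul, cnt] at hz
  have le : m - #(univ.image f) ≤ #{j | decide (0 < l j - cont f j) = true} := by
    have : m - #(univ.image f) = #(univ.image f)ᶜ := by rw [card_compl, Fintype.card_fin]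
    rw [this]
    refine card_le_card fun j hj => ?_
    have h0 : cont f j = 0 := by
      rw [cont, card_eq_zero, filter_eq_empty_iff]
      intro a _ e
      exact mem_compl.1 hj (mem_image.2 ⟨a, mem_univ _, e⟩)
    simp [h0, hl j]
  obtain ⟨d, hd⟩ := Nat.exists_eq_add_of_le le
  exact ⟨2 ^ d * z, by rw [hz, hd, pow_add]; push_cast; ring⟩

/-- `srt S` as a tuple: `l = (srt S).get` up to the cast `(srt S).length = #S`; `ket_srt`. -/
theorem exists_tuple {S : Finset ℕ} (h0 : 0 ∉ S) :
    ∃ l : Fin #S → ℤ, (∀ j, 0 < l j) ∧ ket (List.ofFn l) = bv S := by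
  have len : (srt S).length = #S := by simp [srt]
  refine ⟨fun j => (srt S).get (j.cast len.symm), fun j => ?_, ?_⟩
  · have := List.get_mem (srt S) (j.cast len.symm)
    show 0 < (srt S).get (j.cast len.symm)
    generalize (srt S).get (j.cast len.symm) = x at this
    simp only [srt, List.mem_map, mem_sort] at this
    obtain ⟨a, ha, rfl⟩ := this
    have : a ≠ 0 := fun e => h0 (e ▸ ha)
    omega
  · rw [← ket_srt h0]
    congr 1
    conv_rhs => rw [← List.ofFn_get (srt S)]
    exact (List.ofFn_congr len _).symm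

end CL.SP
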