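import Mathlib
import Cfsg.Agent.BLK.SymChar

/-!
# Central elements of full support
-/

set_option autoImplicit false

open Finset Equiv Subgroup CL.Sym

namespace CL.SP

variable {A : Type*} [Fintype A] [DecidableEq A] {p : ℕ}

namespace CxA

omit [Fintype A] [DecidableEq A] in
theorem fix_iff {x g : Perm A} (hg : g ∈ centralizer ({x} : Set (Perm A))) (a : A) :
    x (g a) = g a ↔ x a = a := by
  have e : x (g a) = g (x a) := by
    rw [← Perm.mul_apply, ← mem_centralizer_singleton_iff.1 hg, Perm.mul_apply]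
  rw [e, g.injective.eq_iff]

/-- restriction to the fixed points of `x`, extended by the identity -/
def res (x : Perm A) : centralizer ({x} : Set (Perm A)) →* Perm A :=
  (Perm.ofSubtype (p := fun a => x a = a)).comp
    { toFun := fun g => g.1.subtypePerm (fix_iff g.2)
      map_one' := by ext a; rfl
      map_mul' := fun g h => by ext a; rfl }

omit [Fintype A] in
theorem res_fix {x : Perm A} (g : centralizer ({x} : Set (Perm A))) {a : A} (ha : x a = a) :
    res x g a = g.1 a :=
  Perm.ofSubtype_apply_of_mem (p := fun a => x a = a) _ ha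

omit [Fintype A] in
theorem res_mov {x : Perm A} (g : centralizer ({x} : Set (Perm A))) {a : A} (ha : x a ≠ a) :
    res x g a = a :=
  Perm.ofSubtype_apply_of_not_mem (p := fun a => x a = a) _ ha

omit [Fintype A] in
theorem comm {x : Perm A} {g h : centralizer ({x} : Set (Perm A))} (c : Commute (res x g) (res x h)) :
    Commute (res x g) h.1 := by
  ext a
  rw [Perm.mul_apply, Perm.mul_apply]
  by_cases ha : x a = a
  · have e := congrArg (fun f : Perm A => f a) c.eq
    simp only [Perm.mul_apply] at e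
    rw [← res_fix h ha, e, res_fix g ha, res_fix h ((fix_iff g.2 a).2 ha)]
  · rw [res_mov g ha, res_mov g fun e => ha ((fix_iff h.2 a).1 e)]

omit [Fintype A] [DecidableEq A] in
theorem exists_pow (hp : p.Prime) {x s : Perm A} (hx : x ^ p = 1) (hs : ¬ p ∣ orderOf s)
    (hc : Commute x s) {L : ℕ} (hL : ¬ p ∣ L) : ∃ k, L ∣ k ∧ (x * s) ^ k = x := by
  have co : p.Coprime (orderOf s * L) :=
    Nat.Coprime.mul_right ((Nat.Prime.coprime_iff_not_dvd hp).2 hs) ((Nat.Prime.coprime_iff_not_dvd hp).2 hL)
  obtain ⟨k, h1, h2⟩ := Nat.chineseRemainder co 1 0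
  have h3 : orderOf s * L ∣ k := (Nat.modEq_zero_iff_dvd).1 h2
  refine ⟨k, (dvd_mul_left _ _).trans h3, ?_⟩
  rw [hc.mul_pow, orderOf_dvd_iff_pow_eq_one.1 ((dvd_mul_right _ _).trans h3), mul_one]
  have : x ^ k = x ^ 1 := pow_eq_pow_iff_modEq.2 (h1.of_dvd (orderOf_dvd_of_pow_eq_one hx))
  rw [this, pow_one]

end CxA

open CxA

/-- Take `x ∈ R` central in `R`, `x ^ p = 1`, with `#x.support` maximal. Suppose `r ∈ R` moves a point
outside `x.support`. The complement `T` of `x.support` is invariant under `R` and `y`; let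
`φ : R →* Perm A` be the restriction to `T` extended by the identity (`Perm.ofSubtype ∘ subtypePerm`).
Its range is a nontrivial `p`-group: take `u ≠ 1` central in it with `u ^ p = 1`. Then `u` commutes
with `R` (on `T` and off `T`) and with `y`, so `R ⊔ zpowers u` is a `p`-group commuting with `y`,
`u ∈ R` by `hmax`, and `x * u` (disjoint factors) has larger support. -/
theorem exists_central_support (hp : p.Prime) (y : Perm A) {R : Subgroup (Perm A)}
    (hR : IsPGroup p R) (hc : ∀ r ∈ R, Commute r y)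
    (hmax : ∀ R' : Subgroup (Perm A), IsPGroup p R' → (∀ r ∈ R', Commute r y) → R ≤ R' → R' ≤ R) :
    ∃ x ∈ R, x ^ p = 1 ∧ (∀ r ∈ R, Commute x r) ∧ ∀ r ∈ R, r.support ⊆ x.support := by
  classical
  have := Fact.mk hp
  obtain ⟨x, hx, hm⟩ := Finset.exists_max_image
    (univ.filter fun x : Perm A => x ∈ R ∧ x ^ p = 1 ∧ ∀ r ∈ R, Commute x r) (fun x => #x.support)
    ⟨1, by simp [R.one_mem]⟩
  obtain ⟨xR, xp, xc⟩ := (mem_filter.1 hx).2
  refine ⟨x, xR, xp, xc, fun r hr a ha => ?_⟩
  by_contra na
  rw [Perm.mem_support] at ha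
  rw [Perm.notMem_support] at na
  have RC : R ≤ centralizer ({x} : Set (Perm A)) := fun g hg => mem_centralizer_singleton_iff.2 (xc g hg).symm.eq
  have yC : y ∈ centralizer ({x} : Set (Perm A)) := mem_centralizer_singleton_iff.2 (hc x xR).symm.eq
  let K : Subgroup (Perm A) := (R.subgroupOf _).map (res x)
  have pK : IsPGroup p K := (hR.comap_subtype).map _
  have : Nontrivial K := by
    refine ⟨⟨⟨res x ⟨r, RC hr⟩, ⟨_, hr, rfl⟩⟩, 1, fun e => ha ?_⟩⟩
    have e' : res x ⟨r, RC hr⟩ = 1 := congrArg Subtype.val e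
    rw [← res_fix ⟨r, RC hr⟩ na, e', Perm.one_apply]
  have := pK.center_nontrivial
  have hd : p ∣ Nat.card (center K) := (pK.to_subgroup _).card_eq_or_dvd.resolve_left Finite.one_lt_card.ne'
  obtain ⟨⟨⟨u, ⟨r0, hr0, rfl⟩⟩, hu⟩, ho⟩ := exists_prime_orderOf_dvd_card' p hd
  have ho' : orderOf (res x r0) = p := by
    rw [← ho, ← Subgroup.orderOf_coe, ← Subgroup.orderOf_coe]
  have uc : ∀ g ∈ R, Commute (res x r0) g := fun g hg =>
    comm (h := ⟨g, RC hg⟩) (congrArg Subtype.val (mem_center_iff.1 hu ⟨_, ⟨⟨g, RC hg⟩, hg, rfl⟩⟩)).symm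
  have uy : Commute (res x r0) y := by
    refine comm (h := ⟨y, yC⟩) (Commute.map ?_ _)
    exact Subtype.ext (hc _ hr0).eq
  have uR : res x r0 ∈ R := by
    refine hmax (R ⊔ zpowers (res x r0)) (hR.to_sup_of_normal_right'
      (IsPGroup.of_card (n := 1) (by rw [Nat.card_zpowers, ho', pow_one])) ?_) ?_ le_sup_left
      (mem_sup_right (mem_zpowers _))
    · refine le_trans ?_ (centralizer_le_normalizer _)
      rintro g hg _ ⟨k, rfl⟩
      exact ((uc g hg).zpow_left k).eq
    · have : R ⊔ zpowers (res x r0) ≤ centralizer ({y} : Set (Perm A)) :=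
        sup_le (fun g hg => mem_centralizer_singleton_iff.2 (hc g hg).eq)
          (zpowers_le.2 (mem_centralizer_singleton_iff.2 uy.eq))
      exact fun g hg => mem_centralizer_singleton_iff.1 (this hg)
  have dj : x.Disjoint (res x r0) := fun b => (em (x b = b)).imp_right (res_mov r0)
  have h1 := hm (x * res x r0) (mem_filter.2 ⟨mem_univ _, mul_mem xR uR, by
    rw [(xc _ uR).mul_pow, xp, ← ho', pow_orderOf_eq_one, mul_one], fun g hg => (xc g hg).mul_left (uc g hg)⟩)
  rw [dj.card_support_mul] at h1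
  have h2 : res x r0 = 1 := Perm.card_support_eq_zero.1 (by omega)
  rw [h2, orderOf_one] at ho'
  exact hp.one_lt.ne ho'

/-- `x` is a power `g ^ e` of `g = x * s` with `e` divisible by `orderOf s` and by every number prime to
`p` we like (`e ≡ 1 mod p`). So a point whose `g`-cycle has length prime to `p` is fixed by `x`:
`x.support ⊆ ⋃` of the supports of the cycle factors `c` of `g` with `p ∣ #c.support`
(`Perm.cycleType_def`, `parts = cycleType + replicate _ 1`, `card_biUnion_le`). -/
theorem card_support_le (hp : p.Prime) {x s : Perm A} (hx : x ^ p = 1) (hs : ¬ p ∣ orderOf s)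
    (hc : Commute x s) : #x.support ≤ ((parts (x * s)).filter (p ∣ ·)).sum := by
  have sub : x.support ⊆ ((x * s).cycleFactorsFinset.filter fun c => p ∣ #c.support).biUnion Perm.support := by
    intro a ha
    rw [Perm.mem_support] at ha
    have ga : (x * s) a ≠ a := fun e => by
      obtain ⟨k, -, hk⟩ := exists_pow hp hx hs hc (L := 1) hp.not_dvd_one
      exact ha (by rw [← hk]; exact Perm.pow_apply_eq_self_of_apply_eq_self e k)
    refine mem_biUnion.2 ⟨(x * s).cycleOf a, mem_filter.2
      ⟨Perm.cycleOf_mem_cycleFactorsFinset_iff.2 (Perm.mem_support.2 ga), ?_⟩,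
      Perm.mem_support_cycleOf_iff.2 ⟨Perm.SameCycle.rfl, Perm.mem_support.2 ga⟩⟩
    by_contra hL
    obtain ⟨k, hk, e⟩ := exists_pow hp hx hs hc hL
    have := Perm.pow_mod_card_support_cycleOf_self_apply (x * s) k a
    rw [Nat.mod_eq_zero_of_dvd hk, pow_zero, e, Perm.one_apply] at this
    exact ha this.symm
  refine (card_le_card sub).trans (card_biUnion_le.trans ?_)
  rw [parts, Perm.parts_partition, Multiset.filter_add, Multiset.sum_add, Perm.cycleType_def,
    Multiset.filter_map]
  exact Nat.le_add_right_of_le (le_of_eq rfl)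

end CL.SP
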