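import Mathlib
import Cfsg.Agent.BLK.SP.FDefs

/-!
# The recursion for Schur's degree formula
-/

set_option autoImplicit false

open Finset

namespace CL.SP

/-- Lagrange: for injective `β` on `S`,
`∑ j, (β j - α j) * ∏ i ≠ j, (β j - α i) / (β j - β i) = ∑ i, (β i - α i)`. The polynomial
`f = ∏ (X - C (α i)) - ∏ (X - C (β i))` has degree `< #S`, coefficient `∑ β - ∑ α` at `#S - 1`, and
`f(β j) = ∏ i, (β j - α i)`; use `Lagrange.coeff_eq_sum`/`Lagrange.leadingCoeff_eq_sum` or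
`Lagrange.eq_interpolate` (or induct). -/
theorem lagrange_id {ι : Type*} [DecidableEq ι] (S : Finset ι) (α β : ι → ℚ)
    (hβ : Set.InjOn β S) :
    ∑ j ∈ S, (β j - α j) * ∏ i ∈ S.erase j, (β j - α i) / (β j - β i) = ∑ i ∈ S, (β i - α i) := by
  rcases S.eq_empty_or_nonempty with rfl | hne
  · simp
  have hc : 0 < #S := card_pos.2 hne
  have mon : ∀ γ : ι → ℚ, (∏ i ∈ S, (Polynomial.X - Polynomial.C (γ i))).Monic := fun γ =>
    Polynomial.monic_prod_of_monic _ _ fun i _ => Polynomial.monic_X_sub_C _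
  have dg : ∀ γ : ι → ℚ, (∏ i ∈ S, (Polynomial.X - Polynomial.C (γ i))).degree = ((#S : ℕ) : WithBot ℕ) := fun γ => by
    rw [Polynomial.degree_prod]; simp [Polynomial.degree_X_sub_C]
  have hd : (∏ i ∈ S, (Polynomial.X - Polynomial.C (α i)) - ∏ i ∈ S, (Polynomial.X - Polynomial.C (β i))).degree <
      ((#S : ℕ) : WithBot ℕ) := by
    rw [← dg α]
    exact Polynomial.degree_sub_lt_left ((dg α).trans (dg β).symm) (mon α).ne_zero
      ((mon α).leadingCoeff.trans (mon β).leadingCoeff.symm)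
  have k := Lagrange.coeff_eq_sum hβ hd
  rw [Polynomial.coeff_sub, Polynomial.prod_X_sub_C_coeff_card_pred _ _ hc,
    Polynomial.prod_X_sub_C_coeff_card_pred _ _ hc] at k
  rw [sum_sub_distrib, show ∑ i ∈ S, β i - ∑ i ∈ S, α i = -∑ i ∈ S, α i - -∑ i ∈ S, β i by ring, k]
  refine sum_congr rfl fun j hj => ?_
  rw [Polynomial.eval_sub, Polynomial.eval_prod, Polynomial.eval_prod, prod_eq_zero (f := fun i => Polynomial.eval (β j)
    (Polynomial.X - Polynomial.C (β i))) hj (by simp), sub_zero, ← mul_prod_erase S _ hj, prod_div_distrib, mul_div_assoc]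
  simp

namespace DegId

theorem gS_insert {T : Finset ℕ} {a : ℕ} (h : a ∉ T) : gS (insert a T) =
    ((a + T.sum id).factorial : ℚ) / ((a.factorial : ℚ) * ∏ b ∈ T, (b.factorial : ℚ)) *
      ((∏ c ∈ T, ∏ b ∈ T with b < c, ((c : ℚ) - b) / (c + b)) * ∏ b ∈ T, |(a : ℚ) - b| / (a + b)) := by
  unfold gS
  rw [sum_insert h, prod_insert h, id]
  congr 1
  simp only [prod_filter, prod_insert h, lt_self_iff_false, if_false, one_mul, prod_mul_distrib]
  rw [← mul_assoc, mul_comm, ← prod_mul_distrib]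
  congr 1
  refine prod_congr rfl fun b hb => ?_
  have ne : b ≠ a := fun e => h (e ▸ hb)
  rcases lt_or_gt_of_ne ne with l | l
  · have : (b : ℚ) < a := by exact_mod_cast l
    rw [if_pos l, if_neg l.not_gt, mul_one, abs_of_pos (by linarith)]
  · have : (a : ℚ) < b := by exact_mod_cast l
    rw [if_neg l.not_gt, if_pos l, one_mul, abs_of_neg (by linarith), neg_sub, add_comm]

theorem gS_dn {S : Finset ℕ} (h0 : 0 ∉ S) {a : ℕ} (h : a ∉ S) : gS ((insert a S).erase 0) = gS (insert a S) := by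
  rcases a with _ | a
  · rw [erase_insert h, gS_insert h, prod_congr rfl (g := fun _ => 1) (s₁ := S) (f := fun b : ℕ => |((0 : ℕ) : ℚ) - b| /
      ((0 : ℕ) + b)) fun b hb => ?_]
    · simp [gS]
    · have : (0 : ℚ) < b := by exact_mod_cast Nat.pos_of_ne_zero fun e => h0 (e ▸ hb)
      simp [this.ne']
  · rw [erase_eq_of_notMem (by simpa using h0)]

theorem step {T : Finset ℕ} (h0 : 0 ∉ T) {a : ℕ} (h1 : a ∉ T) (h2 : a + 1 ∉ T) :
    gS (insert a T) = gS (insert (a + 1) T) * (((a + 1 : ℕ) : ℚ) / ((a + 1 + T.sum id : ℕ) : ℚ)) *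
      ∏ b ∈ T, (((a + 1 : ℕ) : ℚ) * ((a + 1 : ℕ) - 1) - b * (b + 1)) /
        (((a + 1 : ℕ) : ℚ) * ((a + 1 : ℕ) - 1) - b * (b - 1)) := by
  rw [gS_insert h1, gS_insert h2]
  have e : ∏ b ∈ T, |(a : ℚ) - b| / (a + b) = (∏ b ∈ T, |((a + 1 : ℕ) : ℚ) - b| / ((a + 1 : ℕ) + b)) *
      ∏ b ∈ T, (((a + 1 : ℕ) : ℚ) * ((a + 1 : ℕ) - 1) - b * (b + 1)) /
        (((a + 1 : ℕ) : ℚ) * ((a + 1 : ℕ) - 1) - b * (b - 1)) := by
    rw [← prod_mul_distrib]
    refine prod_congr rfl fun b hb => ?_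
    have b0 : (0 : ℚ) < b := by exact_mod_cast Nat.pos_of_ne_zero fun e => h0 (e ▸ hb)
    have a0 : (0 : ℚ) ≤ a := Nat.cast_nonneg a
    have n1 : b ≠ a := fun e => h1 (e ▸ hb)
    have n2 : b ≠ a + 1 := fun e => h2 (e ▸ hb)
    push_cast
    rw [show ((a : ℚ) + 1) * (a + 1 - 1) - b * (b + 1) = (a - b) * (a + 1 + b) by ring,
      show ((a : ℚ) + 1) * (a + 1 - 1) - b * (b - 1) = (a + 1 - b) * (a + b) by ring]
    have p1 : (a : ℚ) + b ≠ 0 := by positivity
    have p2 : (a : ℚ) + 1 + b ≠ 0 := by positivity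
    rcases (by omega : b < a ∨ a + 1 < b) with l | l
    · have : (b : ℚ) < a := by exact_mod_cast l
      have p3 : (a : ℚ) + 1 - b ≠ 0 := by linarith
      rw [abs_of_pos (by linarith), abs_of_pos (by linarith)]
      field_simp
    · have : (a : ℚ) + 1 < b := by exact_mod_cast l
      have p3 : (a : ℚ) + 1 - b ≠ 0 := by linarith
      rw [abs_of_neg (by linarith), abs_of_neg (by linarith)]
      field_simp
  rw [e, show a + 1 + T.sum id = a + T.sum id + 1 by ring, Nat.factorial_succ, Nat.factorial_succ]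
  have p1 : ((a + 1 : ℕ) : ℚ) ≠ 0 := by positivity
  have p2 : ((a + T.sum id + 1 : ℕ) : ℚ) ≠ 0 := by positivity
  have p3 : (a.factorial : ℚ) ≠ 0 := by positivity
  have p4 : ∏ b ∈ T, (b.factorial : ℚ) ≠ 0 := by positivity
  rw [Nat.cast_mul, Nat.cast_mul]
  field_simp

end DegId

/-- With `n = S.sum id`, `α x = x (x + 1)`, `β x = x (x - 1)` (injective on positive integers):
for `a ∈ S`, `a - 1 ∉ S`: `gS (dn S a) = gS S * (a / n) * ∏ b ∈ S.erase a, (β a - α b) / (β a - β b)`,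
because `β a - α b = (a - 1 - b)(a + b)` and `β a - β b = (a - b)(a - 1 + b)` (write
`gS (insert a T) = ...` for `a ∉ T` with the symmetric factor `|a - b| / (a + b)`; replacing `a` by
`a - 1 ∉ S` keeps the order; for `a = 1` the factor is `1`). For `a - 1 ∈ S` the product has the zero
factor `b = a - 1`. Sum with `lagrange_id` (`β a - α a = -2a`). -/
theorem gS_rec {S : Finset ℕ} (h0 : 0 ∉ S) (hne : S.Nonempty) :
    gS S = ∑ a ∈ S with a - 1 ∉ S, gS (dn S a) := by
  have pos : ∀ a ∈ S, 0 < a := fun a ha => Nat.pos_of_ne_zero fun e => h0 (e ▸ ha)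
  have n0 : ((S.sum id : ℕ) : ℚ) ≠ 0 := by
    have : 0 < S.sum id := sum_pos pos hne
    positivity
  have k := lagrange_id S (fun x : ℕ => (x : ℚ) * (x + 1)) (fun x : ℕ => (x : ℚ) * (x - 1)) fun x hx y hy e => by
    have x1 : (1 : ℚ) ≤ x := by exact_mod_cast pos x hx
    have y1 : (1 : ℚ) ≤ y := by exact_mod_cast pos y hy
    have : ((x : ℚ) - y) * (x + y - 1) = 0 := by simp only at e; linarith
    exact_mod_cast sub_eq_zero.1 ((mul_eq_zero.1 this).resolve_right (by linarith))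
  have k2 : ∑ a ∈ S, (a : ℚ) * ∏ b ∈ S.erase a, ((a : ℚ) * (a - 1) - b * (b + 1)) / (a * (a - 1) - b * (b - 1)) =
      ((S.sum id : ℕ) : ℚ) := by
    refine mul_left_cancel₀ (by norm_num : (-2 : ℚ) ≠ 0) ?_
    rw [Nat.cast_sum, mul_sum, mul_sum]
    refine Eq.trans (sum_congr rfl fun a _ => ?_) (k.trans (sum_congr rfl fun a _ => ?_))
    · rw [← mul_assoc]; congr 1; ring
    · simp only [id]; ring
  calc gS S = gS S / ((S.sum id : ℕ) : ℚ) * ((S.sum id : ℕ) : ℚ) := (div_mul_cancel₀ _ n0).symm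
    _ = _ := by
      conv_lhs => rw [div_mul_eq_mul_div, mul_div_assoc]; arg 2; arg 1; rw [← k2]
      rw [sum_filter, sum_div, mul_sum]
      refine sum_congr rfl fun a ha => ?_
      obtain ⟨a, rfl⟩ : ∃ c, a = c + 1 := ⟨a - 1, by have := pos a ha; omega⟩
      rw [Nat.add_sub_cancel]
      split_ifs with h
      · rw [prod_eq_zero (mem_erase.2 ⟨by omega, h⟩) (by push_cast; ring_nf)]; simp
      · have h1 : a ∉ S.erase (a + 1) := fun e => h (mem_of_mem_erase e)
        have h2 : 0 ∉ S.erase (a + 1) := fun e => h0 (mem_of_mem_erase e)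
        rw [dn, Nat.add_sub_cancel, DegId.gS_dn h2 h1, DegId.step h2 h1 (notMem_erase _ _), insert_erase ha,
          show a + 1 + (S.erase (a + 1)).sum id = S.sum id from add_sum_erase S id ha]
        ring

end CL.SP
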