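import Mathlib
import Cfsg.Agent.BLK.SP.Heis
import Cfsg.Agent.BLK.SP.DegId

/-!
# The degree of a spin character
-/

set_option autoImplicit false

open Finset

namespace CL.SP

theorem DegMN.phi_max {m : ℕ} {T : Finset ℕ} (h0 : m ≠ 0) (hm : ∀ x ∈ T, x < m) :
    phi (m : ℤ) (bv T) = bv (insert m T) := by
  have h1 : m ∉ T := fun h => lt_irrefl _ (hm m h)
  have h2 : {s ∈ T | m < s} = ∅ :=
    Finset.filter_eq_empty_iff.2 fun x hx h => lt_asymm h (hm x hx)
  rw [phi_bv, phiB, if_pos (by omega), Int.natAbs_natCast, if_neg h1, sg, h2]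
  simp

theorem DegMN.phi_mem {m : ℕ} {T : Finset ℕ} (h0 : m ≠ 0) (hm : m ∈ T) :
    phi (m : ℤ) (bv T) = 0 := by
  rw [phi_bv, phiB, if_pos (by omega), Int.natAbs_natCast, if_pos hm]

theorem DegMN.sum_dn {S : Finset ℕ} (h0 : 0 ∉ S) {a : ℕ} (ha : a ∈ S) (h1 : a - 1 ∉ S) :
    (dn S a).sum id + 1 = S.sum id := by
  have h2 : a ≠ 0 := fun h => h0 (h ▸ ha)
  rw [dn, Finset.sum_erase (f := id) (a := 0) _ rfl, Finset.sum_insert fun h => h1 (Finset.mem_of_mem_erase h),
    ← Finset.add_sum_erase _ _ ha]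
  simp only [id]
  omega

/-- Induct on `S` removing the maximum `m` (`Finset.induction_on_max`): `bv (insert m T) = phi m (bv T)`,
`Bo_comm`: `Bo (-1) (phi m v) = phi m (Bo (-1) v) + phi (m - 1) v`; `phi (m-1) (bv T)` is `0` if
`m - 1 ∈ T`, `bv (insert (m-1) T)` if `m > 1`, and `bv ∅` if `m = 1` (then `T = ∅`);
`phi m (bv (dn T a)) = bv (dn (insert m T) a)`. Base: `Bo_neg_vac`. -/
theorem Bo_one {S : Finset ℕ} (h0 : 0 ∉ S) :
    Bo (-1) (bv S) = ∑ a ∈ S with a - 1 ∉ S, bv (dn S a) := by
  induction S using Finset.induction_on_max with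
  | empty =>
    rw [Bo_neg_vac (by norm_num) fun a ha => phi_neg_bv ha (Finset.notMem_empty _)]
    simp
  | insert m T hm ih =>
    have m0 : m ≠ 0 := fun h => h0 (h ▸ Finset.mem_insert_self _ _)
    have T0 : 0 ∉ T := fun h => h0 (Finset.mem_insert_of_mem h)
    have mT : m ∉ T := fun h => lt_irrefl _ (hm m h)
    have h1 := LinearMap.congr_fun (Bo_comm (k := -1) (by decide) (m : ℤ)) (bv T)
    rw [LinearMap.sub_apply, Module.End.mul_apply, Module.End.mul_apply, DegMN.phi_max m0 hm,
      sub_eq_iff_eq_add, ih T0] at h1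
    rw [h1, Finset.sum_filter, Finset.sum_filter, Finset.sum_insert mT, map_sum]
    congr 1
    · obtain ⟨n, rfl⟩ := Nat.exists_eq_succ_of_ne_zero m0
      have e1 : ((n.succ : ℕ) : ℤ) + -1 = (n : ℤ) := by push_cast; ring
      have e2 : dn (insert n.succ T) n.succ = (insert n T).erase 0 := by
        rw [dn, Finset.erase_insert mT]; rfl
      rw [e1, e2, Nat.succ_sub_one]
      by_cases hn : n ∈ T
      · rw [if_neg (not_not.2 (Finset.mem_insert_of_mem hn)),
          DegMN.phi_mem (fun h => T0 (h ▸ hn)) hn]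
      · rw [if_pos (by simp [hn])]
        by_cases n0 : n = 0
        · subst n0
          obtain rfl : T = ∅ := Finset.eq_empty_of_forall_notMem fun x hx => by
            have := hm x hx
            obtain rfl : x = 0 := by omega
            exact T0 hx
          simpa using phi_zero_vac
        · rw [DegMN.phi_max n0 fun x hx => lt_of_le_of_ne (Nat.lt_succ_iff.1 (hm x hx))
            fun h => hn (h ▸ hx), Finset.erase_eq_of_notMem (by simp [T0, Ne.symm n0])]
    · refine Finset.sum_congr rfl fun a ha => ?_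
      have h2 := hm a ha
      have h3 : a - 1 ∈ insert m T ↔ a - 1 ∈ T := by
        rw [Finset.mem_insert]; exact or_iff_right (by omega)
      have h4 : dn (insert m T) a = insert m (dn T a) := by
        ext x
        simp only [dn, Finset.mem_erase, Finset.mem_insert]
        constructor
        · rintro ⟨x0, h | ⟨xa, h | h⟩⟩
          exacts [Or.inr ⟨x0, Or.inl h⟩, Or.inl h, Or.inr ⟨x0, Or.inr ⟨xa, h⟩⟩]
        · rintro (rfl | ⟨x0, h | ⟨xa, h⟩⟩)
          exacts [⟨m0, Or.inr ⟨h2.ne', Or.inl rfl⟩⟩, ⟨x0, Or.inl h⟩, ⟨x0, Or.inr ⟨xa, Or.inr h⟩⟩]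
      simp only [h3]
      split_ifs
      · exact map_zero _
      · rw [h4]
        refine DegMN.phi_max m0 fun x hx => ?_
        simp only [dn, Finset.mem_erase, Finset.mem_insert] at hx
        rcases hx with ⟨-, h | ⟨-, h⟩⟩
        · omega
        · exact hm x h

/-- Induct on `n = S.sum id` for all `S`: `XV_cons` with `k = 1`, `Bo_one`, `XV_sum`, `gS_rec`;
`(dn S a).sum id + 1 = S.sum id`, `0 ∉ dn S a`; `n = 0` forces `S = ∅`. -/
theorem X_one {S : Finset ℕ} (h0 : 0 ∉ S) : X S (Multiset.replicate (S.sum id) 1) = gS S := by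
  suffices H : ∀ n, ∀ S : Finset ℕ, 0 ∉ S → S.sum id = n →
      X S (Multiset.replicate n 1) = gS S from H _ S h0 rfl
  intro n
  induction n with
  | zero =>
    intro S h0 h
    obtain rfl : S = ∅ := Finset.eq_empty_of_forall_notMem fun x hx => by
      have := Finset.sum_eq_zero_iff.1 h x hx
      exact h0 ((show x = 0 from this) ▸ hx)
    rw [X, Multiset.replicate_zero, XV_zero]
    simp [gS]
  | succ n ih =>
    intro S h0 h
    have hne : S.Nonempty := Finset.nonempty_iff_ne_empty.2 fun e => by simp [e] at h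
    rw [X, Multiset.replicate_succ, XV_cons odd_one fun j hj => by
      rw [Multiset.eq_of_mem_replicate hj]; exact odd_one, Nat.cast_one, Bo_one h0, XV_sum,
      gS_rec h0 hne]
    refine Finset.sum_congr rfl fun a ha => ?_
    obtain ⟨h1, h2⟩ := Finset.mem_filter.1 ha
    have h3 := DegMN.sum_dn h0 h1 h2
    exact ih _ (Finset.notMem_erase _ _) (by omega)

end CL.SP
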