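import Mathlib
import Cfsg.Agent.CHAR.Basic
import Cfsg.Agent.CHAR.FS

/-!
# Anticommuting operators make a character divisible by a power of two
-/

set_option autoImplicit false

open Finset Matrix Cfsg CL.Char

namespace CL.SP

/-- For an idempotent `e` commuting with `ρ`, `y ↦ trace (ρ y * e)` is the character of the
subrepresentation on the range of `e` (`isCharacter_character`; `LinearMap.IsProj.trace`-style, or
`LinearMap.trace_restrict`/`trace_comp_comm'` with `rangeRestrict` and `subtype`). -/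
theorem isCharacter_trace_mul {Y : Type*} [Group Y] {J : Type*} [Fintype J] [DecidableEq J]
    (ρ : Y →* Matrix J J ℂ) {e : Matrix J J ℂ} (he : e * e = e) (hc : ∀ y, ρ y * e = e * ρ y) :
    IsCharacter Y fun y => (ρ y * e).trace := by
  have h := CL.Char.isCharacter_trace_mul_proj ((Matrix.toLinAlgEquiv' (R := ℂ) (n := J)).toMonoidHom.comp ρ) (toLin' e)
    (by rw [Module.End.mul_eq_comp, ← toLin'_mul, he]) (fun g => by
      show toLin' e * toLin' (ρ g) = toLin' (ρ g) * toLin' e
      rw [Module.End.mul_eq_comp, Module.End.mul_eq_comp, ← toLin'_mul, ← toLin'_mul, hc])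
  convert h using 2 with y
  show _ = LinearMap.trace ℂ _ (toLin' (ρ y) * toLin' e)
  rw [Module.End.mul_eq_comp, ← toLin'_mul, Matrix.trace_toLin'_eq]

/-- Prove by induction on `b`, for every finset `s` with `2 * b ≤ #s` and every idempotent `e`
commuting with all `ρ y` and all `u i` (`i ∈ s`): `trace (ρ y * e) = 2 ^ b * θ y` with `θ` a character.
Step: take `i ≠ j` in `s`; `(u i * u j) ^ 2 = -(a_i a_j)`, rescale by a square root to `J` with
`J * J = 1`; `e' = e * (1 + J) / 2` is idempotent and commutes with `ρ y` and `u k`, `k ∈ s \ {i, j}`;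
`trace (ρ y * e * J) = 0` (conjugate by the invertible `u i`, which anticommutes with `J`), so
`trace (ρ y * e) = 2 * trace (ρ y * e')`. Base: `isCharacter_trace_mul`. -/
theorem exists_char_of_anti {Y : Type*} [Group Y] {J : Type*} [Fintype J] [DecidableEq J]
    (ρ : Y →* Matrix J J ℂ) {ι : Type*} [Fintype ι] (u : ι → Matrix J J ℂ)
    (hsq : ∀ i, ∃ a : ℂ, a ≠ 0 ∧ u i * u i = a • (1 : Matrix J J ℂ))
    (hanti : ∀ i j, i ≠ j → u i * u j = -(u j * u i)) (hc : ∀ y i, ρ y * u i = u i * ρ y) :
    ∃ θ : Y → ℂ, IsCharacter Y θ ∧ ∀ y, (ρ y).trace = 2 ^ (Fintype.card ι / 2) * θ y := by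
  classical
  have key : ∀ (b : ℕ) (s : Finset ι), 2 * b ≤ #s → ∀ e : Matrix J J ℂ, e * e = e → (∀ y, ρ y * e = e * ρ y) →
      (∀ i ∈ s, u i * e = e * u i) → ∃ θ : Y → ℂ, IsCharacter Y θ ∧ ∀ y, (ρ y * e).trace = 2 ^ b * θ y := by
    intro b
    induction b with
    | zero => exact fun s _ e he h1 _ => ⟨_, isCharacter_trace_mul ρ he h1, fun y => by simp⟩
    | succ b ih =>
      intro s hs e he h1 h2
      obtain ⟨i, hi, j, hj, hij⟩ := Finset.one_lt_card.1 (show 1 < #s by omega)
      obtain ⟨a, a0, ha⟩ := hsq i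
      obtain ⟨a', a0', ha'⟩ := hsq j
      obtain ⟨c, hcc⟩ := IsAlgClosed.exists_eq_mul_self (-(a * a'))⁻¹
      obtain ⟨K, hK⟩ : ∃ K, K = c • (u i * u j) := ⟨_, rfl⟩
      have KK : K * K = 1 := by
        rw [hK, smul_mul_smul_comm, ← hcc, mul_assoc, ← mul_assoc (u j), hanti j i hij.symm, neg_mul, mul_neg,
          mul_assoc, ← mul_assoc (u i), ha, ha', smul_mul_smul_comm, one_mul, ← neg_smul, smul_smul,
          inv_mul_cancel₀ (neg_ne_zero.2 (mul_ne_zero a0 a0')), one_smul]
      have cm : ∀ M : Matrix J J ℂ, M * u i = u i * M → M * u j = u j * M → M * K = K * M := fun M m1 m2 => by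
        rw [hK, mul_smul_comm, smul_mul_assoc, ← mul_assoc, m1, mul_assoc, m2, mul_assoc]
      have eK := cm e (h2 i hi).symm (h2 j hj).symm
      have ρK := fun y => cm (ρ y) (hc y i) (hc y j)
      have uK : ∀ k, k ≠ i → k ≠ j → u k * K = K * u k := fun k k1 k2 => by
        rw [hK, mul_smul_comm, smul_mul_assoc, ← mul_assoc, hanti k i k1, neg_mul, mul_assoc, hanti k j k2, mul_neg,
          neg_neg, mul_assoc]
      have iK : u i * K = -(K * u i) := by
        rw [hK, mul_smul_comm, smul_mul_assoc, mul_assoc, hanti j i hij.symm, mul_neg, smul_neg, neg_neg]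
      have c2 : ∀ M : Matrix J J ℂ, M * e = e * M → M * K = K * M →
          M * ((2 : ℂ)⁻¹ • (e + e * K)) = (2 : ℂ)⁻¹ • (e + e * K) * M := fun M m1 m2 => by
        rw [mul_smul_comm, smul_mul_assoc, mul_add, add_mul, ← mul_assoc, m1, mul_assoc, m2, mul_assoc]
      obtain ⟨θ, hθ, h3⟩ := ih ((s.erase i).erase j) (by
        rw [card_erase_of_mem (mem_erase.2 ⟨hij.symm, hj⟩), card_erase_of_mem hi]; omega) ((2 : ℂ)⁻¹ • (e + e * K)) (by
          rw [smul_mul_smul_comm, add_mul, mul_add, mul_add, ← mul_assoc e e, he, mul_assoc e K e, ← eK,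
            ← mul_assoc e e, he, mul_assoc e K, ← mul_assoc K, ← eK, mul_assoc e K K, KK, mul_one, he,
            add_comm (e * K) e, ← two_smul ℂ (e + e * K), smul_smul]
          norm_num) (fun y => c2 _ (h1 y) (ρK y)) fun k hk => by
          simp only [mem_erase] at hk
          exact c2 _ (h2 k hk.2.2) (uK k hk.2.1 hk.1)
      refine ⟨θ, hθ, fun y => ?_⟩
      have t0 : (ρ y * (e * K)).trace = 0 := by
        have e1 : u i * (ρ y * (e * K)) = -(ρ y * (e * K) * u i) := by
          rw [← mul_assoc, ← hc, mul_assoc, ← mul_assoc (u i), h2 i hi, mul_assoc e, iK]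
          simp only [mul_neg, mul_assoc]
        have e2 : (u i * (ρ y * (e * K)) * u i).trace = a * (ρ y * (e * K)).trace := by
          rw [trace_mul_cycle, ha, smul_mul_assoc, one_mul, trace_smul, smul_eq_mul]
        rw [e1, neg_mul, mul_assoc _ (u i), ha, mul_smul_comm, mul_one, trace_neg, trace_smul, smul_eq_mul] at e2
        have : (2 * a) * (ρ y * (e * K)).trace = 0 := by linear_combination -e2
        exact (mul_eq_zero.1 this).resolve_left (mul_ne_zero two_ne_zero a0)
      have := h3 y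
      rw [mul_smul_comm, mul_add, trace_smul, trace_add, t0, add_zero, smul_eq_mul] at this
      rw [pow_succ]
      linear_combination 2 * this
  obtain ⟨θ, hθ, h⟩ := key (Fintype.card ι / 2) univ (by rw [card_univ]; omega) 1 (one_mul 1) (fun y => by simp)
    fun i _ => by simp
  exact ⟨θ, hθ, fun y => by rw [← h y, mul_one]⟩

end CL.SP
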