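import Mathlib
import Cfsg.Agent.BLK.SP.Clif
import Cfsg.Agent.BLK.SP.Div

/-!
# The Clifford character on Young subgroups
-/

set_option autoImplicit false

open Finset Equiv Matrix Cfsg

namespace CL.SP

variable {n : ℕ}

namespace Ops

theorem c_sum {i : Fin n} {s : Finset (Fin n)} (hi : i ∉ s) :
    cM i * ∑ k ∈ s, cM k = -((∑ k ∈ s, cM k) * cM i) := by
  rw [Matrix.mul_sum, Matrix.sum_mul, ← sum_neg_distrib]
  exact sum_congr rfl fun k hk => cM_anti fun e => hi (e ▸ hk)

theorem sum_sq (s : Finset (Fin n)) :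
    (∑ k ∈ s, cM k) * ∑ k ∈ s, cM k = (#s : ℂ) • (1 : Mt n) := by
  induction s using Finset.induction_on with
  | empty => simp
  | insert i s hi ih =>
    rw [sum_insert hi, add_mul, mul_add, mul_add, cM_sq, c_sum hi, ih, card_insert_of_notMem hi,
      Nat.cast_succ, add_smul, one_smul]
    abel

theorem sum_anti {s t : Finset (Fin n)} (h : Disjoint s t) :
    (∑ k ∈ s, cM k) * ∑ k ∈ t, cM k = -((∑ k ∈ t, cM k) * ∑ k ∈ s, cM k) := by
  rw [Finset.sum_mul s, Finset.mul_sum s, ← sum_neg_distrib]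
  exact sum_congr rfl fun k hk => c_sum (disjoint_left.1 h hk)

theorem g_sum (s : Finset (Fin n)) : gM n * ∑ k ∈ s, cM k = -((∑ k ∈ s, cM k) * gM n) := by
  rw [Matrix.mul_sum, Matrix.sum_mul, ← sum_neg_distrib]
  exact sum_congr rfl fun k _ => gM_cM k

theorem sum_d (s : Finset (Fin n)) (i : Fin n) :
    (∑ k ∈ s, cM k) * dM i = dM i * ∑ k ∈ s, cM k := by
  rw [Matrix.mul_sum, Matrix.sum_mul]
  exact sum_congr rfl fun k _ => cM_dM k i

variable {m : ℕ} (f : Fin n → Fin m)

/-- the sum of the generators in a fibre -/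
noncomputable def e (b : Fin m) : Mt n := ∑ k ∈ univ.filter (fun k => f k = b), cM k

/-- the anticommuting operators -/
noncomputable def u : ↥(univ.image f) ⊕ Fin n → Mt n
  | .inl b => e f b * gM n
  | .inr i => dM i

theorem eg_mul (b b' : Fin m) : e f b * gM n * (e f b' * gM n) = -(e f b * e f b') := by
  rw [mul_assoc, ← mul_assoc (gM n), e, e, g_sum, neg_mul, mul_assoc, gM_sq, mul_one, mul_neg]

theorem eg_d (b : Fin m) (i : Fin n) : e f b * gM n * dM i = -(dM i * (e f b * gM n)) := by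
  rw [mul_assoc, gM_dM, mul_neg, ← mul_assoc, e, sum_d, mul_assoc]

theorem u_sq (i : ↥(univ.image f) ⊕ Fin n) : ∃ a : ℂ, a ≠ 0 ∧ u f i * u f i = a • (1 : Mt n) := by
  rcases i with ⟨b, hb⟩ | i
  · refine ⟨-(#(univ.filter fun k => f k = b) : ℂ), ?_, ?_⟩
    · obtain ⟨k, -, hk⟩ := mem_image.1 hb
      exact neg_ne_zero.2 (Nat.cast_ne_zero.2 (card_ne_zero.2 ⟨k, mem_filter.2 ⟨mem_univ _, hk⟩⟩))
    · rw [u, eg_mul, e, sum_sq, neg_smul]
  · exact ⟨1, one_ne_zero, by rw [u, dM_sq, one_smul]⟩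

theorem u_anti (i j : ↥(univ.image f) ⊕ Fin n) (h : i ≠ j) : u f i * u f j = -(u f j * u f i) := by
  rcases i with b | i <;> rcases j with b' | j
  · rw [u, u, eg_mul, eg_mul, e, e, sum_anti]
    exact disjoint_left.2 fun k h1 h2 => h (congrArg Sum.inl (Subtype.ext
      ((mem_filter.1 h1).2.symm.trans (mem_filter.1 h2).2)))
  · exact eg_d f b j
  · rw [u, u, eg_d, neg_neg]
  · exact dM_anti fun e => h (congrArg Sum.inr e)

theorem g_u (i : ↥(univ.image f) ⊕ Fin n) : gM n * u f i = -(u f i * gM n) := by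
  rcases i with b | i
  · rw [u, ← mul_assoc, e, g_sum, neg_mul]
  · exact gM_dM i

theorem u_comm {σ : Perm (Fin n)} {U : Mt n} (h : IsPin σ U) (hf : f ∘ σ = f)
    (i : ↥(univ.image f) ⊕ Fin n) : U * u f i = u f i * U := by
  rcases i with b | i
  · have h1 : U * e f b = sgn σ • (e f b * U) := by
      rw [e, Matrix.mul_sum, Matrix.sum_mul, smul_sum]
      refine sum_equiv σ (fun k => ?_) fun k _ => h.c k
      simp only [mem_filter, mem_univ, true_and, show f (σ k) = f k from congrFun hf k]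
    rw [u, ← mul_assoc, h1, smul_mul_assoc, mul_assoc, h.g, mul_smul_comm, smul_smul, sgn_mul_self,
      one_smul, mul_assoc]
  · exact h.d i

end Ops

/-- `exists_char_of_anti` for `ρ = (rho n).comp j`, `ι = ↥(univ.image f) ⊕ Fin n`,
`u (inl b) = e_b * gM n` with `e_b = ∑ i with f i = b, cM i`, `u (inr i) = dM i`.
`e_b * e_b = #fibre • 1` (nonzero), `e_b * e_b' = -(e_b' * e_b)` for `b ≠ b'`, `gM` anticommutes with
`e_b` and `dM i`, `e_b` commutes with `dM i`; `U * e_b = sgn σ • (e_b * U)` as `σ` permutes the fibre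
(`IsPin.c`), `U * gM = sgn σ • (gM * U)`, `sgn_mul_self`. -/
theorem ops_pin {m : ℕ} (f : Fin n → Fin m) {Y : Type*} [Group Y] (j : Y →* Pin n)
    (hf : ∀ y, f ∘ pr n (j y) = f) : ∃ θ : Y → ℂ, IsCharacter Y θ ∧
      ∀ y, Th (j y) = 2 ^ ((#(univ.image f) + n) / 2) * θ y := by
  have := exists_char_of_anti ((rho n).comp j) (Ops.u f) (Ops.u_sq f) (Ops.u_anti f)
    fun y i => Ops.u_comm f (isPin (j y)) (hf y) i
  rwa [Fintype.card_sum, Fintype.card_coe, Fintype.card_fin] at this

/-- As `ops_pin` with the extra operator `gM n` (`ι = Option (..)`): it anticommutes with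
`e_b * gM n` and `dM i` and commutes with the even elements. -/
theorem ops_spin {m : ℕ} (f : Fin n → Fin m) {Y : Type*} [Group Y] (j : Y →* Pin n)
    (hf : ∀ y, f ∘ pr n (j y) = f) (he : ∀ y, Perm.sign (pr n (j y)) = 1) :
    ∃ θ : Y → ℂ, IsCharacter Y θ ∧
      ∀ y, Th (j y) = 2 ^ ((#(univ.image f) + n + 1) / 2) * θ y := by
  have := exists_char_of_anti ((rho n).comp j) (fun o => Option.elim o (gM n) (Ops.u f))
    (by
      rintro (_ | i)
      · exact ⟨1, one_ne_zero, by rw [one_smul]; exact gM_sq⟩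
      · exact Ops.u_sq f i)
    (by
      rintro (_ | i) (_ | k) h
      · exact absurd rfl h
      · exact Ops.g_u f k
      · exact neg_eq_iff_eq_neg.1 (Ops.g_u f i).symm
      · exact Ops.u_anti f i k fun e => h (congrArg some e))
    (by
      rintro y (_ | i)
      · have := (isPin (j y)).g
        rwa [sgn, he, Units.val_one, Int.cast_one, one_smul] at this
      · exact Ops.u_comm f (isPin (j y)) (hf y) i)
  rwa [Fintype.card_option, Fintype.card_sum, Fintype.card_coe, Fintype.card_fin] at this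

end CL.SP
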