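import Mathlib
import Cfsg.Agent.CHAR.Inner
import Cfsg.Agent.CHAR.Orth
import Cfsg.Agent.CHAR.Constit

/-!
# Inner products of induced sums, and functions of small norm
-/

set_option autoImplicit false

open Finset Equiv Cfsg CL.Char

namespace CL.SP

open MulAction in
/-- the sum of an invariant function over a finite `G`-set -/
theorem Orb.sum_orb {G X : Type*} [Group G] [Finite G] [Fintype X] [MulAction G X] (T : X → ℂ) (b : ℂ)
    (h1 : ∀ (g : G) x, T (g • x) = T x) (h2 : ∀ x, ∃ z : ℤ, T x = Nat.card (stabilizer G x) * (b * z)) :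
    ∃ z : ℤ, ∑ x, T x = Nat.card G * (b * z) := by
  classical
  choose z hz using h2
  have := Fintype.ofFinite (orbitRel.Quotient G X)
  refine ⟨∑ ω : orbitRel.Quotient G X, z ω.out, ?_⟩
  rw [← sum_fiberwise univ (fun x => (Quotient.mk'' x : orbitRel.Quotient G X)), Int.cast_sum, mul_sum, mul_sum]
  refine sum_congr rfl fun ω _ => ?_
  have e : ∀ x, (Quotient.mk'' x : orbitRel.Quotient G X) = ω ↔ x ∈ orbit G ω.out := fun x => by
    rw [← orbitRel_apply, ← Quotient.eq'', Quotient.out_eq']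
  rw [sum_congr rfl (g := fun _ => T ω.out) fun x hx => by
      obtain ⟨g, rfl⟩ := (e x).1 (mem_filter.1 hx).2
      exact h1 g _, sum_const, nsmul_eq_mul, hz, ← mul_assoc, ← (stabilizer G ω.out).index_mul_card,
    index_stabilizer, Nat.cast_mul]
  congr 3
  rw [← Set.ncard_coe_finset]
  exact congrArg _ (Set.ext fun x => by simp only [coe_filter, mem_univ, true_and, Set.mem_ofPred_eq, e])

/-- Let `G` act on colourings by `g • f = f ∘ (π g)⁻¹`, `Y f` the stabilizer. Swapping the sums, the inner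
product is `∑ f, t f` with `t f = |G|⁻¹ * ∑ g ∈ Y f, c f * Θ g * conj (ψ g)`
`= (|Y f| / |G|) * 2 ^ a * z_f * ⟨θ_f, ψ|_Y⟩`, and `⟨θ_f, ψ|_Y⟩` is a natural number. `t` is constant
on orbits (conjugate `g`; `Θ`, `ψ` are class functions), an orbit has `|G| / |Y f|` elements: the sum of
`t` over an orbit lies in `2 ^ a ℤ`. -/
theorem inner_col {G : Type*} [Group G] [Fintype G] {A κ : Type*} [Fintype A] [DecidableEq A]
    [Fintype κ] [DecidableEq κ] (π : G →* Perm A) (Θ : G → ℂ) (hΘ : IsClassFunction G Θ)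
    (c : (A → κ) → ℂ) (hc : ∀ (σ : Perm A) (f : A → κ), c (f ∘ σ) = c f) (a : ℕ)
    (h : ∀ (f : A → κ) (Y : Subgroup G), (∀ y ∈ Y, f ∘ π y = f) → ∃ (θ : Y → ℂ) (z : ℤ),
      IsCharacter Y θ ∧ ∀ y : Y, c f * Θ y = 2 ^ a * z * θ y) (ψ : IrrCharacter G) :
    ∃ z : ℤ, classInner (fun g => Θ g * ∑ f : A → κ with f ∘ π g = f, c f) ψ.1 = 2 ^ a * z := by
  classical
  let _ : MulAction G (A → κ) :=
    { smul := fun g f => f ∘ π g⁻¹
      one_smul := fun f => by change f ∘ π 1⁻¹ = f; simp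
      mul_smul := fun g k f => by
        change f ∘ π (g * k)⁻¹ = (f ∘ π k⁻¹) ∘ π g⁻¹
        rw [mul_inv_rev, map_mul]; rfl }
  have e : ∀ (g : G) (f : A → κ), f ∘ π g = f ↔ g • f = f := fun g f => by
    rw [← inv_smul_eq_iff.trans eq_comm]
    change _ ↔ f ∘ π g⁻¹⁻¹ = f
    rw [inv_inv]
  have hψ := ψ.2.isCharacter
  obtain ⟨z, hz⟩ := Orb.sum_orb (G := G)
    (fun f : A → κ => ∑ g : G, if g • f = f then c f * Θ g * starRingEnd ℂ (ψ.1 g) else 0) (2 ^ a)
    (fun k f => by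
      rw [← Equiv.sum_comp (MulAut.conj k).toEquiv]
      refine sum_congr rfl fun g _ => ?_
      change (if (k * g * k⁻¹) • k • f = k • f then c (f ∘ π k⁻¹) * Θ (k * g * k⁻¹) *
        starRingEnd ℂ (ψ.1 (k * g * k⁻¹)) else 0) = _
      rw [hc, hΘ, hψ.isClassFunction, mul_smul, mul_smul, inv_smul_smul]
      simp only [smul_left_cancel_iff])
    (fun f => by
      obtain ⟨θ, z, hθ, hz⟩ := h f (MulAction.stabilizer G f) fun y hy => (e y f).2 hy
      obtain ⟨n, hn⟩ := hθ.isGen.exists_int_inner (hψ.res (MulAction.stabilizer G f)).isGen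
      refine ⟨z * n, ?_⟩
      rw [← sum_filter, sum_subtype (p := (· ∈ MulAction.stabilizer G f)) _ (fun g => by simp), Int.cast_mul, ← hn,
        ← mul_assoc (2 ^ a : ℂ), mul_left_comm, card_mul_classInner, mul_sum]
      exact sum_congr rfl fun y _ => by rw [hz, mul_assoc])
  refine ⟨z, mul_left_cancel₀ (card_ne_zero G) ?_⟩
  rw [← hz, card_mul_classInner, sum_comm]
  refine sum_congr rfl fun g _ => ?_
  rw [← sum_filter, mul_sum, sum_mul, filter_congr fun f _ => e g f]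
  exact sum_congr rfl fun f _ => by ring

/-- Expand `E = ∑ ψ, ⟨E, ψ⟩ ψ = 2 ^ a ∑ ψ, z ψ • ψ`; Parseval: `⟨E, E⟩ = 4 ^ a ∑ ψ, z ψ ^ 2`, so
`∑ z ψ ^ 2 ≤ 1` with `z χ ≠ 0`: `z χ = ±1` and the other `z ψ` vanish. -/
theorem eq_of_inner {G : Type*} [Group G] [Fintype G] {E : G → ℂ} (hE : IsClassFunction G E)
    {a : ℕ} (h : ∀ ψ : IrrCharacter G, ∃ z : ℤ, classInner E ψ.1 = 2 ^ a * z)
    (hn : (classInner E E).re ≤ 4 ^ a) {χ : IrrCharacter G} (hχ : classInner E χ.1 ≠ 0) :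
    ∃ ε : ℤ, (ε = 1 ∨ ε = -1) ∧ ∀ g, E g = ε * 2 ^ a * χ.1 g := by
  classical
  choose z hz using h
  have h1 : classInner E E = ((4 ^ a * ∑ ψ, z ψ ^ 2 : ℤ) : ℂ) := by
    rw [hE.inner_eq_sum hE]
    push_cast
    rw [mul_sum]
    refine sum_congr rfl fun ψ _ => ?_
    rw [hz, map_mul, map_pow, map_ofNat, map_intCast, show (4 : ℂ) = 2 * 2 by norm_num, mul_pow]
    ring
  rw [h1, Complex.intCast_re] at hn
  have h2 : (4 : ℤ) ^ a * ∑ ψ, z ψ ^ 2 ≤ 4 ^ a * 1 := by rw [mul_one]; exact_mod_cast hn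
  have h3 := le_of_mul_le_mul_left h2 (by positivity)
  have h4 : z χ ≠ 0 := fun h => hχ (by rw [hz, h, Int.cast_zero, mul_zero])
  have h5 : 0 < z χ ^ 2 := by positivity
  rw [← add_sum_erase _ _ (mem_univ χ)] at h3
  have h6 : 0 ≤ ∑ ψ ∈ univ.erase χ, z ψ ^ 2 := sum_nonneg fun _ _ => sq_nonneg _
  have h7 := (sum_eq_zero_iff_of_nonneg fun _ _ => sq_nonneg _).1 (show ∑ ψ ∈ univ.erase χ, z ψ ^ 2 = 0 by omega)
  refine ⟨z χ, sq_eq_one_iff.1 (by omega), fun g => ?_⟩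
  rw [hE.apply_eq_sum, sum_eq_single χ (fun ψ _ ne => ?_) fun h => absurd (mem_univ _) h, hz, mul_comm (2 ^ a : ℂ)]
  rw [hz, pow_eq_zero_iff two_ne_zero |>.1 (h7 ψ (mem_erase.2 ⟨ne, mem_univ _⟩)), Int.cast_zero, mul_zero, zero_mul]

end CL.SP
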