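import Mathlib
import Cfsg.Agent.BLK.SP.Clif

/-!
# The double cover: surjectivity, kernel, order
-/

set_option autoImplicit false
set_option maxHeartbeats 400000

open Finset Equiv Matrix

namespace CL.SP

variable {n : ℕ}

namespace PinX

theorem rr : ((Real.sqrt 2 : ℝ) : ℂ)⁻¹ * ((Real.sqrt 2 : ℝ) : ℂ)⁻¹ = 2⁻¹ := by
  rw [← mul_inv, ← Complex.ofReal_mul, Real.mul_self_sqrt (by norm_num)]
  norm_num

theorem DD {i j : Fin n} (h : i ≠ j) : (cM i - cM j) * (cM i - cM j) = (2 : ℂ) • (1 : Mt n) := by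
  rw [sub_mul, mul_sub, mul_sub, cM_sq, cM_sq, cM_anti h, two_smul]
  abel

theorem tt {i j : Fin n} (h : i ≠ j) : (((Real.sqrt 2 : ℝ) : ℂ)⁻¹ • (cM i - cM j)) *
    (((Real.sqrt 2 : ℝ) : ℂ)⁻¹ • (cM i - cM j)) = 1 := by
  rw [smul_mul_smul_comm, rr, DD h, smul_smul]
  norm_num

theorem anti {i j k l : Fin n} (h1 : i ≠ k) (h2 : i ≠ l) (h3 : j ≠ k) (h4 : j ≠ l) :
    (cM i - cM j) * (cM k - cM l) = -((cM k - cM l) * (cM i - cM j)) := by
  rw [sub_mul, mul_sub, mul_sub, sub_mul, mul_sub, mul_sub, cM_anti h1, cM_anti h2, cM_anti h3,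
    cM_anti h4]
  abel

end PinX

/-- `exists_pin` with `IsPin (swap i j) t` from the Clifford relations (`sgn (swap i j) = -1`;
cases `k = i`, `k = j`, other; `tᵀ = t`, `(cM i - cM j) ^ 2 = 2`). -/
theorem exists_tt {i j : Fin n} (h : i ≠ j) : ∃ t : Pin n, pr n t = swap i j ∧
    rho n t = ((Real.sqrt 2 : ℝ) : ℂ)⁻¹ • (cM i - cM j) := by
  have hs : sgn (swap i j) = -1 := by simp [sgn, Perm.sign_swap h]
  refine exists_pin ⟨fun k => ?_, fun k => ?_, ?_, ?_⟩
  · have key : (cM i - cM j) * cM k = -(cM (swap i j k) * (cM i - cM j)) := by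
      by_cases hi : k = i
      · rw [hi, swap_apply_left, sub_mul, mul_sub, cM_sq, cM_sq]; abel
      by_cases hj : k = j
      · rw [hj, swap_apply_right, sub_mul, mul_sub, cM_sq, cM_sq]; abel
      rw [swap_apply_of_ne_of_ne hi hj, sub_mul, mul_sub, cM_anti hi, cM_anti hj]; abel
    rw [hs, smul_mul_assoc, mul_smul_comm, key, neg_one_smul, smul_neg]
  · rw [smul_mul_assoc, mul_smul_comm, sub_mul, mul_sub, cM_dM, cM_dM]
  · rw [hs, smul_mul_assoc, mul_smul_comm, neg_one_smul, ← smul_neg, sub_mul, mul_sub, gM_cM, gM_cM]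
    congr 1
    abel
  · rw [transpose_smul, transpose_sub, cM_transpose, cM_transpose, PinX.tt h]

/-- The range contains all swaps (`Perm.swap_induction_on`/`closure_isSwap`). -/
theorem pr_surj : Function.Surjective (pr n) := by
  intro σ
  induction σ using Perm.swap_induction_on with
  | one => exact ⟨1, map_one _⟩
  | swap_mul f x y hxy ih =>
    obtain ⟨g, rfl⟩ := ih
    obtain ⟨t, ht, -⟩ := exists_tt hxy
    exact ⟨t * g, by rw [map_mul, ht]⟩

/-- `scalar_of_comm` and `Uᵀ * U = 1` give `U = a • 1`, `a ^ 2 = 1`; `pin_ext`. -/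
theorem pr_eq_one {g : Pin n} : pr n g = 1 ↔ g = 1 ∨ g = zz n := by
  constructor
  · intro h
    have H := isPin g
    rw [h] at H
    obtain ⟨a, ha⟩ := scalar_of_comm (U := rho n g) (fun i => by simpa [sgn_one] using H.c i) H.d
      (by simpa [sgn_one] using H.g)
    have h1 := H.o
    rw [ha, transpose_smul, transpose_one, smul_mul_smul_comm, mul_one] at h1
    have h2 : a * a = 1 := by simpa using congrFun (congrFun h1 ∅) ∅
    rcases mul_self_eq_one_iff.1 h2 with rfl | rfl
    · exact Or.inl (pin_ext (by rw [h, map_one]) (by rw [ha, map_one, one_smul]))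
    · exact Or.inr (pin_ext (by rw [h, pr_zz]) (by rw [ha, rho_zz, neg_one_smul]))
  · rintro (rfl | rfl)
    exacts [map_one _, pr_zz]

theorem zz_ne_one : zz n ≠ 1 := by
  intro h
  have h1 := congrArg (rho n) h
  rw [rho_zz, map_one] at h1
  have h2 := congrFun (congrFun h1 ∅) ∅
  simp at h2
  norm_num at h2

theorem zz_mul_zz : zz n * zz n = 1 := by
  exact pin_ext (by rw [map_mul, pr_zz, map_one, mul_one]) (by rw [map_mul, rho_zz, map_one]; simp)

theorem zz_comm (g : Pin n) : g * zz n = zz n * g := by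
  exact pin_ext (by rw [map_mul, map_mul, pr_zz, mul_one, one_mul])
    (by rw [map_mul, map_mul, rho_zz]; simp)

theorem card_ker_pr : Nat.card (pr n).ker = 2 := by
  have : ((pr n).ker : Set (Pin n)) = {1, zz n} := by
    ext g
    exact pr_eq_one
  rw [← SetLike.coe_sort_coe, this, Nat.card_coe_set_eq, Set.ncard_pair zz_ne_one.symm]

theorem ker_pr_le : (pr n).ker ≤ Subgroup.center (Pin n) := by
  intro g hg
  rcases pr_eq_one.1 hg with rfl | rfl
  · exact one_mem _
  · exact Subgroup.mem_center_iff.2 zz_comm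

theorem card_pin : Nat.card (Pin n) = 2 * n.factorial := by
  rw [← (pr n).ker.card_mul_index, card_ker_pr, Subgroup.index_ker,
    MonoidHom.range_eq_top.2 pr_surj, Subgroup.card_top, Nat.card_perm, Nat.card_eq_fintype_card,
    Fintype.card_fin]

instance finite_pin : Finite (Pin n) :=
  Nat.finite_of_card_ne_zero (by rw [card_pin]; exact mul_ne_zero two_ne_zero n.factorial_ne_zero)

theorem index_spin (hn : 2 ≤ n) : (Spin n).index = 2 := by
  have : Nontrivial (Fin n) := Fin.nontrivial_iff_two_le.2 hn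
  rw [Subgroup.index_comap_of_surjective _ pr_surj, alternatingGroup.index_eq_two]

theorem card_spin (hn : 2 ≤ n) : Nat.card (Spin n) = n.factorial := by
  have := (Spin n).card_mul_index
  rw [index_spin hn, card_pin] at this
  omega

/-- The commutator subgroup `K` maps onto the perfect group `A_n`, so `Spin n = K ⟨zz⟩` and every
square lies in `K` (`zz` is central of order 2). For `a = t₀₁ t₂₃ ∈ Spin n` (`exists_tt`),
`rho (a * a) = -1`, `pr (a * a) = 1`, so `a * a = zz ∈ K`. -/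
theorem perfect_spin (hn : 5 ≤ n) : Group.IsPerfect (Spin n) := by
  rw [Subgroup.isPerfect_iff]
  have hK : (⁅Spin n, Spin n⁆ : Subgroup (Pin n)).map (pr n) = alternatingGroup (Fin n) := by
    rw [Subgroup.map_commutator, Subgroup.map_comap_eq_self_of_surjective pr_surj,
      commutator_alternatingGroup_eq_self (by simpa using hn)]
  have dec : ∀ g ∈ Spin n, ∃ k ∈ (⁅Spin n, Spin n⁆ : Subgroup (Pin n)), g = k ∨ g = k * zz n := by
    intro g hg
    have h1 : pr n g ∈ (⁅Spin n, Spin n⁆ : Subgroup (Pin n)).map (pr n) := hK ▸ hg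
    obtain ⟨k, hk, e⟩ := h1
    refine ⟨k, hk, ?_⟩
    rcases pr_eq_one.1 (show pr n (k⁻¹ * g) = 1 by rw [map_mul, map_inv, e, inv_mul_cancel]) with h | h
    · exact Or.inl (inv_mul_eq_one.1 h).symm
    · exact Or.inr (by rw [← h, mul_inv_cancel_left])
  have hz : zz n ∈ (⁅Spin n, Spin n⁆ : Subgroup (Pin n)) := by
    obtain ⟨i, j, k, l, h1, h2, h3, h4, h5, h6⟩ : ∃ i j k l : Fin n,
        i ≠ j ∧ i ≠ k ∧ i ≠ l ∧ j ≠ k ∧ j ≠ l ∧ k ≠ l :=
      ⟨⟨0, by omega⟩, ⟨1, by omega⟩, ⟨2, by omega⟩, ⟨3, by omega⟩, by simp [Fin.ext_iff]⟩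
    obtain ⟨t, t1, t2⟩ := exists_tt h1
    obtain ⟨u, u1, u2⟩ := exists_tt h6
    have ha : t * u ∈ Spin n := by
      show pr n (t * u) ∈ alternatingGroup (Fin n)
      rw [map_mul, t1, u1, Perm.mem_alternatingGroup, map_mul, Perm.sign_swap h1, Perm.sign_swap h6]
      simp
    have hc : swap k l * swap i j = swap i j * swap k l :=
      (Perm.disjoint_swap_swap (by simp [h1, h2, h3, h4, h5, h6])).commute.eq.symm
    have e : t * u * (t * u) = zz n := by
      refine pin_ext ?_ ?_
      · rw [pr_zz, map_mul, map_mul, t1, u1, mul_assoc, ← mul_assoc (swap k l), hc, mul_assoc,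
          Equiv.swap_mul_self, mul_one, Equiv.swap_mul_self]
      · have h7 : rho n u * rho n t = -(rho n t * rho n u) := by
          rw [t2, u2, smul_mul_smul_comm, smul_mul_smul_comm, PinX.anti h2 h3 h4 h5, smul_neg, neg_neg]
        rw [rho_zz, map_mul, map_mul, mul_assoc, ← mul_assoc (rho n u), h7, neg_mul, mul_neg, mul_assoc,
          ← mul_assoc (rho n t), t2, u2, PinX.tt h1, PinX.tt h6, one_mul]
    obtain ⟨w, hw, h | h⟩ := dec _ ha
    · rw [← e, h]
      exact mul_mem hw hw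
    · rw [← e, h, mul_assoc, ← mul_assoc (zz n), ← zz_comm, mul_assoc, zz_mul_zz, mul_one]
      exact mul_mem hw hw
  refine le_antisymm (Subgroup.commutator_le_left _ _) fun g hg => ?_
  obtain ⟨k, hk, rfl | rfl⟩ := dec g hg
  exacts [hk, mul_mem hk hz]

end CL.SP
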