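import Mathlib
import Cfsg.Agent.BLK.SP.Pin

/-!
# The square of the character of the Clifford module
-/

set_option autoImplicit false

open Finset Equiv Matrix CL.Sym Cfsg
open scoped ComplexConjugate

namespace CL.SP.Theta2

variable {n : ℕ}

open scoped Classical in
theorem key (h1 : Th (1 : Pin n) = 2 ^ n) (hz : ∀ g : Pin n, Th (zz n * g) = -Th g)
    (hf : ∀ {l : List (Fin n)}, l.Nodup → l ≠ [] → ∀ {g h : Pin n}, (∀ x ∈ l, pr n g x = x) →
      pr n h = l.formPerm * pr n g →
      Th h ^ 2 * 2 ^ (l.length - 1) = if Odd l.length then Th g ^ 2 else 0)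
    (σ : Perm (Fin n)) : ∀ g : Pin n, pr n g = σ → Th g ^ 2 * 2 ^ σ.cycleType.sum =
      if ∀ k ∈ σ.cycleType, Odd k then 2 ^ (n + n + Multiset.card σ.cycleType) else 0 := by
  have one : ∀ g : Pin n, pr n g = 1 → Th g ^ 2 * 2 ^ (1 : Perm (Fin n)).cycleType.sum =
      if ∀ k ∈ (1 : Perm (Fin n)).cycleType, Odd k then
        2 ^ (n + n + Multiset.card (1 : Perm (Fin n)).cycleType) else 0 := fun g hg => by
    rcases pr_eq_one.1 hg with rfl | rfl
    · simp [h1, pow_add, sq]
    · have := hz 1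
      rw [mul_one] at this
      simp [this, h1, pow_add, sq]
  have step : ∀ c τ : Perm (Fin n), Perm.Disjoint c τ → c.IsCycle →
      (∀ g : Pin n, pr n g = τ → Th g ^ 2 * 2 ^ τ.cycleType.sum =
        if ∀ k ∈ τ.cycleType, Odd k then 2 ^ (n + n + Multiset.card τ.cycleType) else 0) →
      ∀ g : Pin n, pr n g = c * τ → Th g ^ 2 * 2 ^ (c * τ).cycleType.sum =
        if ∀ k ∈ (c * τ).cycleType, Odd k then 2 ^ (n + n + Multiset.card (c * τ).cycleType) else 0 := by
    intro c τ hd hc ih h hh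
    obtain ⟨g, rfl⟩ := pr_surj τ
    obtain ⟨x, hx, -⟩ := id hc
    have hx' := Perm.mem_support.2 hx
    have hl : (c.toList x).length = #c.support := by rw [Perm.length_toList, hc.cycleOf_eq hx]
    have e := hf (Perm.nodup_toList c x) (fun e => Perm.toList_eq_nil_iff.1 e hx') (g := g) (h := h)
      (fun y hy => (hd y).resolve_left fun e' =>
        hx ((Perm.mem_toList_iff.1 hy).1.apply_eq_self_iff.2 e'))
      (by rw [Perm.formPerm_toList, hc.cycleOf_eq hx, hh])
    obtain ⟨m, hm⟩ : ∃ m, #c.support = m + 1 := ⟨_, (Nat.succ_pred_eq_of_pos (card_pos.2 ⟨x, hx'⟩)).symm⟩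
    rw [hl, hm, Nat.add_sub_cancel] at e
    have ih' := ih g rfl
    rw [hd.cycleType_mul, hc.cycleType, hm, Multiset.singleton_add, Multiset.sum_cons, Multiset.card_cons]
    simp only [Multiset.forall_mem_cons]
    have e2 : Th h ^ 2 * 2 ^ (m + 1 + (pr n g).cycleType.sum) =
        Th h ^ 2 * 2 ^ m * 2 ^ (pr n g).cycleType.sum * 2 := by ring
    rw [e2, e]
    by_cases o : Odd (m + 1)
    · rw [if_pos o, ih']
      by_cases o' : ∀ k ∈ (pr n g).cycleType, Odd k
      · rw [if_pos o', if_pos ⟨o, o'⟩]; ring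
      · rw [if_neg o', if_neg fun a => o' a.2, zero_mul]
    · rw [if_neg o, if_neg fun a => o a.1, zero_mul, zero_mul]
  induction σ using Perm.cycle_induction_on with
  | base_one => exact one
  | base_cycles c hc => simpa only [mul_one] using step c 1 (Perm.disjoint_one_right c) hc one
  | induction_disjoint c τ hd hc _ ih => exact step c τ hd hc ih

open scoped Classical in
theorem sq (h1 : Th (1 : Pin n) = 2 ^ n) (hz : ∀ g : Pin n, Th (zz n * g) = -Th g)
    (hf : ∀ {l : List (Fin n)}, l.Nodup → l ≠ [] → ∀ {g h : Pin n}, (∀ x ∈ l, pr n g x = x) →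
      pr n h = l.formPerm * pr n g →
      Th h ^ 2 * 2 ^ (l.length - 1) = if Odd l.length then Th g ^ 2 else 0)
    (g : Pin n) : Th g ^ 2 =
    if ∀ k ∈ parts (pr n g), Odd k then 2 ^ (n + Multiset.card (parts (pr n g))) else 0 := by
  have e := key h1 hz hf _ g rfl
  have hs : #(pr n g).support ≤ n := (card_le_univ _).trans (Fintype.card_fin n).le
  have iff : (∀ k ∈ parts (pr n g), Odd k) ↔ ∀ k ∈ (pr n g).cycleType, Odd k := by
    rw [parts, Perm.parts_partition]
    refine ⟨fun h k hk => h k (Multiset.mem_add.2 (Or.inl hk)), fun h k hk => ?_⟩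
    rcases Multiset.mem_add.1 hk with hk | hk
    · exact h k hk
    · rw [Multiset.eq_of_mem_replicate hk]; exact odd_one
  refine mul_right_cancel₀ (pow_ne_zero (pr n g).cycleType.sum (two_ne_zero' ℂ)) (e.trans ?_)
  by_cases o : ∀ k ∈ (pr n g).cycleType, Odd k
  · rw [if_pos o, if_pos (iff.2 o), ← pow_add, parts, Perm.parts_partition, Multiset.card_add,
      Multiset.card_replicate, Fintype.card_fin, Perm.sum_cycleType]
    congr 1
    omega
  · rw [if_neg o, if_neg (mt iff.1 o), zero_mul]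

open scoped Classical in
theorem conj_eq {g : Pin n} (hsq : Th g ^ 2 =
    if ∀ k ∈ parts (pr n g), Odd k then 2 ^ (n + Multiset.card (parts (pr n g))) else 0) :
    conj (Th g) = Th g := by
  obtain ⟨r, hr, e⟩ : ∃ r : ℝ, 0 ≤ r ∧ Th g ^ 2 = r := by
    split_ifs at hsq
    · exact ⟨2 ^ (n + Multiset.card (parts (pr n g))), by positivity, by rw [hsq]; push_cast; rfl⟩
    · exact ⟨0, le_rfl, by rw [hsq]; rfl⟩
  have e2 : Th g ^ 2 = ((Real.sqrt r : ℝ) : ℂ) ^ 2 := by rw [e, ← Complex.ofReal_pow, Real.sq_sqrt hr]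
  rcases sq_eq_sq_iff_eq_or_eq_neg.1 e2 with h | h
  · rw [h, Complex.conj_ofReal]
  · rw [h, map_neg, Complex.conj_ofReal]

end CL.SP.Theta2
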