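import Mathlib
import Cfsg.Agent.BLK.SP.Pin
import Cfsg.Agent.BLK.SP.Theta2

/-!
# The character of the Clifford module
-/

set_option autoImplicit false

open Finset Equiv Matrix CL.Sym Cfsg
open scoped ComplexConjugate

namespace CL.SP

variable {n : ℕ}

theorem Th_one : Th (1 : Pin n) = 2 ^ n := by
  simp [Th]

theorem Th_zz_mul (g : Pin n) : Th (zz n * g) = -Th g := by
  simp [Th, rho_zz]

theorem Th_class : IsClassFunction (Pin n) Th := by
  intro g h
  rw [Th, Th, map_mul, trace_mul_comm, ← map_mul, inv_mul_cancel_left]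

/-- `η = cM x * dM x * gM n` is invertible (`η * η = ±1`), anticommutes with `cM x`, commutes with
`cM y` (`y ≠ x`) and with `rho g` if `pr g x = x` (the two signs cancel). So the trace of
`N * rho g` vanishes if `η` anticommutes with `N`. -/
theorem trace_cM_mul {g : Pin n} {x : Fin n} (hx : pr n g x = x) :
    (cM x * rho n g).trace = 0 ∧ ∀ y, y ≠ x →
      (cM x * cM y * rho n g).trace = 0 ∧ (cM y * cM x * rho n g).trace = 0 := by
  have hη : cM x * dM x * gM n * (cM x * dM x * gM n) = 1 := by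
    rw [Clif.cdg, diagonal_mul_diagonal]
    simp only [Clif.s_sq, diagonal_one]
  have hd : ∀ y, dM x * gM n * cM y = -(cM y * (dM x * gM n)) := fun y => by
    rw [Matrix.mul_assoc, gM_cM, Matrix.mul_neg, ← Matrix.mul_assoc, ← cM_dM, Matrix.mul_assoc]
  rw [Matrix.mul_assoc (cM x)] at hη
  have h1 : cM x * (dM x * gM n) * cM x = -(cM x * (cM x * (dM x * gM n))) := by
    rw [Matrix.mul_assoc, hd, Matrix.mul_neg]
  have h2 : ∀ y, y ≠ x → cM x * (dM x * gM n) * cM y = cM y * (cM x * (dM x * gM n)) := fun y hy => by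
    rw [Matrix.mul_assoc, hd, Matrix.mul_neg, ← Matrix.mul_assoc, cM_anti hy.symm, Matrix.neg_mul, neg_neg,
      Matrix.mul_assoc]
  have h3 : rho n g * (cM x * (dM x * gM n)) = cM x * (dM x * gM n) * rho n g := by
    rw [← Matrix.mul_assoc, (isPin g).c, hx, Matrix.smul_mul, Matrix.mul_assoc, ← Matrix.mul_assoc (rho n g),
      (isPin g).d, Matrix.mul_assoc, (isPin g).g, Matrix.mul_smul, Matrix.mul_smul, smul_smul, sgn_mul_self,
      one_smul]
    simp only [Matrix.mul_assoc]
  generalize cM x * (dM x * gM n) = η at hη h1 h2 h3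
  have key : ∀ N : Mt n, η * N = -(N * η) → (N * rho n g).trace = 0 := fun N hN => by
    have : (N * rho n g).trace = -(N * rho n g).trace := by
      conv_lhs => rw [← Matrix.mul_one (N * rho n g), ← hη, ← Matrix.mul_assoc, trace_mul_comm,
        Matrix.mul_assoc N, h3, ← Matrix.mul_assoc, hN, Matrix.neg_mul, Matrix.mul_assoc,
        ← Matrix.mul_assoc η, hη, Matrix.one_mul, trace_neg]
    linear_combination this / 2
  refine ⟨key _ h1, fun y hy => ⟨key _ ?_, key _ ?_⟩⟩
  · rw [← Matrix.mul_assoc, h1, Matrix.neg_mul, Matrix.mul_assoc, h2 y hy, Matrix.mul_assoc]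
  · rw [← Matrix.mul_assoc, h2 y hy, Matrix.mul_assoc, h1, Matrix.mul_neg, Matrix.mul_assoc]

theorem Theta.sq_eq {g h : Pin n} (e : pr n h = pr n g) : Th h ^ 2 = Th g ^ 2 := by
  rcases (pr_eq_one (g := h * g⁻¹)).1 (by rw [map_mul, map_inv, e, mul_inv_cancel]) with e | e
  · rw [mul_inv_eq_one.1 e]
  · rw [mul_inv_eq_iff_eq_mul.1 e, Th_zz_mul, neg_sq]

theorem Theta.fp : ∀ (l : List (Fin n)), l.Nodup → l ≠ [] → ∀ {g h : Pin n}, (∀ x ∈ l, pr n g x = x) →
    pr n h = l.formPerm * pr n g → Th h ^ 2 * 2 ^ (l.length - 1) = if Odd l.length then Th g ^ 2 else 0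
  | [], _, h0, _, _, _, _ => absurd rfl h0
  | [x], _, _, g, h, _, hh => by
    rw [Theta.sq_eq (g := g) (h := h) (by simpa using hh)]
    simp
  | [x, y], hl, _, g, h, hg, hh => by
    obtain ⟨t, t1, t2⟩ := exists_tt (i := x) (j := y) (by simpa using hl)
    have : Th (t * g) = 0 := by
      rw [Th, map_mul, t2, Matrix.smul_mul, Matrix.sub_mul, trace_smul, trace_sub,
        (trace_cM_mul (hg x (by simp))).1, (trace_cM_mul (hg y (by simp))).1]
      simp
    rw [Theta.sq_eq (g := t * g) (h := h) (by rw [hh, map_mul, t1, List.formPerm_pair]), this,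
      if_neg (by simp only [List.length_cons, List.length_nil]; decide)]
    simp
  | x :: y :: u :: l, hl, _, g, h, hg, hh => by
    obtain ⟨k, hk⟩ := pr_surj ((u :: l).formPerm * pr n g)
    obtain ⟨a1, hl1⟩ := List.nodup_cons.1 hl
    obtain ⟨a2, hl2⟩ := List.nodup_cons.1 hl1
    have ih := Theta.fp (u :: l) hl2 (List.cons_ne_nil _ _) (fun z hz => hg z (by simp only [List.mem_cons] at hz ⊢; tauto)) hk
    have xy : x ≠ y := fun e => a1 (by simp [e])
    have xu : x ≠ u := fun e => a1 (by simp [e])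
    have yu : y ≠ u := fun e => a2 (by simp [e])
    have kx : pr n k x = x := by
      rw [hk, Perm.mul_apply, hg x (by simp), List.formPerm_apply_of_notMem fun e => a1 (List.mem_cons_of_mem _ e)]
    have ky : pr n k y = y := by
      rw [hk, Perm.mul_apply, hg y (by simp), List.formPerm_apply_of_notMem a2]
    obtain ⟨t, t1, t2⟩ := exists_tt xy
    obtain ⟨s, s1, s2⟩ := exists_tt yu
    have r2 : ((Real.sqrt 2 : ℝ) : ℂ)⁻¹ * ((Real.sqrt 2 : ℝ) : ℂ)⁻¹ = 2⁻¹ := by
      rw [← mul_inv, ← Complex.ofReal_mul, Real.mul_self_sqrt zero_le_two]; simp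
    have : Th (t * s * k) = -(2⁻¹ * Th k) := by
      rw [Th, map_mul, map_mul, t2, s2, Matrix.smul_mul, Matrix.mul_smul, smul_smul, r2, Matrix.smul_mul,
        Matrix.sub_mul, Matrix.mul_sub, Matrix.mul_sub, cM_sq, trace_smul]
      simp only [Matrix.sub_mul, trace_sub, ((trace_cM_mul kx).2 y xy.symm).1, ((trace_cM_mul kx).2 u xu.symm).1,
        ((trace_cM_mul ky).2 u yu.symm).1, Matrix.one_mul, Th, smul_eq_mul]
      ring
    rw [Theta.sq_eq (g := t * s * k) (h := h) (by
      rw [hh, map_mul, map_mul, t1, s1, hk, List.formPerm_cons_cons, List.formPerm_cons_cons]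
      simp only [mul_assoc]), this]
    have e : Odd (x :: y :: u :: l).length ↔ Odd (u :: l).length := by
      simp only [List.length_cons, Nat.odd_iff]; omega
    rw [if_congr e rfl rfl, ← ih]
    simp only [List.length_cons, Nat.add_sub_cancel]
    ring

/-- Adding a cycle. Induct on `l` by two steps for all `h`: two lifts of a permutation differ by `zz`
(`pr_eq_one`), so `Th h ^ 2` depends only on `pr h`. `formPerm [x] = 1`;
`formPerm [x, y] = swap x y`: `Th (t * g) = 0` by `trace_cM_mul`; for `l = x :: y :: u :: l'`,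
`formPerm l = swap x y * swap y u * formPerm (u :: l')` (`List.formPerm_cons_cons`), with a lift `h'`
of `formPerm (u :: l') * pr g` (it fixes `x` and `y`),
`(c_x - c_y)(c_y - c_u) / 2 = (c_x c_y - c_x c_u - 1 + c_y c_u) / 2` gives `Th (t t' h') = -Th h' / 2`. -/
theorem Th_formPerm {l : List (Fin n)} (hl : l.Nodup) (h0 : l ≠ []) {g h : Pin n}
    (hg : ∀ x ∈ l, pr n g x = x) (hh : pr n h = l.formPerm * pr n g) :
    Th h ^ 2 * 2 ^ (l.length - 1) = if Odd l.length then Th g ^ 2 else 0 := by
  exact Theta.fp l hl h0 hg hh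

open scoped Classical in
/-- `Perm.cycle_induction_on`/induction on `cycleType` for all lifts: prove
`Th g ^ 2 * 2 ^ (σ.cycleType.sum - card σ.cycleType) = if ∀ k ∈ σ.cycleType, Odd k then 4 ^ n else 0`
for `σ = pr g` (a cycle `c` is `formPerm (c.toList x)`; `Disjoint.cycleType_mul`), then
`Perm.parts_partition`: `card (parts σ) = card cycleType + (n - #support)`, `sum_cycleType`. -/
theorem Th_sq (g : Pin n) : Th g ^ 2 =
    if ∀ k ∈ parts (pr n g), Odd k then 2 ^ (n + Multiset.card (parts (pr n g))) else 0 := by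
  exact Theta2.sq Th_one Th_zz_mul (fun hl h0 _ _ hg hh => Th_formPerm hl h0 hg hh) g

/-- `Th g ^ 2` is a nonnegative real number. -/
theorem Th_conj (g : Pin n) : conj (Th g) = Th g := by
  exact Theta2.conj_eq (Th_sq g)

end CL.SP
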