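import Mathlib
import Cfsg.Agent.BLK.SP.Col
import Cfsg.Agent.BLK.SP.Ops
import Cfsg.Agent.BLK.SP.Orb
import Cfsg.Agent.BLK.SP.Theta

/-!
# Divisibility of the unnormalised spin characters
-/

set_option autoImplicit false

open Finset Equiv Cfsg CL.Sym

namespace CL.SP

variable {n : ℕ}

/-- the coefficient of a colouring -/
noncomputable def EsD.cf {m : ℕ} (l : Fin m → ℤ) (f : Fin n → Fin m) : ℂ :=
  ((ket (List.ofFn fun j => l j - cont f j) ∅ : ℚ) : ℂ)

theorem EsD.cf_comp {m : ℕ} (l : Fin m → ℤ) (σ : Perm (Fin n)) (f : Fin n → Fin m) :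
    EsD.cf l (f ∘ σ) = EsD.cf l f := by
  simp only [EsD.cf, cont_comp]

theorem EsD.es {S : Finset ℕ} {m : ℕ} {l : Fin m → ℤ} (hl : ket (List.ofFn l) = bv S) (g : Pin n) :
    Es S g = Th g * ∑ f : Fin n → Fin m with f ∘ pr n g = f, EsD.cf l f := by
  by_cases h : ∀ k ∈ parts (pr n g), Odd k
  · have := X_col l (pr n g) h
    rw [Es, X, ← hl, this]
    simp only [EsD.cf, Rat.cast_sum]
  · have := Th_sq g
    rw [if_neg h] at this
    rw [Es, pow_eq_zero_iff two_ne_zero |>.1 this, zero_mul, zero_mul]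

theorem EsD.loc {m : ℕ} {l : Fin m → ℤ} (hl : ∀ j, 0 < l j) (f : Fin n → Fin m) (e : ℕ) :
    ∃ z : ℤ, EsD.cf l f * 2 ^ ((#(univ.image f) + n + e) / 2) = 2 ^ ((n + m + e) / 2) * z := by
  obtain ⟨z, hz⟩ := col_dvd hl f
  have hr : #(univ.image f) ≤ m := by simpa using card_le_univ (univ.image f)
  obtain ⟨k, hk⟩ : ∃ k, m - #(univ.image f) + (#(univ.image f) + n + e) / 2 = (n + m + e) / 2 + k :=
    Nat.exists_eq_add_of_le (by omega)
  refine ⟨2 ^ k * z, ?_⟩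
  rw [EsD.cf, hz]
  push_cast
  rw [mul_right_comm, ← pow_add, hk, pow_add, mul_assoc]

/-- Take `l` from `exists_tuple` and `c f = (ket (ofFn fun j => l j - cont f j) ∅ : ℂ)` (`cont_comp`).
`Es S g = Th g * ∑ f with f ∘ pr g = f, c f`: by `X_col` if all parts are odd, else `Th g = 0`
(`Th_sq`). Apply `inner_col` (`Th_class`); on `Y`: `col_dvd` and `ops_pin` (with `j = Y.subtype`),
`(n + #S) / 2 ≤ (#S - r) + (r + n) / 2` for `r = #(univ.image f) ≤ #S`. -/
theorem Es_inner_pin [Fintype (Pin n)] {S : Finset ℕ} (h0 : 0 ∉ S) (ψ : IrrCharacter (Pin n)) :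
    ∃ z : ℤ, classInner (Es S) ψ.1 = 2 ^ ((n + #S) / 2) * z := by
  obtain ⟨l, hl, hk⟩ := exists_tuple h0
  rw [show Es S = fun g : Pin n => Th g * ∑ f : Fin n → Fin #S with f ∘ pr n g = f, EsD.cf l f from
    funext (EsD.es hk)]
  refine inner_col (pr n) Th Th_class (EsD.cf l) (EsD.cf_comp l) _ (fun f Y hY => ?_) ψ
  obtain ⟨θ, hθ, h⟩ := ops_pin f Y.subtype fun y => hY y y.2
  obtain ⟨z, hz⟩ := EsD.loc hl f 0
  refine ⟨θ, z, hθ, fun y => ?_⟩
  rw [show Th (y : Pin n) = _ from h y, ← mul_assoc]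
  exact congrArg (· * θ y) hz

/-- The same in `Spin n`, with `π = (pr n).comp (Spin n).subtype` and `ops_spin`. -/
theorem Es_inner_spin [Fintype (Spin n)] {S : Finset ℕ} (h0 : 0 ∉ S) (χ : IrrCharacter (Spin n)) :
    ∃ z : ℤ, classInner (fun h : Spin n => Es S h.1) χ.1 = 2 ^ ((n + #S + 1) / 2) * z := by
  obtain ⟨l, hl, hk⟩ := exists_tuple h0
  rw [show (fun h : Spin n => Es S h.1) = fun g : Spin n => Th g.1 *
      ∑ f : Fin n → Fin #S with f ∘ ((pr n).comp (Spin n).subtype) g = f, EsD.cf l f from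
    funext fun g => EsD.es hk g.1]
  refine inner_col ((pr n).comp (Spin n).subtype) (fun g => Th g.1) ?_ (EsD.cf l) (EsD.cf_comp l) _
    (fun f Y hY => ?_) χ
  · intro g h
    exact Th_class g.1 h.1
  obtain ⟨θ, hθ, h⟩ := ops_spin f ((Spin n).subtype.comp Y.subtype) (fun y => hY y y.2)
    fun y => Equiv.Perm.mem_alternatingGroup.1 y.1.2
  obtain ⟨z, hz⟩ := EsD.loc hl f 1
  refine ⟨θ, z, hθ, fun y => ?_⟩
  rw [show Th ((y : Spin n) : Pin n) = _ from h y, ← mul_assoc]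
  exact congrArg (· * θ y) hz

end CL.SP
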