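import Mathlib
import Cfsg.Agent.BLK.SP.Bessel
import Cfsg.Agent.BLK.SP.Theta

/-!
# Norms and completeness of the unnormalised spin characters
-/

set_option autoImplicit false

open Finset Equiv Cfsg CL.Sym

namespace CL.SP

variable {n : ℕ}

theorem EsN.parts_one : parts (1 : Perm (Fin n)) = Multiset.replicate n 1 := by
  simp [parts, Perm.parts_partition]

theorem EsN.eq_one {σ : Perm (Fin n)} (h : parts σ = Multiset.replicate n 1) : σ = 1 :=
  isConj_one_left.1 (isConj_iff_parts.2 (h.trans EsN.parts_one.symm))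

theorem EsN.even {σ : Perm (Fin n)} (h : ∀ k ∈ parts σ, Odd k) : σ ∈ alternatingGroup (Fin n) := by
  rw [Perm.mem_alternatingGroup, Perm.sign_of_cycleType']
  refine Multiset.prod_eq_one fun x hx => ?_
  obtain ⟨k, hk, rfl⟩ := Multiset.mem_map.1 hx
  have : Odd k := h k (by rw [parts, Perm.parts_partition]; exact Multiset.mem_add.2 (Or.inl hk))
  rw [this.neg_one_pow, neg_neg]

theorem EsN.odd {g : Pin n} (h : Th g ≠ 0) : ∀ k ∈ parts (pr n g), Odd k := by
  by_contra hc
  have := Th_sq g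
  rw [if_neg hc] at this
  exact h (pow_eq_zero_iff two_ne_zero |>.1 this)

/-- every fibre of `pr` has two elements -/
theorem EsN.sum_pr [Fintype (Pin n)] (F : Perm (Fin n) → ℂ) :
    ∑ g : Pin n, F (pr n g) = 2 * ∑ σ, F σ := by
  classical
  rw [← Finset.sum_fiberwise (s := univ) (g := pr n), Finset.mul_sum]
  refine Finset.sum_congr rfl fun σ _ => ?_
  rw [Finset.sum_congr rfl (g := fun _ => F σ) fun g hg => by rw [(mem_filter.1 hg).2], sum_const]
  obtain ⟨g, rfl⟩ := pr_surj σ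
  have : ({x | pr n x = pr n g} : Finset (Pin n)) = {g, zz n * g} := by
    ext x
    simp only [mem_filter, mem_univ, true_and, mem_insert, mem_singleton]
    rw [← mul_inv_eq_one, ← map_inv, ← map_mul, pr_eq_one, mul_inv_eq_one, mul_inv_eq_iff_eq_mul]
  rw [this, card_pair (fun e => zz_ne_one (n := n) (by simpa using e.symm))]
  simp

theorem EsN.sum_norm [Fintype (Pin n)] {S : Finset ℕ} (hS : S ∈ strict n) :
    ∃ r : ℚ, r ≤ 2 * n.factorial * 2 ^ (n + #S) ∧
      ∑ g : Pin n, Es S g * (starRingEnd ℂ) (Es S g) = r := by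
  classical
  refine ⟨2 * (2 ^ n * ∑ σ : Perm (Fin n) with (∀ j ∈ parts σ, Odd j),
    (2 : ℚ) ^ Multiset.card (parts σ) * X S (parts σ) ^ 2), ?_, ?_⟩
  · have := bessel_perm hS
    calc _ ≤ 2 * (2 ^ n * ((n.factorial : ℚ) * 2 ^ #S)) := by gcongr
      _ = _ := by ring
  · have h1 : ∀ g : Pin n, Es S g * (starRingEnd ℂ) (Es S g) =
        (fun σ : Perm (Fin n) => (if ∀ k ∈ parts σ, Odd k then
          (2 : ℂ) ^ (n + Multiset.card (parts σ)) else 0) * (X S (parts σ) : ℂ) ^ 2) (pr n g) := by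
      intro g
      have := Th_conj g
      simp only [Es, map_mul, map_ratCast]
      rw [← Th_sq, this]; ring
    rw [Finset.sum_congr rfl fun g _ => h1 g]
    refine (EsN.sum_pr fun σ : Perm (Fin n) => (if ∀ k ∈ parts σ, Odd k then
      (2 : ℂ) ^ (n + Multiset.card (parts σ)) else 0) * (X S (parts σ) : ℂ) ^ 2).trans ?_
    rw [Finset.sum_filter]
    push_cast
    rw [Finset.mul_sum (a := (2 : ℂ) ^ n)]
    congr 1
    refine Finset.sum_congr rfl fun σ _ => ?_
    split_ifs
    · push_cast; ring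
    · simp

theorem EsN.fin {N m : ℕ} (hN : 0 < N) {r : ℚ} (h : r ≤ N * 2 ^ m) :
    ((N : ℂ)⁻¹ * r).re ≤ 2 ^ m := by
  have : ((N : ℂ)⁻¹ * r) = (((N : ℝ)⁻¹ * r : ℝ) : ℂ) := by push_cast; rfl
  rw [this, Complex.ofReal_re, inv_mul_le_iff₀ (by positivity)]
  exact_mod_cast h

/-- `Th_class`, `isConj_iff_parts`. -/
theorem Es_class (S : Finset ℕ) : IsClassFunction (Pin n) (Es S) := by
  intro g h
  have : parts (pr n (h * g * h⁻¹)) = parts (pr n g) := by
    rw [map_mul, map_mul, map_inv]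
    exact (isConj_iff_parts.1 (isConj_iff.2 ⟨_, rfl⟩)).symm
  rw [Es, Es, Th_class g h, this]

/-- An odd permutation has an even part (`Perm.sign_of_cycleType`), so `Th g = 0` by `Th_sq`. -/
theorem Es_eq_zero (S : Finset ℕ) {g : Pin n} (hg : g ∉ Spin n) : Es S g = 0 := by
  have : Th g = 0 := by
    by_contra h
    exact hg (EsN.even (EsN.odd h))
  rw [Es, this, zero_mul]

theorem odd_of_Es_ne_zero {S : Finset ℕ} {g : Pin n} (h : Es S g ≠ 0) :
    (∀ k ∈ parts (pr n g), Odd k) ∧ X S (parts (pr n g)) ≠ 0 :=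
  ⟨EsN.odd (left_ne_zero_of_mul h), fun e => h (by rw [Es, e, Rat.cast_zero, mul_zero])⟩

theorem Es_one (S : Finset ℕ) :
    Es S (1 : Pin n) = 2 ^ n * (X S (Multiset.replicate n 1) : ℂ) := by
  rw [Es, Th_one, map_one, EsN.parts_one]

/-- `Es S g * conj (Es S g) = Th g ^ 2 * X ^ 2 = F (pr g)` (`Th_conj`, `Th_sq`); every fibre of `pr` has
two elements (`pr_surj`, `card_ker_pr`), `card_pin`, `bessel_perm`. -/
theorem Es_norm_pin [Fintype (Pin n)] {S : Finset ℕ} (hS : S ∈ strict n) :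
    (classInner (Es S : Pin n → ℂ) (Es S)).re ≤ 2 ^ (n + #S) := by
  obtain ⟨r, h1, h2⟩ := EsN.sum_norm hS
  rw [classInner, h2, card_pin]
  exact EsN.fin (by positivity) (by exact_mod_cast h1)

/-- The sum over `Spin n` is the sum over `Pin n` (`Es_eq_zero`); `card_spin`, `card_pin`. -/
theorem Es_norm_spin [Fintype (Spin n)] (hn : 2 ≤ n) {S : Finset ℕ} (hS : S ∈ strict n) :
    (classInner (fun h : Spin n => Es S h.1) (fun h : Spin n => Es S h.1)).re ≤ 2 ^ (n + #S + 1) := by
  classical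
  have := Fintype.ofFinite (Pin n)
  obtain ⟨r, h1, h2⟩ := EsN.sum_norm hS
  have h3 : ∑ g : Spin n, Es S g.1 * (starRingEnd ℂ) (Es S g.1) = r := by
    rw [← h2, ← Finset.sum_subtype (s := univ.filter (· ∈ Spin n)) (p := (· ∈ Spin n)) (by simp)
      (fun g => Es S g * (starRingEnd ℂ) (Es S g)), Finset.sum_filter]
    refine Finset.sum_congr rfl fun g _ => ?_
    split_ifs with hg
    · rfl
    · rw [Es_eq_zero S hg, zero_mul]
  rw [classInner, h3, card_spin hn]
  exact EsN.fin (by positivity) (h1.trans_eq (by ring))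

/-- Otherwise sum the vanishing inner products with weights `2⁻¹ ^ #S * X S (replicate n 1)`. By
`orth_col` (or `Th h = 0`), only `h` with `parts (pr h) = replicate n 1`, that is `pr h = 1`, `h = 1` or
`h = z` (`pr_eq_one`), contribute: `0 = c * (2 ^ n * conj (χ 1) - 2 ^ n * conj (χ z))` with `c ≠ 0`. -/
theorem exists_Es_inner [Fintype (Spin n)] (χ : Spin n → ℂ) {z : Spin n} (hz : z.1 = zz n)
    (h : χ z ≠ χ 1) : ∃ S ∈ strict n, classInner (fun h : Spin n => Es S h.1) χ ≠ 0 := by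
  classical
  by_contra hc
  push Not at hc
  have o1 : ∀ j ∈ Multiset.replicate n 1, Odd j := fun j hj => by
    rw [Multiset.eq_of_mem_replicate hj]; exact odd_one
  have hN : (Nat.card (Spin n) : ℂ)⁻¹ ≠ 0 := inv_ne_zero (Nat.cast_ne_zero.2 Nat.card_pos.ne')
  have h0 : ∀ S ∈ strict n, ∑ g : Spin n, Es S g.1 * (starRingEnd ℂ) (χ g) = 0 := fun S hS =>
    (mul_eq_zero.1 (hc S hS)).resolve_left hN
  set c : ℚ := (zc (Multiset.replicate n 1) : ℚ) / 2 ^ Multiset.card (Multiset.replicate n 1) with hcdef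
  have c0 : c ≠ 0 := by
    have := Bessel.zc_pos o1
    positivity
  have z1 : z ≠ 1 := fun e => zz_ne_one (n := n) (by rw [← hz, e]; rfl)
  have key : ∀ g : Spin n, ∑ S ∈ strict n, (((2 : ℚ)⁻¹ ^ #S * X S (Multiset.replicate n 1) : ℚ) : ℂ) *
      (Es S g.1 * (starRingEnd ℂ) (χ g)) =
      if g ∈ ({1, z} : Finset (Spin n)) then (c : ℂ) * Th g.1 * (starRingEnd ℂ) (χ g) else 0 := by
    intro g
    have e1 : (g ∈ ({1, z} : Finset (Spin n))) ↔ Multiset.replicate n 1 = parts (pr n g.1) := by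
      rw [mem_insert, mem_singleton, Subtype.ext_iff (a1 := g), Subtype.ext_iff (a1 := g), hz,
        OneMemClass.coe_one, ← pr_eq_one]
      exact ⟨fun e => by rw [e, EsN.parts_one], fun e => EsN.eq_one e.symm⟩
    by_cases hT : Th g.1 = 0
    · simp [Es, hT]
    · have := orth_col (n := n) o1 (EsN.odd hT) (by simp)
      calc _ = ((∑ S ∈ strict n, (2 : ℚ)⁻¹ ^ #S * X S (Multiset.replicate n 1) *
            X S (parts (pr n g.1)) : ℚ) : ℂ) * (Th g.1 * (starRingEnd ℂ) (χ g)) := by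
            rw [Rat.cast_sum, Finset.sum_mul]
            refine Finset.sum_congr rfl fun S _ => ?_
            rw [Es]; push_cast; ring
        _ = _ := by
            rw [this]
            by_cases hg : g ∈ ({1, z} : Finset (Spin n))
            · rw [if_pos hg, if_pos (e1.1 hg), mul_assoc]
            · rw [if_neg hg, if_neg fun e => hg (e1.2 e), Rat.cast_zero, zero_mul]
  have tot : ∑ g : Spin n, (if g ∈ ({1, z} : Finset (Spin n)) then
      (c : ℂ) * Th g.1 * (starRingEnd ℂ) (χ g) else 0) = 0 := by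
    rw [← Finset.sum_congr rfl fun g _ => key g, Finset.sum_comm]
    exact Finset.sum_eq_zero fun S hS => by rw [← Finset.mul_sum, h0 S hS, mul_zero]
  rw [Finset.sum_ite_mem, univ_inter, sum_pair z1.symm, hz, OneMemClass.coe_one,
    ← mul_one (zz n), Th_zz_mul, Th_one] at tot
  have h2 : (c : ℂ) * 2 ^ n * ((starRingEnd ℂ) (χ 1) - (starRingEnd ℂ) (χ z)) = 0 := by
    rw [← tot]; ring
  rcases mul_eq_zero.1 h2 with e | e
  · exact mul_ne_zero (Rat.cast_ne_zero.2 c0) (pow_ne_zero _ two_ne_zero) e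
  · exact h ((starRingEnd ℂ).injective (sub_eq_zero.1 e)).symm

end CL.SP
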