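import Mathlib
import Cfsg.Agent.BLK.SP.BDefs
import Cfsg.Agent.BLK.SymHeight
import Cfsg.Agent.S4710
import Cfsg.Agent.S4696

/-!
# From the defect bound to the height inequality
-/

set_option autoImplicit false

open Equiv Subgroup Cfsg CL.Blk

namespace CL.SP

namespace FinX

theorem card_center {D D' : Type*} [Group D] [Group D'] (e : D ≃* D') :
    Nat.card (center D') = Nat.card (center D) :=
  (Nat.card_congr (Subgroup.centerCongr e).toEquiv).symm

theorem comm {D D' : Type*} [Group D] [Group D'] (e : D ≃* D') (h : IsMulCommutative D) :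
    IsMulCommutative D' :=
  ⟨⟨fun a b => e.symm.injective (by rw [map_mul, map_mul, h.is_comm.comm])⟩⟩

theorem comm_iff {D : Type*} [Group D] : IsMulCommutative D ↔ center D = ⊤ :=
  ⟨fun h => eq_top_iff.2 fun a _ => mem_center_iff.2 fun b => h.is_comm.comm b a,
    fun h => ⟨⟨fun a b => mem_center_iff.1 (h.ge (mem_top b)) a⟩⟩⟩

end FinX

/-- `e` maps the centre onto the centre; `IsMulCommutative` transfers. -/
theorem DB.congr {p a d : ℕ} {D D' : Type*} [Group D] [Group D'] (h : DB p a d D) (e : D ≃* D') :
    DB p a d D' := by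
  refine ⟨?_, fun hc => ?_⟩
  · rw [FinX.card_center e]; exact h.1
  · rw [FinX.card_center e]; exact h.2 fun h' => hc (FinX.comm e h')

theorem Small.congr {p : ℕ} {D D' : Type*} [Group D] [Group D'] (h : Small p D) (e : D ≃* D') :
    Small p D' := by
  rcases h with h | h | h
  · exact Or.inl (Nat.card_congr e.toEquiv ▸ h)
  · exact Or.inr (Or.inl (isCyclic_of_surjective e e.surjective))
  · exact Or.inr (Or.inr ⟨fun h' => h.1 (FinX.comm e.symm h'), (FinX.card_center e).trans h.2⟩)

theorem Good.congr {p a d : ℕ} {D D' : Type*} [Group D] [Group D'] (h : Good p a d D)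
    (e : D ≃* D') : Good p a d D' :=
  h.imp (fun h => h.congr e) fun h => h.congr e

theorem DB.mono {p a a' d : ℕ} {D : Type*} [Group D] (h : DB p a d D) (ha : a' ≤ a) :
    DB p a' d D :=
  ⟨by have := h.1; omega, fun hc => by have := h.2 hc; omega⟩

/-- Cyclic defect groups: height zero. -/
theorem height_of_cyclic {G : Type*} [Group G] [Finite G] {p : ℕ} {M : Ideal AlgInt}
    (hM : IsPModular p M) {B : Set (IrrCharacter G)} (hB : IsPBlock M B) {D : Subgroup G}
    (hD : IsDefectGroup p M B D) (hc : IsCyclic D) {χ : IrrCharacter G} (hχ : χ ∈ B) :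
    blockHeight p B χ.1 = 0 := by
  classical
  have := Fact.mk hM.1
  have := Fintype.ofFinite G
  by_cases h0 : D = ⊥
  · have h1 := hD.card_eq_pow hM hB
    rw [h0, card_bot] at h1
    have h2 : blockDefect p B = 0 := (Nat.pow_eq_one.1 h1.symm).resolve_left hM.1.one_lt.ne'
    exact ((Cfsg.Agent.S4710.result p M hM B hB _ rfl).2 χ hχ).1 (by omega)
  obtain ⟨b, hr⟩ := CL.Cyc.exists_relPair_of_def hM hB hD
  obtain ⟨Z, hZ, hZc⟩ := CL.Cyc.exists_le_card_eq hM.1 hr.pair.pgroup h0
  obtain ⟨c, hc⟩ := CL.Cyc.exists_setup_of_le hM hB hr hD hc hZ hZc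
  obtain ⟨θ₀, h⟩ := hc.exists_loc'
  obtain ⟨X, ψ, δ, ε, s⟩ := h.exists_str
  exact s.height_eq_zero h hχ

/-- The height inequality from either bound. -/
theorem goal_of_good {G : Type*} [Group G] [Finite G] {p : ℕ} {M : Ideal AlgInt}
    (hM : IsPModular p M) {B : Set (IrrCharacter G)} (hB : IsPBlock M B) {D : Subgroup G}
    (hD : IsDefectGroup p M B D) {χ : IrrCharacter G} (hχ : χ ∈ B)
    (h : Good p ((charDegree χ.1).factorization p) ((Nat.card G).factorization p) D) :
    blockHeight p B χ.1 ≤ ((center D).index).factorization p ∧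
      (blockHeight p B χ.1 = ((center D).index).factorization p ↔ IsMulCommutative D) := by
  classical
  have := Fact.mk hM.1
  have hp := hM.1
  have hc := hD.card_eq_pow hM hB
  have hF := (Cfsg.Agent.S4710.result p M hM B hB _ rfl).2 χ hχ
  have hz : (Nat.card (center D)).factorization p + ((center D).index).factorization p =
      blockDefect p B := by
    have e := card_mul_index (center D)
    rw [hc] at e
    have e2 := congrArg (fun n : ℕ => n.factorization p) e
    simp only [Nat.factorization_mul Nat.card_pos.ne' (index_ne_zero_of_finite (H := center D)),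
      Finsupp.add_apply, hp.factorization_pow, Finsupp.single_eq_same] at e2
    exact e2
  have hi : IsMulCommutative D ↔ ((center D).index).factorization p = 0 := by
    rw [FinX.comm_iff, ← index_eq_one]
    refine ⟨fun h => by simp [h], fun h => ?_⟩
    obtain ⟨k, -, hk⟩ := (Nat.dvd_prime_pow hp).1 (hc ▸ index_dvd_card (center D))
    rw [hk, hp.factorization_pow, Finsupp.single_eq_same] at h
    rw [hk, h, pow_zero]
  have h1 : sInf ((fun ψ : IrrCharacter G => (charDegree (ψ : G → ℂ)).factorization p) '' B) ≤
      (charDegree χ.1).factorization p := Nat.sInf_le ⟨χ, hχ, rfl⟩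
  have h2 := factorization_charDegree_le p χ
  have h3 : blockHeight p B χ.1 + (Nat.card G).factorization p =
      (charDegree χ.1).factorization p + blockDefect p B := by
    unfold blockHeight blockDefect
    omega
  have zero : IsMulCommutative D → blockHeight p B χ.1 = 0 →
      blockHeight p B χ.1 ≤ ((center D).index).factorization p ∧
      (blockHeight p B χ.1 = ((center D).index).factorization p ↔ IsMulCommutative D) :=
    fun a b => ⟨by omega, fun _ => a, fun _ => by rw [b, hi.1 a]⟩
  rcases h with h | h | h | h
  · have a1 := h.1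
    by_cases hD' : IsMulCommutative D
    · have := hi.1 hD'
      exact zero hD' (by omega)
    · have := h.2 hD'
      exact ⟨by omega, fun _ => by omega, fun a => absurd a hD'⟩
  · rw [hc] at h
    have hd : blockDefect p B ≤ 2 := (Nat.pow_dvd_pow_iff_le_right hp.one_lt).1 h
    refine zero (CL.Sym.isMulCommutative_of_card_le hp hd hc) ?_
    by_cases h4 : blockDefect p B ≤ 1
    · exact hF.1 h4
    · have := hF.2 (by omega)
      omega
  · exact zero inferInstance (height_of_cyclic hM hB hD h hχ)
  · have hd : 3 ≤ blockDefect p B := by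
      by_contra h4
      exact h.1 (CL.Sym.isMulCommutative_of_card_le hp (by omega) hc)
    have := hF.2 (by omega)
    rw [h.2, hp.factorization_self] at hz
    exact ⟨by omega, fun _ => by omega, fun a => absurd a h.1⟩

end CL.SP
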