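import Mathlib

/-!
# The centre of a `p`-group of permutations
-/

set_option autoImplicit false
set_option linter.unusedSectionVars false

open Finset Equiv Subgroup

namespace CL.SP

variable {I : Type*} [Fintype I] [DecidableEq I] {p : ℕ} {D : Type*} [Group D] [Finite D]

theorem LemZ.pk (hp : p.Prime) {k : ℕ} (hk : 1 ≤ k) : p * k ≤ p ^ k := by
  obtain ⟨m, rfl⟩ := Nat.exists_eq_add_of_le' hk
  rw [pow_succ']
  exact Nat.mul_le_mul_left _ (Nat.lt_pow_self hp.one_lt)

theorem LemZ.step (hp : p.Prime) (hD : IsPGroup p D) (π : D →* Perm I) (Z : Subgroup D)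
    (hZ : Z ≤ center D) (x : I) : ∃ (O : Finset I) (Z' : Subgroup D) (j k : ℕ),
      (∀ y, y ∈ O ↔ ∃ d, π d x = y) ∧ #O = p ^ k ∧
      Nat.card (Set.range fun d => π d x) = p ^ k ∧ Z' ≤ Z ∧ (∀ z ∈ Z', ∀ y ∈ O, π z y = y) ∧
      (Nat.card Z).factorization p = j + (Nat.card Z').factorization p ∧ j ≤ k ∧
      (j = k → ∀ y ∈ O, ∃ z ∈ Z, π z x = y) := by
  classical
  have := Fact.mk hp
  let _ : MulAction D I := MulAction.compHom I π
  obtain ⟨k, hk⟩ := hD.card_orbit x
  obtain ⟨j, hj⟩ := (hD.to_subgroup Z).card_orbit x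
  have hk' : (MulAction.orbit D x).ncard = p ^ k := hk
  have hj' : (MulAction.orbit Z x).ncard = p ^ j := hj
  have sub : MulAction.orbit Z x ⊆ MulAction.orbit D x := by
    rintro _ ⟨z, rfl⟩
    exact ⟨z, rfl⟩
  have h1 := (MulAction.stabilizer Z x).index_mul_card
  rw [MulAction.index_stabilizer, hj', ← card_map_of_injective Z.subtype_injective] at h1
  refine ⟨(MulAction.orbit D x).toFinset, (MulAction.stabilizer Z x).map Z.subtype, j, k,
    fun y => Set.mem_toFinset, by rw [← Set.ncard_eq_toFinset_card', hk'], hk, map_subtype_le _,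
    ?_, ?_, ?_, fun e y hy => ?_⟩
  · rintro _ ⟨z, hz, rfl⟩ y hy
    obtain ⟨d, rfl⟩ := Set.mem_toFinset.1 hy
    have h2 : π z x = x := hz
    change π z (π d x) = π d x
    rw [← Perm.mul_apply, ← map_mul, ← mem_center_iff.1 (hZ z.2) d, map_mul, Perm.mul_apply, h2]
  · rw [← h1, Nat.factorization_mul (pow_ne_zero _ hp.ne_zero) Nat.card_pos.ne',
      hp.factorization_pow]
    simp
  · have := Set.ncard_le_ncard sub (Set.toFinite _)
    rw [hj', hk'] at this
    exact (Nat.pow_le_pow_iff_right hp.one_lt).1 this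
  · have h2 := Set.eq_of_subset_of_ncard_le sub (by rw [hj', hk', e]) (Set.toFinite _)
    have h3 := Set.mem_toFinset.1 hy
    rw [← h2] at h3
    obtain ⟨z, rfl⟩ := h3
    exact ⟨z, z.2, rfl⟩

theorem LemZ.inv (π : D →* Perm I) {T O : Finset I} {x : I} (hT : ∀ d, ∀ x ∈ T, π d x ∈ T)
    (hO : ∀ y, y ∈ O ↔ ∃ d, π d x = y) (d : D) (y : I) (hy : y ∈ T \ O) : π d y ∈ T \ O := by
  rw [mem_sdiff] at hy ⊢
  refine ⟨hT d y hy.1, fun h => hy.2 ?_⟩
  obtain ⟨e, he⟩ := (hO _).1 h
  exact (hO _).2 ⟨d⁻¹ * e, by rw [map_mul, Perm.mul_apply, he, map_inv]; simp⟩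

theorem LemZ.inv0 (π : D →* Perm I) {T : Finset I} (hs : ∀ d x, x ∉ T → π d x = x) (d : D) (x : I)
    (hx : x ∈ T) : π d x ∈ T := by
  by_contra h
  have := (π d).injective (hs d _ h)
  exact h (this.symm ▸ hx)

/-- Strong induction on `#T` for all `Z`. If `Z = ⊥` there is nothing to prove. Else some `z ∈ Z` moves
some `x ∈ T`; let `O` be the `D`-orbit of `x`, `#O = p ^ k`, `k ≥ 1`, `O ⊆ T`. The stabilizer `Z'` of `x`
in `Z` fixes `O` pointwise (central elements), `|Z : Z'| = #(Z-orbit of x) = p ^ j`, `j ≤ k`, and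
`p * k ≤ p ^ k`; apply the induction hypothesis to `Z'` and `T \ O`. -/
theorem center_le_aux (hp : p.Prime) (hD : IsPGroup p D) (π : D →* Perm I)
    (hπ : Function.Injective π) (T : Finset I) (hT : ∀ d, ∀ x ∈ T, π d x ∈ T) (Z : Subgroup D)
    (hZ : Z ≤ center D) (hs : ∀ z ∈ Z, ∀ x, x ∉ T → π z x = x) :
    p * (Nat.card Z).factorization p ≤ #T := by
  induction h : #T using Nat.strong_induction_on generalizing T Z with
  | _ n ih =>
  subst h
  rcases Z.bot_or_exists_ne_one with rfl | ⟨z, hz, h1⟩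
  · simp
  obtain ⟨x, hx⟩ : ∃ x, π z x ≠ x := by
    by_contra! h2
    exact h1 (hπ (by rw [map_one]; exact Equiv.ext h2))
  have xT : x ∈ T := by_contra fun h => hx (hs z hz x h)
  obtain ⟨O, Z', j, k, hO, c, -, le, fx, e, jk, -⟩ := LemZ.step hp hD π Z hZ x
  have OT : O ⊆ T := fun y hy => by
    obtain ⟨d, rfl⟩ := (hO y).1 hy
    exact hT d x xT
  have k1 : 1 ≤ k := Nat.one_le_iff_ne_zero.2 fun h0 => by
    rw [h0, pow_zero] at c
    exact hx (card_le_one.1 c.le _ ((hO _).2 ⟨z, rfl⟩) _ ((hO _).2 ⟨1, by simp⟩))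
  have c2 := card_sdiff_add_card_eq_card OT
  have c3 := LemZ.pk hp k1
  have c4 : 0 < p ^ k := pow_pos hp.pos k
  have := ih _ (by omega) (T \ O) (LemZ.inv π hT hO) Z' (le.trans hZ) (fun w hw y hy => by
    by_cases h2 : y ∈ T
    · exact fx w hw y (by_contra fun h3 => hy (mem_sdiff.2 ⟨h2, h3⟩))
    · exact hs w (le hw) y h2) rfl
  have c5 := Nat.mul_le_mul_left p jk
  rw [e, mul_add]
  omega

/-- One step as in `center_le_aux` at the orbit `O` of `x` (`#O = p ^ k`), where the orbit of the centre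
is a proper subset (if the centre is transitive on `O`: `a x = z x`, `b x = z' x`, so
`a b x = z' z x = b a x`), hence has at most `p ^ (k - 1)` points; then `center_le_aux` for the
stabilizer of `x` in the centre and `T \ O`. -/
theorem center_lt_aux (hp : p.Prime) (hD : IsPGroup p D) (π : D →* Perm I)
    (hπ : Function.Injective π) (T : Finset I) (hs : ∀ d x, x ∉ T → π d x = x) {a b : D} {x : I}
    (hx : π a (π b x) ≠ π b (π a x)) : ∃ k, 1 ≤ k ∧ Nat.card (Set.range fun d => π d x) = p ^ k ∧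
      p * (Nat.card (center D)).factorization p + p ^ k ≤ #T + p * (k - 1) := by
  have hT := LemZ.inv0 π hs
  have xT : x ∈ T := by_contra fun h => hx (by rw [hs b x h, hs a x h, hs b x h])
  obtain ⟨O, Z', j, k, hO, c, c', le, fx, e, jk, tr⟩ := LemZ.step hp hD π (center D) le_rfl x
  have OT : O ⊆ T := fun y hy => by
    obtain ⟨d, rfl⟩ := (hO y).1 hy
    exact hT d x xT
  have ne : j ≠ k := fun h => by
    obtain ⟨z, hz, e1⟩ := tr h _ ((hO _).2 ⟨a, rfl⟩)
    obtain ⟨w, hw, e2⟩ := tr h _ ((hO _).2 ⟨b, rfl⟩)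
    have cm : ∀ {u : D}, u ∈ center D → ∀ (d : D) (y : I), π d (π u y) = π u (π d y) :=
      fun hu d y => by
        rw [← Perm.mul_apply, ← map_mul, mem_center_iff.1 hu d, map_mul, Perm.mul_apply]
    apply hx
    rw [← e2, cm hw, ← e1, cm hz b, ← e2, cm hz]
  have c2 := card_sdiff_add_card_eq_card OT
  have := center_le_aux hp hD π hπ (T \ O) (LemZ.inv π hT hO) Z' le fun w hw y hy => by
    by_cases h2 : y ∈ T
    · exact fx w hw y (by_contra fun h3 => hy (mem_sdiff.2 ⟨h2, h3⟩))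
    · exact hs w y h2
  have c5 := Nat.mul_le_mul_left p (show j ≤ k - 1 by omega)
  refine ⟨k, by omega, c', ?_⟩
  rw [e, mul_add]
  omega

/-- `T` is invariant because its complement is fixed pointwise; `center_le_aux`. -/
theorem center_le (hp : p.Prime) (hD : IsPGroup p D) (π : D →* Perm I)
    (hπ : Function.Injective π) (T : Finset I) (hs : ∀ d x, x ∉ T → π d x = x) :
    p * (Nat.card (center D)).factorization p ≤ #T := by
  exact center_le_aux hp hD π hπ T (LemZ.inv0 π hs) _ le_rfl fun z _ => hs z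

/-- `center_lt_aux` and `p * k ≤ p ^ k`. -/
theorem center_lt (hp : p.Prime) (hD : IsPGroup p D) (π : D →* Perm I)
    (hπ : Function.Injective π) (T : Finset I) (hs : ∀ d x, x ∉ T → π d x = x)
    (hc : ¬ IsMulCommutative D) : p * ((Nat.card (center D)).factorization p + 1) ≤ #T := by
  obtain ⟨a, b, x, hx⟩ : ∃ a b x, π a (π b x) ≠ π b (π a x) := by
    by_contra! h
    exact hc ⟨⟨fun a b => hπ (by rw [map_mul, map_mul]; exact Equiv.ext (h a b))⟩⟩
  obtain ⟨k, k1, -, h⟩ := center_lt_aux hp hD π hπ T hs hx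
  have c3 := LemZ.pk hp k1
  obtain ⟨m, rfl⟩ := Nat.exists_eq_add_of_le' k1
  rw [Nat.add_sub_cancel] at h
  rw [mul_add] at c3 ⊢
  omega

end CL.SP
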