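import Mathlib
import Cfsg.Agent.BLK.SP.FDefs

/-!
# The bar weight
-/

set_option autoImplicit false

open Finset

namespace CL.SP

namespace Np

/-- the symmetric weight of a pair of parts -/
def hh (m a b : ℕ) : ℤ := (if m ∣ a + b then 1 else 0) - (if a % m = b % m then 1 else 0)

theorem hh_symm (m a b : ℕ) : hh m a b = hh m b a := by
  simp only [hh, add_comm a b, eq_comm (a := a % m)]

theorem Nm_eq (m : ℕ) (S : Finset ℕ) :
    Nm m S = ∑ a ∈ S, ((a / m : ℕ) + ∑ b ∈ S, if b < a then hh m a b else 0 : ℤ) := by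
  refine sum_congr rfl fun a _ => ?_
  rw [add_sub_assoc, card_filter, card_filter]
  push_cast
  rw [← sum_sub_distrib]
  congr 1
  refine sum_congr rfl fun b _ => ?_
  by_cases h : b < a
  · have e : m ∣ a - b ↔ a % m = b % m := by
      rw [← Nat.modEq_iff_dvd' h.le]
      exact eq_comm
    simp only [h, true_and, if_true, hh, e]
  · simp [h]

theorem ins {m a : ℕ} {S : Finset ℕ} (ha : a ∉ S) :
    Nm m (insert a S) = Nm m S + (a / m : ℕ) + ∑ b ∈ S, hh m a b := by
  have e : ∑ b ∈ S, hh m a b =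
      ∑ b ∈ S, (if b < a then hh m a b else 0) + ∑ b ∈ S, (if a < b then hh m b a else 0) := by
    rw [← sum_add_distrib]
    refine sum_congr rfl fun b hb => ?_
    rcases lt_trichotomy a b with h | h | h
    · rw [if_neg h.not_gt, if_pos h, zero_add, hh_symm]
    · exact absurd (h ▸ hb) ha
    · rw [if_pos h, if_neg h.not_gt, add_zero]
  rw [Nm_eq, Nm_eq, sum_insert ha, e]
  simp only [sum_insert ha, lt_irrefl, if_false, sum_add_distrib]
  ring

theorem dvd_iff {m a b : ℕ} (h : m ∣ a + b) (c : ℕ) : m ∣ a + c ↔ b % m = c % m := by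
  have h0 := (Nat.modEq_zero_iff_dvd).2 h
  constructor
  · intro h1
    exact Nat.ModEq.add_left_cancel' a (h0.trans ((Nat.modEq_zero_iff_dvd).2 h1).symm)
  · intro h1
    exact (Nat.modEq_zero_iff_dvd).1 ((Nat.ModEq.add_left a h1).symm.trans h0)

theorem hh_add {m a b : ℕ} (h : m ∣ a + b) (c : ℕ) : hh m a c + hh m b c = 0 := by
  simp only [hh, dvd_iff h c, dvd_iff (add_comm a b ▸ h) c]
  ring

theorem div_add {m a b : ℕ} (hm : Odd m) (h : m ∣ a + b) :
    (((a + b) / m : ℕ) : ℤ) = (a / m : ℕ) + (b / m : ℕ) + hh m a b := by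
  have h0 := hm.pos
  have h1 := Nat.mod_lt a h0
  have h2 := Nat.mod_lt b h0
  have h3 : m ∣ a % m + b % m := by
    rw [Nat.dvd_iff_mod_eq_zero, ← Nat.add_mod]
    exact Nat.mod_eq_zero_of_dvd h
  obtain ⟨j, hj⟩ := h3
  obtain ⟨t, ht⟩ := hm
  have hj2 : j < 2 := by
    by_contra hc
    have : m * 2 ≤ m * j := Nat.mul_le_mul_left m (by omega)
    omega
  rw [Nat.add_div h0, hh, if_pos h]
  push_cast
  interval_cases j
  · rw [if_neg (by omega), if_pos (by omega)]
    ring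
  · rw [if_pos (by omega), if_neg (by omega)]
    ring

end Np

/-- Termwise: `b ↦ (a - b) / m` injects `{b ∈ S | b < a ∧ m ∣ a - b}` into `Icc 1 (a / m)`. -/
theorem Nm_nonneg {m : ℕ} (hm : 0 < m) (S : Finset ℕ) : 0 ≤ Nm m S := by
  refine sum_nonneg fun a _ => ?_
  have : #{b ∈ S | b < a ∧ m ∣ a - b} ≤ a / m := by
    have e : #(Icc 1 (a / m)) = a / m := by simp
    rw [← e]
    refine card_le_card_of_injOn (fun b => (a - b) / m) (fun b hb => ?_) fun b hb c hc e => ?_
    · obtain ⟨-, h1, h2⟩ := mem_filter.1 (mem_coe.1 hb)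
      exact mem_coe.2 (mem_Icc.2 ⟨Nat.div_pos (Nat.le_of_dvd (by omega) h2) hm,
        Nat.div_le_div_right (Nat.sub_le _ _)⟩)
    · obtain ⟨-, h1, h2⟩ := mem_filter.1 (mem_coe.1 hb)
      obtain ⟨-, h3, h4⟩ := mem_filter.1 (mem_coe.1 hc)
      have e1 := Nat.div_mul_cancel h2
      have e2 := Nat.div_mul_cancel h4
      simp only at e
      rw [e] at e1
      omega
  omega

/-- With the symmetric `h a b = [m ∣ a + b] - [a ≡ b mod m]`. -/
theorem Nm_insert {m a : ℕ} {S : Finset ℕ} (ha : a ∉ S) : Nm m (insert a S) = Nm m S + (a / m : ℕ) +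
    ∑ b ∈ S, ((if m ∣ a + b then 1 else 0) - (if a % m = b % m then 1 else 0) : ℤ) := by
  exact Np.ins ha

/-- By `Nm_insert`. (A) `a ↦ a - k` keeps residues and lowers `a / m` by `k / m`. (B) `m ∣ k`: `h k b = 0`.
(C) `a + b = k`: `h a c + h b c = 0` for all `c` (`b ≡ -a`), `h a b = 1 - [m ∣ a]` (`m` odd:
`a ≡ b ↔ m ∣ 2a ↔ m ∣ a`), `a / m + b / m = k / m - 1 + [m ∣ a]`. -/
theorem Nm_bar {m k : ℕ} (hm : Odd m) (hk : m ∣ k) {S T : Finset ℕ} (h : Bar k S T) :
    Nm m S = Nm m T + (k / m : ℕ) := by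
  rcases h with ⟨a, ha, h1, h2, rfl⟩ | ⟨h1, rfl⟩ | ⟨a, ha, b, hb, ne, rfl, rfl⟩
  · obtain ⟨j, rfl⟩ := hk
    obtain ⟨c, rfl⟩ : ∃ c, a = c + m * j := ⟨a - m * j, by omega⟩
    rw [Nat.add_sub_cancel] at h2 ⊢
    conv_lhs => rw [← insert_erase ha]
    rw [Np.ins (notMem_erase _ _), Np.ins fun h => h2 (mem_of_mem_erase h),
      Nat.add_mul_div_left _ _ hm.pos, Nat.mul_div_cancel_left _ hm.pos]
    have : ∀ b, Np.hh m (c + m * j) b = Np.hh m c b := fun b => by
      simp only [Np.hh, Nat.add_mul_mod_self_left, add_right_comm c,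
        Nat.dvd_add_left (dvd_mul_right m j)]
    simp only [this]
    push_cast
    ring
  · conv_lhs => rw [← insert_erase h1]
    rw [Np.ins (notMem_erase _ _), sum_eq_zero, add_zero]
    intro b _
    simp only [Np.hh, Np.dvd_iff (show m ∣ k + k from dvd_add hk hk) b, sub_self]
  · have hb' : b ∈ S.erase a := mem_erase.2 ⟨ne.symm, hb⟩
    conv_lhs => rw [← insert_erase ha]
    rw [Np.ins (notMem_erase _ _)]
    conv_lhs => rw [← insert_erase hb']
    rw [Np.ins (notMem_erase _ _), sum_insert (notMem_erase _ _), Np.div_add hm hk]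
    have : ∑ c ∈ (S.erase a).erase b, Np.hh m a c + ∑ c ∈ (S.erase a).erase b, Np.hh m b c = 0 := by
      rw [← sum_add_distrib]
      exact sum_eq_zero fun c _ => Np.hh_add hk c
    linarith

end CL.SP
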