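import Mathlib
import Cfsg.Agent.BLK.SP.BDefs
import Cfsg.Agent.BLK.SP.LemZ
import Cfsg.Agent.BLK.SP.CxA
import Cfsg.Agent.BLK.CoverAb
import Cfsg.Agent.BLK.SymAlt
import Cfsg.Agent.TECH.SylIn

/-!
# Odd primes: from the valuation bound to the defect bound
-/

set_option autoImplicit false

open Finset Equiv Subgroup Cfsg CL.Blk CL.Sym

namespace CL.SP

variable {G : Type*} [Group G] [Finite G] {n p : ℕ} {M : Ideal AlgInt}

/-- `P` is Sylow in `C_G(y)`, `D` its image in `G`. Let `R' ≥ D.map π` be a `p`-group commuting with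
`π y`; `R' ≤ A_n ≤ range π` (`sign_eq_one_of_odd`). Take a Sylow `p`-subgroup `S` of `R'.comap π`
containing `D`. For `h ∈ S`, `z = ⁅h, y⁆ ∈ ker π` is central, `⁅h ^ m, y⁆ = z ^ m`, so `z` has order
dividing `p ^ k` and `|ker π|`: `z = 1`, `S ≤ C_G(y)`, `S = D` by maximality. `S` maps onto a Sylow
subgroup of `R'` (`Sylow.mapSurjective`), that is onto `R'`. -/
theorem max_of_sylow (hp : p.Prime) (hp2 : p ≠ 2) (π : G →* Perm (Fin n))
    (hA : alternatingGroup (Fin n) ≤ π.range) (hz : π.ker ≤ center G)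
    (hk : ¬ p ∣ Nat.card π.ker) (y : G) (P : Sylow p (centralizer ({y} : Set G)))
    (R' : Subgroup (Perm (Fin n))) (hR : IsPGroup p R') (hc : ∀ r ∈ R', Commute r (π y))
    (hle : (P.1.map (centralizer ({y} : Set G)).subtype).map π ≤ R') :
    R' ≤ (P.1.map (centralizer ({y} : Set G)).subtype).map π := by
  have := Fact.mk hp
  have hD := CL.MSS.sylIn_map_subtype P
  generalize P.1.map (centralizer ({y} : Set G)).subtype = D at hD hle ⊢
  have hr : R' ≤ π.range := fun r hr => by
    obtain ⟨k, e⟩ := CL.MSS.isPGroup_iff_forall_mem.1 hR r hr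
    exact hA (Perm.mem_alternatingGroup.2 (sign_eq_one_of_odd ((hp.odd_of_ne_two hp2).pow) e))
  obtain ⟨S, hS, DS⟩ := CL.MSS.exists_sylIn_ge hD.pgroup (map_le_iff_le_comap.1 hle)
  have SC : S ≤ centralizer ({y} : Set G) := fun h hh => by
    obtain ⟨k, e⟩ := CL.MSS.isPGroup_iff_forall_mem.1 hS.pgroup h hh
    have zk : y⁻¹ * (h * y * h⁻¹) ∈ π.ker := by
      rw [MonoidHom.mem_ker, map_mul, map_mul, map_mul, (hc _ (hS.le hh)).eq, map_inv, map_inv]; group
    generalize hz' : y⁻¹ * (h * y * h⁻¹) = z at zk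
    have zc := mem_center_iff.1 (hz zk)
    have e1 : h * y * h⁻¹ = y * z := by rw [← hz']; group
    have e2 : ∀ m : ℕ, h ^ m * y * (h ^ m)⁻¹ = y * z ^ m := fun m => by
      induction m with
      | zero => simp
      | succ m ih =>
        calc _ = h * (h ^ m * y * (h ^ m)⁻¹) * h⁻¹ := by rw [pow_succ']; simp only [mul_inv_rev, mul_assoc]
          _ = h * y * h⁻¹ * (h * z ^ m * h⁻¹) := by rw [ih]; group
          _ = _ := by
            rw [e1, ((show Commute h z from zc h).pow_right m).eq, mul_inv_cancel_right, pow_succ', mul_assoc]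
    have e3 : z ^ p ^ k = 1 := by simpa [e] using (e2 (p ^ k)).symm
    have e4 : orderOf z = 1 := Nat.eq_one_of_dvd_coprimes
      (Nat.Coprime.pow_left k ((Nat.Prime.coprime_iff_not_dvd hp).2 hk)) (orderOf_dvd_of_pow_eq_one e3)
      (Subgroup.orderOf_dvd_natCard _ zk)
    rw [orderOf_eq_one_iff.1 e4, mul_one] at e1
    exact mem_centralizer_singleton_iff.2 (mul_inv_eq_iff_eq_mul.1 e1)
  obtain rfl := hD.max S hS.pgroup DS SC
  have := (hS.map π).eq_of_isPGroup (by rwa [map_comap_eq_self hr])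
  rw [this, map_comap_eq_self hr]

/-- `π` is injective on the `p`-group `D` (`D ⊓ ker π = ⊥`). `exists_central_support` for `D.map π`
(`max_of_sylow`, `hD` unfolds to a Sylow subgroup of a centralizer) gives `x ∈ D` central in `D`,
`x ^ p = 1`, `T = (π x).support` containing all supports. `exists_apply_ne_zero_of_center` gives `s`
with `ψ (x * s) ≠ 0`; `card_support_le` (`orderOf (π s) ∣ orderOf s`); `center_le`, `center_lt` for
`π.comp D.subtype` and `T`; apply `hv` with `w = v |Z(D)|` and `w = v |Z(D)| + 1`. -/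
theorem db_of_vb (hM : IsPModular p M) (hp2 : p ≠ 2) (π : G →* Perm (Fin n))
    (hA : alternatingGroup (Fin n) ≤ π.range) (hz : π.ker ≤ center G)
    (hk : ¬ p ∣ Nat.card π.ker) {B : Set (IrrCharacter G)} (hB : IsPBlock M B) {D : Subgroup G}
    (hD : IsDefectGroup p M B D) {ψ : IrrCharacter G} (hψ : ψ ∈ B) (hv : VB p π ψ.1) :
    DB p ((charDegree ψ.1).factorization p) (n.factorial.factorization p) D := by
  have hp := hM.1
  have := Fact.mk hp
  obtain ⟨y, -, P, e⟩ := id hD
  have hS := CL.MSS.sylIn_map_subtype P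
  have mx := max_of_sylow hp hp2 π hA hz hk y P
  rw [← e] at hS mx
  have inj : Function.Injective (π.comp D.subtype) := (injective_iff_map_eq_one _).2 fun d hd => by
    have := CL.MSS.eq_bot_of_isPGroup_of_not_dvd (hS.pgroup.to_inf_left (K := π.ker)) inf_le_right hk
    exact Subtype.ext (mem_bot.1 (this.le ⟨d.2, hd⟩))
  obtain ⟨_, ⟨x, hx, rfl⟩, x1, x2, x3⟩ := exists_central_support hp (π y) (hS.pgroup.map π) (by
    rintro _ ⟨d, hd, rfl⟩
    exact (show Commute d y from mem_centralizer_singleton_iff.1 (hS.le hd)).map π) mx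
  obtain ⟨s, s1, s2, s3⟩ := exists_apply_ne_zero_of_center hM hB hD hx (fun d hd => congrArg Subtype.val
    (inj (a₁ := ⟨d, hd⟩ * ⟨x, hx⟩) (a₂ := ⟨x, hx⟩ * ⟨d, hd⟩) (by
      rw [map_mul, map_mul]; exact (x2 _ ⟨d, hd, rfl⟩).eq.symm))) hψ
  have c := card_support_le hp x1 (fun k => s1 (k.trans (orderOf_map_dvd π s)))
    ((show Commute x s from s2.symm).map π)
  rw [← map_mul] at c
  have hs : ∀ (d : D) i, i ∉ (π x).support → π.comp D.subtype d i = i := fun d i hi =>
    Perm.notMem_support.1 fun k => hi (x3 _ ⟨d, d.2, rfl⟩ k)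
  exact ⟨hv _ s3 _ ((center_le hp hS.pgroup _ inj _ hs).trans c),
    fun k => hv _ s3 (_ + 1) ((center_lt hp hS.pgroup _ inj _ hs k).trans c)⟩

end CL.SP
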