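import Mathlib
import Cfsg.Agent.BLK.SP.OddCore
import Cfsg.Agent.BLK.SP.Fin
import Cfsg.Agent.BLK.Ito

/-!
# Odd primes: passing to a covering block
-/

set_option autoImplicit false

open Finset Equiv Subgroup Cfsg CL.Blk CL.Sym

namespace CL.SP

variable {G : Type*} [Group G] [Finite G] {n p : ℕ} {M : Ideal AlgInt}

/-- `N` is normal (`hN`). `B = blockOf M ψ` covers `b` (`covF_eB_iff`); as in the first lines of
`CL.Sym.exists_equiv_alt`, `SDef.exists_inf_eq` gives a defect group `E` of `B` with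
`E ⊓ N = D.map N.subtype`; `E ≤ N` (`sign_eq_one_of_odd`). `db_of_vb` for `E`, `DB.congr` along
`E = D.map N.subtype ≃* D`, `DB.mono` with `charDegree_dvd_of_under`. -/
theorem db_of_over (hM : IsPModular p M) (hp2 : p ≠ 2) (π : G →* Perm (Fin n))
    (hA : alternatingGroup (Fin n) ≤ π.range) (hz : π.ker ≤ center G)
    (hk : ¬ p ∣ Nat.card π.ker) {N : Subgroup G} [Fintype N]
    (hN : ∀ g, g ∈ N ↔ Perm.sign (π g) = 1) {b : Set (IrrCharacter N)} (hb : IsPBlock M b)
    {D : Subgroup N} (hD : IsDefectGroup p M b D) {χ : IrrCharacter N} (hχ : χ ∈ b)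
    {ψ : IrrCharacter G} (hψ : classInner (fun h : N => ψ.1 h) χ.1 ≠ 0) (hv : VB p π ψ.1) :
    DB p ((charDegree χ.1).factorization p) (n.factorial.factorization p) D := by
  have hNn : N.Normal := ⟨fun a ha g => (hN _).2 (by
    rw [map_mul, map_mul, map_mul, map_mul, (hN a).1 ha, mul_one, ← map_mul, ← map_mul,
      mul_inv_cancel, map_one, map_one])⟩
  have hB := isPBlock_blockOf (M := M) ψ
  have hψB := mem_blockOf_self hM ψ
  obtain ⟨E, hE, h⟩ := SDef.exists_inf_eq hM.1 (natCast_F hM) (isSB_top_eB hM hB) (isSB_sb hM hb)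
    le_top (normalizer_eq_top _).ge ((covF_eB_iff hM hB hb).2 ⟨ψ, hψB, χ, hχ, hψ⟩)
    ((isDefectGroup_iff_sDef hM hb).1 hD)
  have hEN : E ≤ N := fun x hx => by
    obtain ⟨k, hk⟩ := hE.pgroup ⟨x, hx⟩
    refine (hN x).2 (sign_eq_one_of_odd ((hM.1.odd_of_ne_two hp2).pow (n := k)) ?_)
    rw [← map_pow, show x ^ p ^ k = 1 from congrArg Subtype.val hk, map_one]
  rw [inf_of_le_left hEN] at h
  refine ((db_of_vb hM hp2 π hA hz hk hB ((isDefectGroup_iff_sDef_top hM hB).2 hE) hψB hv).congr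
    ((MulEquiv.subgroupCongr h).trans (equivMapOfInjective _ _ (subtype_injective _)).symm)).mono ?_
  exact (Nat.factorization_le_iff_dvd (charDegree_ne_zero χ) (charDegree_ne_zero ψ)).2
    (charDegree_dvd_of_under ψ.2 χ.2 hψ) p

end CL.SP
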