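import Mathlib
import Cfsg.Agent.BLK.SP.LemZ
import Cfsg.Agent.BLK.SymAlt

/-!
# The centre of a Sylow 2-subgroup of an alternating group
-/

set_option autoImplicit false

open Finset Equiv Subgroup CL.Sym

namespace CL.SP

namespace S2A

abbrev K := DihedralGroup 4

theorem pg : IsPGroup 2 K := IsPGroup.of_card (n := 3) (by rw [DihedralGroup.nat_card]; rfl)

def a6 : Perm (Fin 6) := swap 0 3 * swap 0 2 * swap 0 1 * swap 4 5

def b6 : Perm (Fin 6) := swap 0 2 * swap 4 5

def f6 : K →* Perm (Fin 6) := MonoidHom.mk' (fun g => match g with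
  | .r i => a6 ^ i.val
  | .sr i => b6 * a6 ^ i.val) (by decide +kernel)

theorem emb {A Ω : Type*} [Fintype A] [DecidableEq A] [Fintype Ω] [DecidableEq Ω] (e : A ↪ Ω)
    (f : K →* Perm A) (hf : ∀ k, Perm.sign (f k) = 1) :
    IsPGroup 2 ((Perm.viaEmbeddingHom e).comp f).range ∧
      ((Perm.viaEmbeddingHom e).comp f).range ≤ alternatingGroup Ω := by
  refine ⟨pg.of_surjective _ (MonoidHom.rangeRestrict_surjective _), ?_⟩
  rintro _ ⟨k, rfl⟩
  exact (sign_viaEmbedding e _).trans (hf k)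

theorem conj {Ω : Type*} [Fintype Ω] [DecidableEq Ω] (Q : Sylow 2 (Perm Ω)) {R : Subgroup (Perm Ω)}
    (h1 : IsPGroup 2 R) (h2 : R ≤ alternatingGroup Ω) :
    ∃ g : Perm Ω, ∀ r ∈ R, g * r * g⁻¹ ∈ Q.1 ⊓ alternatingGroup Ω := by
  obtain ⟨Q', hQ⟩ := h1.exists_le_sylow
  obtain ⟨g, rfl⟩ := MulAction.exists_smul_eq (Perm Ω) Q' Q
  exact ⟨g, fun r hr => ⟨⟨r, hQ hr, rfl⟩, (alternatingGroup.normal).conj_mem r (h2 hr) g⟩⟩

end S2A

/-- The centre is nontrivial, proper, and `D ⧸ Z(D)` is not cyclic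
(`commutative_of_cyclic_center_quotient`/`isMulCommutative_of_isCyclic_quotient_center`). -/
theorem card_center_of_cube {p : ℕ} (hp : p.Prime) {D : Type*} [Group D] (h : Nat.card D = p ^ 3)
    (hc : ¬ IsMulCommutative D) : Nat.card (center D) = p := by
  have := Fact.mk hp
  have : Finite D := Nat.finite_of_card_ne_zero (h ▸ pow_ne_zero _ hp.ne_zero)
  obtain ⟨k, k0, hk⟩ := IsPGroup.card_center_eq_prime_pow h (by norm_num)
  have h1 := card_eq_card_quotient_mul_card_subgroup (center D)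
  rw [h, hk] at h1
  have k3 : k ≤ 3 := (Nat.pow_dvd_pow_iff_le_right hp.one_lt).1 (Dvd.intro_left _ h1.symm)
  by_contra hne
  have k2 : 2 ≤ k := by
    by_contra hlt
    obtain rfl : k = 1 := by omega
    exact hne (by rw [hk, pow_one])
  have h2 : Nat.card (D ⧸ center D) ∣ p := by
    have h3 : Nat.card (D ⧸ center D) * p ^ 2 ∣ p * p ^ 2 := by
      rw [← pow_succ', h1]
      exact Nat.mul_dvd_mul_left _ (pow_dvd_pow p k2)
    exact Nat.dvd_of_mul_dvd_mul_right (pow_pos hp.pos 2) h3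
  have := isCyclic_of_card_dvd_prime h2
  exact hc (isMulCommutative_of_isCyclic_quotient_center_self D)

/-- A dihedral group of order 8 in `A_6`: in `Perm (Fin 6)` take `a = (0 1 2 3)(4 5)`, `b = (0 2)(4 5)`
(an explicit subgroup with the eight elements `a ^ i * b ^ j`, `decide`), and map it by
`Perm.viaEmbeddingHom e` (`sign_viaEmbedding`, `Perm.viaEmbeddingHom_injective`). -/
theorem exists_noncomm_two {Ω : Type*} [Fintype Ω] [DecidableEq Ω] (h : 6 ≤ Fintype.card Ω) :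
    ∃ R : Subgroup (Perm Ω), IsPGroup 2 R ∧ R ≤ alternatingGroup Ω ∧ ¬ IsMulCommutative R := by
  obtain ⟨e⟩ : Nonempty (Fin 6 ↪ Ω) := Function.Embedding.nonempty_of_card_le (by simpa using h)
  obtain ⟨h1, h2⟩ := S2A.emb e S2A.f6 (by decide +kernel)
  refine ⟨_, h1, h2, fun hc => ?_⟩
  have h3 := congrArg Subtype.val (hc.is_comm.comm ⟨_, .r 1, rfl⟩ ⟨_, .sr 0, rfl⟩)
  simp only [Subgroup.coe_mul, ← map_mul, MonoidHom.comp_apply] at h3
  exact absurd (Perm.viaEmbeddingHom_injective e h3) (by decide +kernel)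

/-- The regular representation of `K = DihedralGroup 4` (`MulAction.toPermHom K K`; all signs are `1`,
`decide`) on eight of the points. -/
theorem exists_orbit_eight {Ω : Type*} [Fintype Ω] [DecidableEq Ω] (h : 8 ≤ Fintype.card Ω) :
    ∃ R : Subgroup (Perm Ω), IsPGroup 2 R ∧ R ≤ alternatingGroup Ω ∧ ∃ a ∈ R, ∃ b ∈ R, ∃ x : Ω,
      a (b x) ≠ b (a x) ∧ 8 ≤ Nat.card (Set.range fun r : R => r.1 x) := by
  obtain ⟨e⟩ : Nonempty (S2A.K ↪ Ω) :=
    Function.Embedding.nonempty_of_card_le (by rwa [DihedralGroup.card])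
  obtain ⟨h1, h2⟩ := S2A.emb e (MulAction.toPermHom S2A.K S2A.K) (by decide +kernel)
  have key : ∀ k x, ((Perm.viaEmbeddingHom e).comp (MulAction.toPermHom S2A.K S2A.K)) k (e x) =
      e (k * x) := fun k x => Perm.viaEmbedding_apply _ e x
  refine ⟨_, h1, h2, _, ⟨.r 1, rfl⟩, _, ⟨.sr 0, rfl⟩, e 1, ?_, ?_⟩
  · rw [key, key, key, key]
    exact fun h3 => absurd (e.injective h3) (by decide)
  · rw [show 8 = Nat.card S2A.K from (DihedralGroup.nat_card (n := 4)).symm]
    refine Nat.card_le_card_of_injective (fun k => ⟨e k, ⟨_, k, rfl⟩, (key k 1).trans (by rw [mul_one])⟩) ?_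
    exact fun a b h3 => e.injective (congrArg Subtype.val h3)

/-- Every 2-subgroup `R ≤ A` has a conjugate inside `Q` (`IsPGroup.exists_le_sylow`, transitivity on
Sylow subgroups), hence inside `P = Q ⊓ A`. `w ≥ 4`: `exists_orbit_eight` and `center_lt_aux` with
`T = univ`: `2 ^ k ≥ 8`, so `k ≥ 3`, `2 ^ k ≥ 2 * k + 2`. `w = 3`: `|Q| = 16`, `|P| = 8`
(`relIndex_sylow_two`, as in `blockDefect_alt_two`), `exists_noncomm_two`, `card_center_of_cube`. -/
theorem center_alt_le {Ω : Type*} [Fintype Ω] [DecidableEq Ω] {w : ℕ}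
    (hΩ : Fintype.card Ω = 2 * w) (hw : 3 ≤ w) (Q : Sylow 2 (Perm Ω)) :
    (Nat.card (center ↥(Q.1 ⊓ alternatingGroup Ω))).factorization 2 + 2 ≤ w := by
  have hP : IsPGroup 2 ↥(Q.1 ⊓ alternatingGroup Ω) := Q.2.to_le inf_le_left
  rcases hw.eq_or_lt with rfl | hw
  · obtain ⟨R, h1, h2, h3⟩ := exists_noncomm_two hΩ.ge
    obtain ⟨g, hg⟩ := S2A.conj Q h1 h2
    have : Nontrivial Ω := Fintype.one_lt_card_iff_nontrivial.1 (by omega)
    have h4 := ((alternatingGroup _).subgroupOf Q.1).card_mul_index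
    rw [← relIndex, relIndex_sylow_two, ← inf_subgroupOf_left,
      Nat.card_congr (subgroupOfEquivOfLe inf_le_left).toEquiv, Q.card_eq_multiplicity, Nat.card_perm,
      Nat.card_eq_fintype_card (α := Ω), hΩ, factorization_mul_factorial Nat.prime_two,
      show (Nat.factorial 3).factorization 2 = 1 by
        rw [show Nat.factorial 3 = 2 * 3 from rfl, Nat.factorization_mul (by norm_num) (by norm_num)]
        simp [Nat.prime_two.factorization, Nat.prime_three.factorization]] at h4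
    rw [card_center_of_cube Nat.prime_two (by omega) fun hc => h3 ⟨⟨fun a b => Subtype.ext ?_⟩⟩,
      Nat.prime_two.factorization_self]
    have h5 := congrArg Subtype.val (hc.is_comm.comm ⟨_, hg a a.2⟩ ⟨_, hg b b.2⟩)
    simp only [Subgroup.coe_mul, conj_mul] at h5
    exact mul_left_cancel (mul_right_cancel h5)
  · obtain ⟨R, h1, h2, a, ha, b, hb, x, h3, h4⟩ := exists_orbit_eight (Ω := Ω) (by omega)
    obtain ⟨g, hg⟩ := S2A.conj Q h1 h2
    obtain ⟨k, -, e, h5⟩ := center_lt_aux Nat.prime_two hP (Subgroup.subtype _) (subtype_injective _)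
      univ (fun _ y h => absurd (mem_univ y) h) (a := ⟨_, hg a ha⟩) (b := ⟨_, hg b hb⟩) (x := g x)
      (by simpa using h3)
    have h6 : 8 ≤ 2 ^ k := by
      rw [← e]
      refine h4.trans (Nat.card_le_card_of_injective (fun y => ⟨g y.1, ?_⟩) fun y z h =>
        Subtype.ext (g.injective (congrArg Subtype.val h)))
      obtain ⟨_, r, rfl⟩ := y
      exact ⟨⟨_, hg r r.2⟩, by simp⟩
    have k3 : 3 ≤ k := (Nat.pow_le_pow_iff_right Nat.one_lt_two).1 (show 2 ^ 3 ≤ 2 ^ k from h6)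
    have h7 : 2 * k + 2 ≤ 2 ^ k := by
      obtain ⟨m, rfl⟩ := Nat.exists_eq_add_of_le k3
      have := Nat.lt_two_pow_self (n := m)
      rw [pow_add]
      omega
    rw [card_univ, hΩ] at h5
    omega

end CL.SP
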