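import Mathlib
import Cfsg.Agent.BLK.SP.Fin
import Cfsg.Agent.BLK.SP.CovZ
import Cfsg.Agent.BLK.SP.Syl2A
import Cfsg.Agent.SOLV.PGroupCyclicSCN

/-!
# The 2-subgroups of the double covers of `A_n`, `n ≤ 7`
-/

set_option autoImplicit false

open Finset Equiv Subgroup CL.Schur CL.AltCover

namespace CL.SP.Small2c

theorem alt_dvd {n : ℕ} (hn : n ≤ 7) : Nat.card (alternatingGroup (Fin n)) ∣ 5040 / 2 := by
  rcases Nat.lt_or_ge n 2 with h | h
  · have hs : Subsingleton (Perm (Fin n)) := by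
      have : Subsingleton (Fin n) := ⟨fun a b => Fin.ext (by omega)⟩
      infer_instance
    have : Nat.card (alternatingGroup (Fin n)) = 1 := Nat.card_unique
    rw [this]; exact one_dvd _
  · have : Nontrivial (Fin n) := Fin.nontrivial_iff_two_le.2 h
    rw [nat_card_alternatingGroup, Nat.card_eq_fintype_card, Fintype.card_fin]
    interval_cases n <;> decide

theorem dvd16 {Γ : Type*} [Group Γ] [Finite Γ] {n : ℕ} (hn : n ≤ 7)
    {σ : Γ →* alternatingGroup (Fin n)} (hσ : IsCentralExt σ) (hk : Nat.card σ.ker = 2)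
    {D : Subgroup Γ} (hD : IsPGroup 2 D) : ∃ k ≤ 4, Nat.card D = 2 ^ k := by
  have : Fact (Nat.Prime 2) := ⟨Nat.prime_two⟩
  obtain ⟨k, hk'⟩ := IsPGroup.iff_card.1 hD
  refine ⟨k, ?_, hk'⟩
  have h1 : Nat.card Γ = 2 * Nat.card (alternatingGroup (Fin n)) := by
    rw [← hk, ← σ.ker.card_mul_index, Subgroup.index_ker, σ.range_eq_top_of_surjective hσ.surj,
      Subgroup.card_top]
  have h2 : Nat.card D ∣ 2 * (5040 / 2) := by
    refine (Subgroup.card_subgroup_dvd_card D).trans ?_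
    rw [h1]
    exact Nat.mul_dvd_mul_left 2 (alt_dvd hn)
  rw [hk'] at h2
  by_contra hc
  have h5 : 2 ^ 5 ∣ 2 ^ k := pow_dvd_pow 2 (by omega)
  have := h5.trans h2
  norm_num at this

theorem cyc {Γ : Type*} [Group Γ] [Finite Γ] {n : ℕ} (hn : n ≤ 7)
    {σ : Γ →* alternatingGroup (Fin n)} (hσ : IsCentralExt σ) (hk : Nat.card σ.ker = 2)
    (hp : Group.IsPerfect Γ) {D : Subgroup Γ} (hD : IsPGroup 2 D) (hc : IsMulCommutative D) :
    IsCyclic D := by
  have : Fact (Nat.Prime 2) := ⟨Nat.prime_two⟩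
  obtain ⟨z, hz, hz1, hzz⟩ := exists_pair_of_card hk
  have hk' := sq_eq_one_of_pair (σ := σ) hz hzz
  have hs : ∀ s : alternatingGroup (Fin n) →* Γ, σ.comp s ≠ MonoidHom.id _ :=
    no_section_of_commutator hσ hz hz1 (by rw [hp.commutator_eq_top]; trivial)
  by_contra hcy
  obtain ⟨E, -, hE, hc4⟩ := CL.PCyc.exists_elemAb_le_of_not_isCyclic (p := 2) hD hcy
  have hle : E ≤ σ.ker := fun e he => map_eq_one_of_sq hn hσ hk' hs (hE.2 e he)
  have := Subgroup.card_le_of_le hle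
  omega

theorem small_cov {Γ : Type*} [Group Γ] [Finite Γ] {n : ℕ} (hn : n ≤ 7)
    {σ : Γ →* alternatingGroup (Fin n)} (hσ : IsCentralExt σ) (hk : Nat.card σ.ker = 2)
    (hp : Group.IsPerfect Γ) {D : Subgroup Γ} (hD : IsPGroup 2 D) : Small 2 D := by
  by_cases hc : IsMulCommutative D
  · exact Or.inr (Or.inl (cyc hn hσ hk hp hD hc))
  obtain ⟨k, hk4, hD'⟩ := dvd16 hn hσ hk hD
  rcases Nat.lt_or_ge k 3 with h | h
  · exact Or.inl (by rw [hD']; exact pow_dvd_pow 2 (by omega))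
  refine Or.inr (Or.inr ⟨hc, ?_⟩)
  rcases Nat.eq_or_lt_of_le h with h | h
  · exact card_center_of_cube Nat.prime_two (by rw [hD', ← h]) hc
  have h4 : k = 4 := by omega
  rcases center_eq_of_max hσ hk hp univ hD (fun _ _ => subset_univ _) (fun R hR _ => by
      obtain ⟨j, hj, hR'⟩ := dvd16 hn hσ hk hR
      rw [hR', hD', h4]
      exact Nat.pow_le_pow_right (by norm_num) hj) with h' | h'
  · rw [h', hk, h4] at hD'
    norm_num at hD'
  · exact h'.2

end CL.SP.Small2c
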