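import Mathlib
import Cfsg.Agent.BLK.SP.Syl2A
import Cfsg.Agent.BLK.SP.Fin
import Cfsg.Agent.BLK.SymHeight
import Cfsg.Agent.BLK.Ito

/-!
# The 2-blocks of the alternating groups
-/

set_option autoImplicit false

open Finset Equiv Subgroup Cfsg CL.Blk CL.Sym

namespace CL.SP

/-- `exists_cover` with `N = n` gives `lam`; `w = wt 2 lam`; `exists_equiv_alt` with `Ω = Fin (2 * w)`.
`w ≤ 2`: `|D| ∣ 4` (`w = 0`: `Perm Ω` is trivial; else `blockDefect_alt_two`, `card_eq_pow`): `Small`.
`w ≥ 3`: `exists_over_of_covF` gives `irr hm ∈ blk ..` over `χ` (`exists_irr_eq`, `irr_mem_blk`,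
`wt_eq_of_mem`); `charDegree_dvd_of_under`, `factorization_degree`, `factorization_hook` give
`v χ(1) + w ≤ v (n!) = v |A_n| + 1`; `center_alt_le` gives `v |Z(D)| + 2 ≤ w`: `DB`, strictly. -/
theorem good_alt_two {n : ℕ} (hn : 2 ≤ n) {M : Ideal AlgInt} (hM : IsPModular 2 M)
    {b : Set (IrrCharacter (alternatingGroup (Fin n)))} (hb : IsPBlock M b)
    {D : Subgroup (alternatingGroup (Fin n))} (hD : IsDefectGroup 2 M b D)
    {χ : IrrCharacter (alternatingGroup (Fin n))} (hχ : χ ∈ b) :
    Good 2 ((charDegree χ.1).factorization 2)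
      ((Nat.card (alternatingGroup (Fin n))).factorization 2) D := by
  have := Fact.mk hM.1
  have hN : Fintype.card (Fin n) ≤ n := (Fintype.card_fin n).le
  obtain ⟨lam, hl, hcov⟩ := exists_cover hM hN hb
  have hB := isPBlock_blk hM hN hl
  let Q : Sylow 2 (Perm (Fin (2 * wt 2 lam))) := default
  obtain ⟨e⟩ := exists_equiv_alt hM hN hl hb hcov hD (Fintype.card_fin _) Q
  by_cases hw : 3 ≤ wt 2 lam
  · obtain ⟨ψ, hψ, h3⟩ := exists_over_of_covF hM (isBlockUnion_of_block hM hB) hb hcov hχ
    obtain ⟨mu, hm, h4, rfl⟩ := hψ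
    have h5 := wt_eq_of_mem hM.1.pos hl hm h4
    have h6 := charDegree_dvd_of_under (irr hm).2 χ.2 h3
    have h7 : (charDegree χ.1).factorization 2 ≤ (charDegree (irr hm).1).factorization 2 :=
      Nat.factorization_le_factorization_of_dvd_right h6 (charDegree_ne_zero χ)
        (charDegree_ne_zero (irr hm))
    have h8 := factorization_degree (p := 2) hm
    have h9 := factorization_hook hM.1 (mem_idx.1 hm).2.injective
    have : Nontrivial (Fin n) := Fin.nontrivial_iff_two_le.2 hn
    rw [← (alternatingGroup (Fin n)).card_mul_index, Nat.factorization_mul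
      Nat.card_pos.ne' index_ne_zero_of_finite, Finsupp.add_apply, alternatingGroup.index_eq_two,
      Nat.prime_two.factorization_self] at h8
    have h10 := center_alt_le (Fintype.card_fin _) hw Q
    rw [FinX.card_center e] at h10
    exact Or.inl ⟨by omega, fun _ => by omega⟩
  · have h1 : blockDefect 2 b ≤ 2 := by
      by_cases h0 : wt 2 lam = 0
      · have : IsEmpty (Fin (2 * wt 2 lam)) := by rw [h0, mul_zero]; infer_instance
        have := e.toEquiv.subsingleton
        have h1 := hD.card_eq_pow hM hb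
        rw [Nat.card_unique] at h1
        exact (Nat.pow_eq_one.1 h1.symm).elim (by omega) (by omega)
      · have h1 := blockDefect_alt_two hM hN hl h0 hb hcov
        have h2 := Nat.factorization_lt 2 (Nat.factorial_ne_zero (wt 2 lam))
        have h3 := Nat.factorial_le (show wt 2 lam ≤ 2 by omega)
        rw [Nat.factorial_two] at h3
        omega
    exact Or.inr (Or.inl (hD.card_eq_pow hM hb ▸ pow_dvd_pow 2 h1))

end CL.SP
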