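import Mathlib
import Cfsg.Agent.BLK.SP.BDefs
import Cfsg.Agent.BLK.SymDeg
import Cfsg.Agent.CHAR.Quot

/-!
# The valuation bound for the symmetric groups
-/

set_option autoImplicit false

open Finset Equiv Subgroup Cfsg CL.Char CL.Sym

namespace CL.SP

/-- Induct on `μ` for all `lam`. `chiM_cons`: some `i` has `k ≤ lam i` and
`chiM lam' (μ + m) ≠ 0` for `lam' = update lam i (lam i - k)`, which is injective (`chiM_eq_zero`).
`res p lam' = res p lam` (`res_congr`, `update_mod`), so the cores have the same sum
(`exists_core_eq`), and `sum_core_add`, `sum_update_sub` give `p * wt p lam = p * wt p lam' + k`. -/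
theorem sum_le_wt {p N : ℕ} (hp : 0 < p) {μ m : Multiset ℕ} (hμ : ∀ k ∈ μ, p ∣ k)
    {lam : Fin N → ℕ} (h : chiM lam (μ + m) ≠ 0) : μ.sum ≤ p * wt p lam := by
  induction μ using Multiset.induction_on generalizing lam with
  | empty => simp
  | cons k μ ih =>
    have hl : Function.Injective lam := by
      by_contra h0
      exact h (chiM_eq_zero h0 _)
    rw [Multiset.cons_add, chiM_cons] at h
    obtain ⟨i, -, hi⟩ := exists_ne_zero_of_sum_ne_zero h
    have hk : k ≤ lam i := by
      by_contra h0
      exact hi (if_neg h0)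
    rw [if_pos hk] at hi
    have hl' : Function.Injective (Function.update lam i (lam i - k)) := by
      by_contra h0
      exact hi (chiM_eq_zero h0 _)
    have h1 := ih (fun a ha => hμ a (Multiset.mem_cons_of_mem ha)) hi
    obtain ⟨κ, hκ⟩ := exists_core_eq hp hl hl'
      (res_congr fun j => (update_mod (hμ k (Multiset.mem_cons_self _ _)) hk j).symm)
    have h2 := sum_core_add (p := p) hl
    have h3 := sum_core_add (p := p) hl'
    have h4 := sum_update_sub hk
    have h5 : ∑ j, core p (Function.update lam i (lam i - k)) j = ∑ j, core p lam j := by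
      rw [hκ]; exact Equiv.sum_comp κ _
    rw [Multiset.sum_cons]
    omega

/-- `exists_irr_eq` with `N = n`; `Multiset.filter_add_not`; `sum_le_wt` gives `w ≤ wt p lam`;
`factorization_degree`, `factorization_hook`. -/
theorem vb_sym {p n : ℕ} (hp : p.Prime) (χ : IrrCharacter (Perm (Fin n))) :
    VB p (MonoidHom.id (Perm (Fin n))) χ.1 := by
  intro g hg w hw
  obtain ⟨lam, hl, rfl⟩ := exists_irr_eq (N := n) (by simp) χ
  have h1 : chiM lam ((parts g).filter (p ∣ ·) + (parts g).filter (fun a => ¬ p ∣ a)) ≠ 0 := by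
    rw [Multiset.filter_add_not]
    intro h0
    apply hg
    change ((chiM lam (parts g) : ℤ) : ℂ) = 0
    rw [h0, Int.cast_zero]
  have h2 := sum_le_wt hp.pos (fun k hk => (Multiset.mem_filter.1 hk).2) h1
  have h3 : w ≤ wt p lam := Nat.le_of_mul_le_mul_left (hw.trans h2) hp.pos
  have h4 := factorization_degree (p := p) hl
  have h5 := factorization_hook hp (mem_idx.1 hl).2.injective
  rw [Nat.card_perm, Nat.card_eq_fintype_card, Fintype.card_fin] at h4
  omega

/-- `mem_range_irrInfl`, `irrInfl_apply`, `vb_sym` (the degrees agree: both are read off at `1`). -/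
theorem vb_infl {p n : ℕ} (hp : p.Prime) {G : Type*} [Group G] [Finite G]
    {π : G →* Perm (Fin n)} (hπ : Function.Surjective π) (ψ : IrrCharacter G)
    (h : ∀ g, π g = 1 → ψ.1 g = ψ.1 1) : VB p π ψ.1 := by
  obtain ⟨χ, rfl⟩ := (mem_range_irrInfl π hπ ψ).2 h
  intro g hg w hw
  have h1 := vb_sym hp χ (π g) hg w hw
  have h2 : charDegree (irrInfl π hπ χ).1 = charDegree χ.1 := by
    rw [charDegree, charDegree, irrInfl_apply, map_one]
  rwa [h2]

end CL.SP
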