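import Mathlib
import Cfsg.Agent.BLK.SP.Np
import Cfsg.Agent.BLK.SP.Heis
import Cfsg.Agent.BLK.SP.BosB

/-!
# The valuation of the degree and the nonvanishing bound
-/

set_option autoImplicit false

open Finset

namespace CL.SP

theorem Val.fac {p K : ℕ} (hp : p.Prime) (S : Finset ℕ) (f : ℕ → ℕ → ℕ)
    (hf : ∀ a ∈ S, ∀ b ∈ S, b < a → 0 < f a b ∧ f a b ≤ K) :
    (∏ a ∈ S, ∏ b ∈ S with b < a, f a b).factorization p =
      ∑ k ∈ Ico 1 K, ∑ a ∈ S, #{b ∈ S | b < a ∧ p ^ k ∣ f a b} := by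
  have h : ∀ a ∈ S, ∀ b ∈ S.filter (· < a), 0 < f a b ∧ f a b ≤ K := fun a ha b hb =>
    hf a ha b (mem_filter.1 hb).1 (mem_filter.1 hb).2
  rw [Nat.factorization_prod_apply fun a ha => prod_ne_zero_iff.2 fun b hb => (h a ha b hb).1.ne', sum_comm]
  refine sum_congr rfl fun a ha => ?_
  rw [Nat.factorization_prod_apply fun b hb => (h a ha b hb).1.ne']
  simp only [← filter_filter, card_filter (fun b => p ^ _ ∣ f a b)]
  rw [sum_comm]
  refine sum_congr rfl fun b hb => ?_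
  rw [Nat.factorization_eq_card_pow_dvd_of_lt (b := K) hp (h a ha b hb).1
    ((h a ha b hb).2.trans_lt (Nat.lt_pow_self hp.one_lt)), card_filter]

/-- All factors are positive. With `K` large, `v_p (a!) = ∑ k ∈ Ico 1 K, a / p ^ k`
(`Nat.factorization_factorial`/`padicValNat_factorial`) and `v_p x = #{k ∈ Ico 1 K | p ^ k ∣ x}`
(`Nat.factorization_eq_card_pow_dvd`), so `v_p (n!) - v_p (gS S) = ∑ k ∈ Ico 1 K, Nm (p ^ k) S ≥ Nm p S`
by `Nm_nonneg`. It is convenient to clear denominators: `gS S * (∏ a!) * ∏ (a + b) = n! * ∏ (a - b)`. -/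
theorem val_gS {p : ℕ} (hp : p.Prime) {S : Finset ℕ} (h0 : 0 ∉ S) :
    0 < gS S ∧ padicValRat p (gS S) + Nm p S ≤ (S.sum id).factorial.factorization p := by
  have := Fact.mk hp
  have hle : ∀ a ∈ S, a ≤ S.sum id := fun a ha => single_le_sum (f := id) (fun _ _ => Nat.zero_le _) ha
  have hA : 0 < ∏ a ∈ S, a.factorial := prod_pos fun a _ => a.factorial_pos
  have hB : 0 < ∏ a ∈ S, ∏ b ∈ S with b < a, (a + b) :=
    prod_pos fun a _ => prod_pos fun b hb => by have := (mem_filter.1 hb).2; omega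
  have hC : 0 < ∏ a ∈ S, ∏ b ∈ S with b < a, (a - b) :=
    prod_pos fun a _ => prod_pos fun b hb => by have := (mem_filter.1 hb).2; omega
  have e : gS S = ((S.sum id).factorial : ℚ) / (∏ a ∈ S, a.factorial : ℕ) *
      (((∏ a ∈ S, ∏ b ∈ S with b < a, (a - b) : ℕ) : ℚ) / (∏ a ∈ S, ∏ b ∈ S with b < a, (a + b) : ℕ)) := by
    rw [gS]
    simp only [Nat.cast_prod, ← prod_div_distrib]
    refine congrArg _ (prod_congr rfl fun a _ => prod_congr rfl fun b hb => ?_)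
    rw [Nat.cast_sub (mem_filter.1 hb).2.le, Nat.cast_add]
  have hA' : (0 : ℚ) < (∏ a ∈ S, a.factorial : ℕ) := Nat.cast_pos.2 hA
  have hB' : (0 : ℚ) < (∏ a ∈ S, ∏ b ∈ S with b < a, (a + b) : ℕ) := Nat.cast_pos.2 hB
  have hC' : (0 : ℚ) < (∏ a ∈ S, ∏ b ∈ S with b < a, (a - b) : ℕ) := Nat.cast_pos.2 hC
  have hN : (0 : ℚ) < (S.sum id).factorial := Nat.cast_pos.2 (Nat.factorial_pos _)
  refine ⟨e ▸ mul_pos (div_pos hN hA') (div_pos hC' hB'), ?_⟩
  rw [e, padicValRat.mul (div_pos hN hA').ne' (div_pos hC' hB').ne', padicValRat.div hN.ne' hA'.ne',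
    padicValRat.div hC'.ne' hB'.ne']
  simp only [padicValRat.of_nat, ← Nat.factorization_def _ hp]
  set K := 2 * S.sum id + 2 with hK
  have fA : (∏ a ∈ S, a.factorial).factorization p = ∑ k ∈ Ico 1 K, ∑ a ∈ S, a / p ^ k := by
    rw [Nat.factorization_prod_apply fun a _ => a.factorial_ne_zero, sum_comm]
    exact sum_congr rfl fun a ha => Nat.factorization_factorial hp
      ((Nat.log_le_self p a).trans_lt (by have := hle a ha; omega))
  rw [fA, Val.fac (K := K) hp S (· + ·) fun a ha b hb h => by have := hle a ha; constructor <;> omega,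
    Val.fac (K := K) hp S (· - ·) fun a ha b hb h => by have := hle a ha; constructor <;> omega]
  have h1 : Nm (p ^ 1) S ≤ ∑ k ∈ Ico 1 K, Nm (p ^ k) S :=
    single_le_sum (f := fun k => Nm (p ^ k) S) (fun k _ => Nm_nonneg (pow_pos hp.pos k) S)
      (mem_Ico.2 ⟨le_rfl, by omega⟩)
  rw [pow_one] at h1
  simp only [Nm, sum_sub_distrib, sum_add_distrib] at h1 ⊢
  push_cast at h1 ⊢
  linarith

/-- Write `ν = ν.filter (p ∣ ·) + ν'`; show for `μ` with odd parts divisible by `p`, by induction on `μ`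
for all `S`: `X S (μ + ν') ≠ 0 → (μ.sum : ℤ) ≤ p * Nm p S`. Step: `XV_cons`, `XV_eq_sum` give `T`
with `Bo (-k) (bv S) T ≠ 0`, `X T (μ + ν') ≠ 0`; `Bo_supp`, `Nm_bar`. Base: `Nm_nonneg`. -/
theorem le_Nm {p : ℕ} (hp : Odd p) {S : Finset ℕ} {ν : Multiset ℕ} (hν : ∀ j ∈ ν, Odd j)
    (h : X S ν ≠ 0) {w : ℕ} (hw : p * w ≤ (ν.filter (p ∣ ·)).sum) : (w : ℤ) ≤ Nm p S := by
  have key : ∀ (ν' : Multiset ℕ), (∀ j ∈ ν', Odd j) → ∀ μ : Multiset ℕ, (∀ j ∈ μ, Odd j ∧ p ∣ j) →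
      ∀ S : Finset ℕ, X S (μ + ν') ≠ 0 → (μ.sum : ℤ) ≤ p * Nm p S := by
    intro ν' h' μ
    induction μ using Multiset.induction_on with
    | empty => exact fun _ S _ => by simpa using mul_nonneg (Int.natCast_nonneg p) (Nm_nonneg hp.pos S)
    | cons k μ ih =>
      intro hμ S hX
      obtain ⟨hk, pk⟩ := hμ k (Multiset.mem_cons_self _ _)
      have hμ' : ∀ j ∈ μ, Odd j ∧ p ∣ j := fun j hj => hμ j (Multiset.mem_cons_of_mem hj)
      rw [Multiset.cons_add, X, XV_cons hk (fun j hj => (Multiset.mem_add.1 hj).elim (fun h => (hμ' j h).1) (h' j)),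
        XV_eq_sum] at hX
      obtain ⟨T, -, hT⟩ := exists_ne_zero_of_sum_ne_zero hX
      have h1 := ih hμ' T (right_ne_zero_of_mul hT)
      rw [Nm_bar hp pk (Bo_supp hk.pos (left_ne_zero_of_mul hT)).1, Multiset.sum_cons, mul_add]
      have h2 : (p : ℤ) * (k / p : ℕ) = k := by exact_mod_cast Nat.mul_div_cancel' pk
      push_cast at h1 h2 ⊢
      linarith
  have h1 := key (ν.filter fun j => ¬ p ∣ j) (fun j hj => hν j (Multiset.mem_filter.1 hj).1) (ν.filter (p ∣ ·))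
    (fun j hj => ⟨hν j (Multiset.mem_filter.1 hj).1, (Multiset.mem_filter.1 hj).2⟩) S
    (by rwa [Multiset.filter_add_not])
  have h2 : (p : ℤ) * w ≤ p * Nm p S := le_trans (by exact_mod_cast hw) h1
  exact le_of_mul_le_mul_left h2 (by exact_mod_cast hp.pos)

end CL.SP
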