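import Mathlib
import Cfsg.Agent.BLK.SP.VBsym
import Cfsg.Agent.BLK.SP.EsDiv
import Cfsg.Agent.BLK.SP.EsNorm
import Cfsg.Agent.BLK.SP.Val
import Cfsg.Agent.BLK.SP.DegMN
import Cfsg.Agent.CHAR.Constit

/-!
# The valuation bound for the double covers
-/

set_option autoImplicit false

open Finset Equiv Subgroup Cfsg CL.Char CL.Sym

namespace CL.SP

variable {n p : ℕ}

theorem VBs.mem {S : Finset ℕ} (hS : S ∈ strict n) : 0 ∉ S ∧ S.sum id = n := by
  obtain ⟨h1, h2⟩ := mem_filter.1 hS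
  exact ⟨fun h => absurd (mem_Icc.1 (mem_powerset.1 h1 h)).1 (by omega), h2⟩

theorem VBs.val (hp : p.Prime) (hp2 : p ≠ 2) {x : ℚ} (hx : x ≠ 0) (a : ℕ) :
    padicValRat p (2 ^ a * x) = padicValRat p x := by
  have := Fact.mk hp
  have h2 : padicValRat p 2 = 0 := by
    have := padicValRat.of_nat (p := p) (n := 2)
    rw [padicValNat.eq_zero_of_not_dvd fun h => hp2 ((Nat.prime_dvd_prime_iff_eq hp Nat.prime_two).1 h)] at this
    exact_mod_cast this
  rw [padicValRat.mul (by positivity) hx, padicValRat.pow, h2, mul_zero, zero_add]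

/-- At `1`: `2 ^ n * gS S = ε * 2 ^ a * ψ 1` (`Es_one`, `X_one`, `S.sum id = n`), so in `ℚ`
`padicValRat p (gS S) = v_p (charDegree ψ)` (`p` odd). If `ψ g ≠ 0` then `Es S (j g) ≠ 0`;
`odd_of_Es_ne_zero`, `le_Nm`, `val_gS`. -/
theorem vb_of_Es (hp : p.Prime) (hp2 : p ≠ 2) {G : Type*} [Group G] [Finite G] (j : G →* Pin n)
    (ψ : IrrCharacter G) {S : Finset ℕ} (hS : S ∈ strict n) {ε : ℤ} (hε : ε = 1 ∨ ε = -1) {a : ℕ}
    (h : ∀ g, Es S (j g) = ε * 2 ^ a * ψ.1 g) : VB p ((pr n).comp j) ψ.1 := by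
  intro g hg w hw
  obtain ⟨h0, hn⟩ := VBs.mem hS
  have ε0 : (ε : ℂ) ≠ 0 := by rcases hε with rfl | rfl <;> simp
  obtain ⟨o, hX⟩ := odd_of_Es_ne_zero (S := S) (g := j g) (by
    rw [h]; exact mul_ne_zero (mul_ne_zero ε0 (pow_ne_zero _ two_ne_zero)) hg)
  have h1 := le_Nm (hp.odd_of_ne_two hp2) o hX hw
  obtain ⟨h2, h3⟩ := val_gS hp h0
  have e := h 1
  have e1 := X_one h0
  rw [hn] at e1 h3
  rw [map_one, Es_one, e1, ψ.2.apply_one_eq_charDegree] at e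
  have e2 : (2 : ℚ) ^ n * gS S = ε * (2 ^ a * charDegree ψ.1) := by
    rw [← mul_assoc]; exact_mod_cast e
  have d0 : ((charDegree ψ.1 : ℕ) : ℚ) ≠ 0 := by exact_mod_cast ψ.2.charDegree_pos.ne'
  have e3 : padicValRat p (gS S) = (charDegree ψ.1).factorization p := by
    rw [← VBs.val hp hp2 h2.ne' n, e2, Nat.factorization_def _ hp, ← padicValRat.of_nat,
      ← VBs.val hp hp2 d0 a]
    rcases hε with rfl | rfl <;> simp
  rw [e3] at h3
  omega

/-- Let `z = ⟨zz n, _⟩`. If `χ z = χ 1`: take `ψ` over `χ` (`IsIrrCharacter.exists_over`); `zz` is central,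
so `ψ (zz * g) = c * ψ g` and `χ (z * h) = χ h` (central scalars); the inner product is unchanged under
`h ↦ z * h`, so `c = 1`; `vb_infl` with `pr_surj`, `pr_eq_one`. Else `exists_Es_inner` gives `S`.
`n + #S` odd: `eq_of_inner` in `Spin n` with `a = (n + #S + 1) / 2` (`Es_inner_spin`, `Es_norm_spin`),
`vb_of_Es` with `j = (Spin n).subtype`. `n + #S` even: `Es S ≠ 0` is a class function, so some `ψ` has
`⟨Es S, ψ⟩ ≠ 0`; `eq_of_inner` in `Pin n` with `a = (n + #S) / 2`; `ψ = ε 2^{-a} Es S` lies over `χ`;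
`vb_of_Es` with `j = MonoidHom.id _`. -/
theorem dich_spin [Fintype (Spin n)] (hp : p.Prime) (hp2 : p ≠ 2) (hn : 2 ≤ n)
    (χ : IrrCharacter (Spin n)) : VB p ((pr n).comp (Spin n).subtype) χ.1 ∨
      ∃ ψ : IrrCharacter (Pin n), classInner (fun h : Spin n => ψ.1 h.1) χ.1 ≠ 0 ∧
        VB p (pr n) ψ.1 := by
  classical
  have := Fintype.ofFinite (Pin n)
  let z : Spin n := ⟨zz n, show pr n (zz n) ∈ alternatingGroup _ from one_mem _⟩
  by_cases hz : χ.1 z = χ.1 1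
  · obtain ⟨ψ, hψ, ne⟩ := χ.2.exists_over
    refine Or.inr ⟨⟨ψ, hψ⟩, ne, vb_infl hp pr_surj ⟨ψ, hψ⟩ fun g hg => ?_⟩
    rcases pr_eq_one.1 hg with rfl | rfl
    · rfl
    have n1 : ∀ {G : Type} [Group G] {θ : G → ℂ}, IsIrrCharacter G θ → θ 1 ≠ 0 := fun h => by
      rw [h.apply_one_eq_charDegree]; exact_mod_cast h.charDegree_pos.ne'
    have k1 : ∀ h, χ.1 (z * h) = χ.1 h := fun h => mul_left_cancel₀ (n1 χ.2) (by
      rw [χ.2.apply_center_mul (mem_center_iff.2 fun g => Subtype.ext (zz_comm g.1)), hz])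
    have k2 := hψ.apply_center_mul (mem_center_iff.2 (zz_comm (n := n)))
    refine (mul_right_cancel₀ ne ?_ : ψ (zz n) = ψ 1)
    rw [classInner, mul_left_comm, mul_left_comm (ψ 1)]
    congr 1
    rw [mul_sum, mul_sum, ← Equiv.sum_comp (Equiv.mulLeft z) fun h : Spin n => ψ 1 * (ψ h * (starRingEnd ℂ) (χ.1 h))]
    refine sum_congr rfl fun h _ => ?_
    rw [Equiv.coe_mulLeft, k1, ← mul_assoc, ← mul_assoc, ← k2]
    rfl
  obtain ⟨S, hS, ne⟩ := exists_Es_inner χ.1 (z := z) rfl hz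
  obtain ⟨h0, -⟩ := VBs.mem hS
  have h4 : ∀ a : ℕ, (2 : ℝ) ^ (2 * a) = 4 ^ a := fun a => by rw [pow_mul]; norm_num
  rcases Nat.even_or_odd' (n + #S) with ⟨a, e | e⟩
  · obtain ⟨ψ, hψ, n1, n2⟩ := exists_constituent_comp (fun h : Spin n => h.1) (Es_class S) ne
    obtain ⟨ε, hε, h⟩ := eq_of_inner (Es_class S) (a := a) (fun ψ => by
      have := Es_inner_pin h0 ψ
      rwa [show (n + #S) / 2 = a by omega] at this) (by
      have := Es_norm_pin hS
      rwa [e, h4] at this) (χ := ⟨ψ, hψ⟩) n1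
    exact Or.inr ⟨⟨ψ, hψ⟩, n2, vb_of_Es hp hp2 (MonoidHom.id _) ⟨ψ, hψ⟩ hS hε h⟩
  · obtain ⟨ε, hε, h⟩ := eq_of_inner (E := fun h : Spin n => Es S h.1) (fun g h => Es_class S g.1 h.1)
      (a := a + 1) (fun ψ => by
      have := Es_inner_spin h0 ψ
      rwa [show (n + #S + 1) / 2 = a + 1 by omega] at this) (by
      have := Es_norm_spin hn hS
      rwa [show n + #S + 1 = 2 * (a + 1) by omega, h4] at this) ne
    exact Or.inl (vb_of_Es hp hp2 (Spin n).subtype χ hS hε h)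

end CL.SP
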